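import Mathlib

/-!
# Klein's class equation for groups with abelian, TI "tori"

`klein_count`: a finite group in which centralisers of non-central elements are abelian and have
index at most `2` in their normalisers, and which contains four pairwise non-commuting elements
of a conjugation-invariant set `S` whose elements have order divisible by `m ≥ 4` modulo the
centre, has `m = 5` (piece K1 of S3055, for helper10).  Helper66.
-/

set_option autoImplicit false

namespace Cfsg.Agent.Lib.Helper66.KleinCount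

open Subgroup

section Basic

variable {H : Type*} [Group H]

/-- conjugating a commuting pair -/
theorem conj_comm {a b : H} (c : H) (h : a * b = b * a) :
    (c * a * c⁻¹) * (c * b * c⁻¹) = (c * b * c⁻¹) * (c * a * c⁻¹) := by
  calc (c * a * c⁻¹) * (c * b * c⁻¹) = c * (a * b) * c⁻¹ := by group
    _ = c * (b * a) * c⁻¹ := by rw [h]
    _ = _ := by group

theorem conj_not_mem_center {g : H} (hg : g ∉ center H) (y : H) : y * g * y⁻¹ ∉ center H := by
  intro h
  apply hg
  have h2 := (inferInstance : (center H).Normal).conj_mem _ h y⁻¹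
  have e : y⁻¹ * (y * g * y⁻¹) * y⁻¹⁻¹ = g := by group
  rwa [e] at h2

theorem card_mul_relIndex' {K L : Subgroup H} (h : K ≤ L) :
    Nat.card K * K.relIndex L = Nat.card L := by
  have h1 := Subgroup.card_mul_index (K.subgroupOf L)
  rw [Nat.card_congr (Subgroup.subgroupOfEquivOfLe h).toEquiv] at h1
  exact h1

/-- the relation "the centralisers are conjugate" in elementary form -/
def Rel (x g : H) : Prop := ∃ y : H, x * (y * g * y⁻¹) = (y * g * y⁻¹) * x

theorem rel_symm {x g : H} (h : Rel x g) : Rel g x := by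
  obtain ⟨y, hy⟩ := h
  refine ⟨y⁻¹, ?_⟩
  have h1 := conj_comm y⁻¹ hy
  have e : y⁻¹ * (y * g * y⁻¹) * y⁻¹⁻¹ = g := by group
  rw [e] at h1
  exact h1.symm

variable (hCA : ∀ h : H, h ∉ center H → ∀ a b : H, a * h = h * a → b * h = h * b → a * b = b * a)
include hCA

theorem torus_iff {u v : H} (hu : u ∉ center H) (hv : v ∉ center H) (huv : u * v = v * u)
    (w : H) : w * u = u * w ↔ w * v = v * w := by
  constructor
  · intro hw
    exact hCA u hu w v hw huv.symm
  · intro hw
    exact hCA v hv w u hw huv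

theorem rel_trans {x g g' : H} (hg : g ∉ center H) (h1 : Rel x g) (h2 : Rel g g') :
    Rel x g' := by
  obtain ⟨y, hy⟩ := h1
  obtain ⟨w, hw⟩ := h2
  refine ⟨y * w, ?_⟩
  have h3 := conj_comm y hw
  have e : y * (w * g' * w⁻¹) * y⁻¹ = (y * w) * g' * (y * w)⁻¹ := by group
  rw [e] at h3
  exact hCA (y * g * y⁻¹) (conj_not_mem_center hg y) x _ hy h3.symm

/-- the normaliser of the centraliser of a non-central element -/
theorem mem_norm_iff {g : H} (hg : g ∉ center H) (a : H) :
    a ∈ normalizer ((centralizer {g} : Subgroup H) : Set H) ↔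
      g * (a * g * a⁻¹) = (a * g * a⁻¹) * g := by
  rw [mem_normalizer_iff]
  constructor
  · intro h
    have h1 : g ∈ centralizer ({g} : Set H) := mem_centralizer_singleton_iff.mpr rfl
    have h2 := (h g).mp h1
    rw [mem_centralizer_singleton_iff] at h2
    exact h2.symm
  · intro h w
    rw [mem_centralizer_singleton_iff, mem_centralizer_singleton_iff]
    have hc := conj_not_mem_center hg a
    constructor
    · intro hw
      have h1 := conj_comm a hw
      exact (torus_iff hCA hc hg h.symm _).mp h1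
    · intro hw
      have h1 := (torus_iff hCA hc hg h.symm _).mpr hw
      have h2 := conj_comm a⁻¹ h1
      have e1 : a⁻¹ * (a * w * a⁻¹) * a⁻¹⁻¹ = w := by group
      have e2 : a⁻¹ * (a * g * a⁻¹) * a⁻¹⁻¹ = g := by group
      rw [e1, e2] at h2
      exact h2

end Basic

section Count

open Classical

variable {H : Type*} [Group H] [Fintype H]

/-- the non-central elements -/
noncomputable def U : Finset H := Finset.univ.filter (fun x => x ∉ center H)

/-- the non-central elements commuting with `g` -/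
noncomputable def TZ (g : H) : Finset H :=
  Finset.univ.filter (fun x => x ∉ center H ∧ g * x = x * g)

/-- the non-central elements whose centraliser is conjugate to that of `g` -/
noncomputable def A (g : H) : Finset H := Finset.univ.filter (fun x => x ∉ center H ∧ Rel x g)

omit [Fintype H] in
theorem card_filter_mem [Fintype H] (K : Subgroup H) [DecidablePred (· ∈ K)] :
    (Finset.univ.filter (fun x => x ∈ K)).card = Nat.card K := by
  rw [Nat.card_eq_fintype_card]
  exact (Fintype.card_of_subtype _ (by simp)).symm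

theorem mem_U {x : H} : x ∈ (U : Finset H) ↔ x ∉ center H := by simp [U]

theorem mem_TZ {g x : H} : x ∈ TZ g ↔ x ∉ center H ∧ g * x = x * g := by simp [TZ]

theorem mem_A {g x : H} : x ∈ A g ↔ x ∉ center H ∧ Rel x g := by simp [A]

theorem A_subset_U (g : H) : A g ⊆ U := fun _ hx => mem_U.mpr (mem_A.mp hx).1

theorem self_mem_A {g : H} (hg : g ∉ center H) : g ∈ A g :=
  mem_A.mpr ⟨hg, 1, by simp⟩

theorem card_U : (U : Finset H).card + Nat.card (center H) = Nat.card H := by
  have h := Finset.card_filter_add_card_filter_not (s := (Finset.univ : Finset H))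
    (fun x => x ∈ center H)
  rw [card_filter_mem, Finset.card_univ, ← Nat.card_eq_fintype_card] at h
  unfold U
  omega

theorem card_TZ (g : H) :
    (TZ g).card + Nat.card (center H) = Nat.card (centralizer ({g} : Set H)) := by
  have h := Finset.card_filter_add_card_filter_not
    (s := (Finset.univ.filter (fun x : H => x ∈ centralizer ({g} : Set H))))
    (fun x => x ∈ center H)
  rw [card_filter_mem] at h
  have e1 : (Finset.univ.filter (fun x : H => x ∈ centralizer ({g} : Set H))).filter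
      (fun x => x ∈ center H) = Finset.univ.filter (fun x => x ∈ center H) := by
    ext x
    simp only [Finset.mem_filter, Finset.mem_univ, true_and, and_iff_right_iff_imp]
    intro hx
    rw [mem_centralizer_singleton_iff]
    exact (Subgroup.mem_center_iff.mp hx g).symm
  have e2 : (Finset.univ.filter (fun x : H => x ∈ centralizer ({g} : Set H))).filter
      (fun x => ¬ x ∈ center H) = TZ g := by
    ext x
    simp only [Finset.mem_filter, Finset.mem_univ, true_and, mem_TZ,
      mem_centralizer_singleton_iff]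
    constructor
    · rintro ⟨h1, h2⟩; exact ⟨h2, h1.symm⟩
    · rintro ⟨h1, h2⟩; exact ⟨h2.symm, h1⟩
  rw [e1, e2, card_filter_mem] at h
  omega

variable (hCA : ∀ h : H, h ∉ center H → ∀ a b : H, a * h = h * a → b * h = h * b → a * b = b * a)
include hCA

theorem disjoint_A {g g' : H} (hgZ : g' ∉ center H) (hg' : g' ∉ A g) :
    Disjoint (A g) (A g') := by
  rw [Finset.disjoint_left]
  intro x hx hx'
  obtain ⟨hxZ, h1⟩ := mem_A.mp hx
  obtain ⟨-, h2⟩ := mem_A.mp hx'
  exact hg' (mem_A.mpr ⟨hgZ, rel_trans hCA hxZ (rel_symm h2) h1⟩)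

theorem TZ_subset_A {g x : H} (hx : x ∈ A g) : TZ x ⊆ A g := by
  intro u hu
  obtain ⟨hxZ, h1⟩ := mem_A.mp hx
  obtain ⟨huZ, h2⟩ := mem_TZ.mp hu
  refine mem_A.mpr ⟨huZ, rel_trans hCA hxZ ⟨1, ?_⟩ h1⟩
  simpa using h2.symm

theorem card_TZ_eq {g x : H} (hg : g ∉ center H) (hx : x ∈ A g) : (TZ x).card = (TZ g).card := by
  obtain ⟨hxZ, y, hy⟩ := mem_A.mp hx
  have hcZ := conj_not_mem_center hg y
  have e1 : TZ x = TZ (y * g * y⁻¹) := by
    ext u
    rw [mem_TZ, mem_TZ]
    constructor
    · rintro ⟨h1, h2⟩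
      exact ⟨h1, ((torus_iff hCA hxZ hcZ hy u).mp h2.symm).symm⟩
    · rintro ⟨h1, h2⟩
      exact ⟨h1, ((torus_iff hCA hxZ hcZ hy u).mpr h2.symm).symm⟩
  have e2 : TZ (y * g * y⁻¹) = (TZ g).image (fun u => y * u * y⁻¹) := by
    ext u
    rw [mem_TZ, Finset.mem_image]
    constructor
    · rintro ⟨h1, h2⟩
      refine ⟨y⁻¹ * u * y, mem_TZ.mpr ⟨?_, ?_⟩, by group⟩
      · have := conj_not_mem_center h1 y⁻¹
        simpa using this
      · have h3 := conj_comm y⁻¹ h2
        have e3 : y⁻¹ * (y * g * y⁻¹) * y⁻¹⁻¹ = g := by group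
        have e4 : y⁻¹ * u * y⁻¹⁻¹ = y⁻¹ * u * y := by group
        rw [e3, e4] at h3
        exact h3
    · rintro ⟨v, hv, rfl⟩
      obtain ⟨h1, h2⟩ := mem_TZ.mp hv
      exact ⟨conj_not_mem_center h1 y, conj_comm y h2⟩
  rw [e1, e2]
  apply Finset.card_image_of_injective
  intro a b hab
  simpa using hab

theorem disjoint_TZ {s s' : H} (h : s * s' ≠ s' * s) : Disjoint (TZ s) (TZ s') := by
  rw [Finset.disjoint_left]
  intro u hu hu'
  obtain ⟨huZ, h1⟩ := mem_TZ.mp hu
  obtain ⟨-, h2⟩ := mem_TZ.mp hu'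
  exact h (hCA u huZ s s' h1 h2)

/-- counting a class of tori: `|A g| * |N(T)| = |H| * |T \ Z|` -/
theorem card_A_mul {g : H} (hg : g ∉ center H) :
    (A g).card * Nat.card (normalizer ((centralizer {g} : Subgroup H) : Set H)) =
      Nat.card H * (TZ g).card := by
  set NN : Finset H :=
    Finset.univ.filter (fun x => x ∈ normalizer ((centralizer {g} : Subgroup H) : Set H)) with hNN
  have hNNcard : NN.card = Nat.card (normalizer ((centralizer {g} : Subgroup H) : Set H)) :=
    card_filter_mem _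
  set P : Finset (H × H) := Finset.univ ×ˢ TZ g with hP
  set f : H × H → H := fun p => p.1 * p.2 * p.1⁻¹ with hf
  have hmaps : Set.MapsTo f (P : Set (H × H)) (A g : Set H) := by
    rintro ⟨x, u⟩ hp
    have hu : u ∈ TZ g := by
      have := Finset.mem_coe.mp hp
      rw [hP, Finset.mem_product] at this
      exact this.2
    obtain ⟨huZ, h2⟩ := mem_TZ.mp hu
    exact Finset.mem_coe.mpr (mem_A.mpr ⟨conj_not_mem_center huZ x, x, conj_comm x h2.symm⟩)
  have hfib : ∀ b ∈ A g, (P.filter (fun p => f p = b)).card = NN.card := by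
    intro b hb
    obtain ⟨hbZ, y, hy⟩ := mem_A.mp hb
    set u₀ : H := y⁻¹ * b * y with hu₀
    have hu₀Z : u₀ ∉ center H := by
      have := conj_not_mem_center hbZ y⁻¹
      simpa [hu₀] using this
    have hu₀g : g * u₀ = u₀ * g := by
      have h3 := conj_comm y⁻¹ hy
      have e3 : y⁻¹ * (y * g * y⁻¹) * y⁻¹⁻¹ = g := by group
      have e4 : y⁻¹ * b * y⁻¹⁻¹ = u₀ := by rw [hu₀]; group
      rw [e3, e4] at h3
      exact h3.symm
    have hb' : b = y * u₀ * y⁻¹ := by rw [hu₀]; group
    have e : P.filter (fun p => f p = b) = NN.image (fun n => (y * n, n⁻¹ * u₀ * n)) := by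
      ext ⟨x, u⟩
      rw [Finset.mem_filter, Finset.mem_image]
      constructor
      · rintro ⟨hp, hfb⟩
        have hu : u ∈ TZ g := by
          rw [hP, Finset.mem_product] at hp
          exact hp.2
        obtain ⟨huZ, hug⟩ := mem_TZ.mp hu
        have hfb' : x * u * x⁻¹ = b := hfb
        have hu' : u = (y⁻¹ * x)⁻¹ * u₀ * (y⁻¹ * x) := by
          rw [hu₀, ← hfb']; group
        refine ⟨y⁻¹ * x, ?_, ?_⟩
        · rw [hNN, Finset.mem_filter]
          refine ⟨Finset.mem_univ _, ?_⟩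
          rw [mem_norm_iff hCA hg]
          -- `n g n⁻¹` and `g` both commute with `u₀`
          have h5 : (y⁻¹ * x) * u * (y⁻¹ * x)⁻¹ = u₀ := by rw [hu']; group
          have h6 := conj_comm (y⁻¹ * x) hug
          rw [h5] at h6
          exact hCA u₀ hu₀Z g _ hu₀g h6
        · rw [Prod.mk.injEq]
          exact ⟨by group, hu'.symm⟩
      · rintro ⟨n, hn, hnx⟩
        rw [Prod.mk.injEq] at hnx
        obtain ⟨rfl, rfl⟩ := hnx
        rw [hNN, Finset.mem_filter] at hn
        have hn' : n⁻¹ ∈ normalizer ((centralizer {g} : Subgroup H) : Set H) :=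
          Subgroup.inv_mem _ hn.2
        have h7 : n⁻¹ * u₀ * n ∈ centralizer ({g} : Set H) := by
          have := (mem_normalizer_iff.mp hn' u₀).mp (mem_centralizer_singleton_iff.mpr hu₀g.symm)
          simpa using this
        have h8 : n⁻¹ * u₀ * n ∉ center H := by
          have := conj_not_mem_center hu₀Z n⁻¹
          simpa using this
        refine ⟨?_, ?_⟩
        · rw [hP, Finset.mem_product]
          exact ⟨Finset.mem_univ _, mem_TZ.mpr ⟨h8, (mem_centralizer_singleton_iff.mp h7).symm⟩⟩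
        · show y * n * (n⁻¹ * u₀ * n) * (y * n)⁻¹ = b
          rw [hb']; group
    rw [e]
    apply Finset.card_image_of_injective
    intro a b hab
    have := (Prod.mk.injEq _ _ _ _ ▸ hab).1
    exact mul_left_cancel this
  have h1 := Finset.card_eq_sum_card_fiberwise hmaps
  rw [Finset.sum_congr rfl hfib, Finset.sum_const, smul_eq_mul, hNNcard] at h1
  rw [← h1, hP, Finset.card_product, Finset.card_univ, ← Nat.card_eq_fintype_card]

omit [Fintype H] in
/-- the normaliser of a torus has index at most `2` -/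
theorem card_normalizer
    (hN2 : ∀ h : H, h ∉ center H → ∀ a b : H,
      (a * h * a⁻¹) * h = h * (a * h * a⁻¹) → (b * h * b⁻¹) * h = h * (b * h * b⁻¹) →
      a * h ≠ h * a → b * h ≠ h * b → (a⁻¹ * b) * h = h * (a⁻¹ * b))
    {g : H} (hg : g ∉ center H) :
    Nat.card (normalizer ((centralizer {g} : Subgroup H) : Set H)) =
        Nat.card (centralizer ({g} : Set H)) ∨
      Nat.card (normalizer ((centralizer {g} : Subgroup H) : Set H)) =
        2 * Nat.card (centralizer ({g} : Set H)) := by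
  set T : Subgroup H := centralizer ({g} : Set H) with hT
  set N : Subgroup H := normalizer (T : Set H) with hN
  have hTN : T ≤ N := le_normalizer
  have hcard := card_mul_relIndex' hTN
  by_cases hle : N ≤ T
  · left
    rw [le_antisymm hle hTN]
  · right
    obtain ⟨a, haN, haT⟩ := SetLike.not_le_iff_exists.mp hle
    have key : ∀ x y : H, x ∈ N → y ∈ N → x ∉ T → y ∉ T → x⁻¹ * y ∈ T := by
      intro x y hx hy hxT hyT
      rw [hT, mem_centralizer_singleton_iff]
      have hx' := (mem_norm_iff hCA hg x).mp hx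
      have hy' := (mem_norm_iff hCA hg y).mp hy
      have hxT' : x * g ≠ g * x := fun h => hxT (mem_centralizer_singleton_iff.mpr h)
      have hyT' : y * g ≠ g * y := fun h => hyT (mem_centralizer_singleton_iff.mpr h)
      exact hN2 g hg x y hx'.symm hy'.symm hxT' hyT'
    have hidx : (T.subgroupOf N).index = 2 := by
      rw [index_eq_two_iff]
      refine ⟨⟨a, haN⟩, ?_⟩
      intro b
      by_cases hb : (b : H) ∈ T
      · right
        refine ⟨mem_subgroupOf.mpr hb, ?_⟩
        intro hba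
        have hba' : (b : H) * a ∈ T := mem_subgroupOf.mp hba
        apply haT
        have := T.mul_mem (T.inv_mem hb) hba'
        simpa using this
      · left
        refine ⟨?_, fun h => hb (mem_subgroupOf.mp h)⟩
        rw [mem_subgroupOf]
        have h1 : (b : H)⁻¹ ∉ T := fun h => hb (by simpa using T.inv_mem h)
        have := key (b : H)⁻¹ a (N.inv_mem b.2) haN h1 haT
        simpa using this
    have : T.relIndex N = 2 := hidx
    rw [this] at hcard
    omega

/-- numerical data of the class of tori of a non-central element -/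
theorem class_data
    (hN2 : ∀ h : H, h ∉ center H → ∀ a b : H,
      (a * h * a⁻¹) * h = h * (a * h * a⁻¹) → (b * h * b⁻¹) * h = h * (b * h * b⁻¹) →
      a * h ≠ h * a → b * h ≠ h * b → (a⁻¹ * b) * h = h * (a⁻¹ * b))
    (S : Set H) (m : ℕ) (hSord : ∀ s ∈ S, ∀ k : ℕ, s ^ k ∈ center H → m ∣ k)
    {g : H} (hg : g ∉ center H) :
    ∃ q e t : ℕ, (e = 1 ∨ e = 2) ∧ 2 ≤ t ∧ 2 ≤ q * e ∧ (center H).index = q * e * t ∧
      (A g).card = Nat.card (center H) * (q * (t - 1)) ∧
      (TZ g).card = Nat.card (center H) * (t - 1) ∧ (g ∈ S → m ∣ t) := by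
  set z := Nat.card (center H) with hz
  have hz0 : 0 < z := Nat.card_pos
  set T : Subgroup H := centralizer ({g} : Set H) with hT
  have hZT : center H ≤ T := center_le_centralizer _
  have hgT : g ∈ T := mem_centralizer_singleton_iff.mpr rfl
  set t := (center H).relIndex T with ht
  have h1 : z * t = Nat.card T := card_mul_relIndex' hZT
  have hT0 : 0 < Nat.card T := Nat.card_pos
  set N : Subgroup H := normalizer (T : Set H) with hN
  set q := N.index with hq
  have h2 : Nat.card N * q = Nat.card H := card_mul_index N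
  have h3 : z * (center H).index = Nat.card H := card_mul_index (center H)
  have hH0 : 0 < Nat.card H := Nat.card_pos
  have ht2 : 2 ≤ t := by
    rcases Nat.lt_or_ge t 2 with hlt | hge
    · exfalso
      have ht1 : t = 1 := by
        rcases Nat.eq_zero_or_pos t with h0 | h0
        · rw [h0, Nat.mul_zero] at h1; omega
        · omega
      rw [ht1, Nat.mul_one] at h1
      have := eq_of_le_of_card_ge hZT (le_of_eq h1.symm)
      exact hg (this ▸ hgT)
    · exact hge
  have hTZ : (TZ g).card = z * (t - 1) := by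
    have := card_TZ g
    rw [← hT, ← h1] at this
    rw [Nat.mul_sub_one]
    omega
  have hcardA := card_A_mul hCA hg
  rw [← hT, ← hN] at hcardA
  have hmt : g ∈ S → m ∣ t := by
    intro hgS
    apply hSord g hgS
    have := pow_index_mem ((center H).subgroupOf T) (⟨g, hgT⟩ : T)
    have h5 : ((⟨g, hgT⟩ : T) ^ ((center H).subgroupOf T).index : T) ∈ (center H).subgroupOf T :=
      this
    rw [mem_subgroupOf] at h5
    have h6 : g ^ ((center H).subgroupOf T).index ∈ center H := by simpa using h5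
    exact h6
  have hTtop : Nat.card T ≠ Nat.card H := by
    intro h
    have := (card_eq_iff_eq_top T).mp h
    apply hg
    rw [mem_center_iff]
    intro x
    have hx : x ∈ T := by rw [this]; trivial
    exact mem_centralizer_singleton_iff.mp hx
  have key : ∀ e : ℕ, (e = 1 ∨ e = 2) → Nat.card N = e * Nat.card T →
      ∃ q e t : ℕ, (e = 1 ∨ e = 2) ∧ 2 ≤ t ∧ 2 ≤ q * e ∧ (center H).index = q * e * t ∧
      (A g).card = z * (q * (t - 1)) ∧ (TZ g).card = z * (t - 1) ∧ (g ∈ S → m ∣ t) := by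
    intro e he hNe
    refine ⟨q, e, t, he, ht2, ?_, ?_, ?_, hTZ, hmt⟩
    · -- `q * e ≥ 2`
      rw [hNe] at h2
      by_contra hlt
      have hqe : q * e ≤ 1 := by omega
      have hqe1 : q * e = 1 := by
        rcases Nat.eq_zero_or_pos (q * e) with h0 | h0
        · have : e * Nat.card T * q = (q * e) * Nat.card T := by ring
          rw [this, h0, Nat.zero_mul] at h2
          omega
        · omega
      have : e * Nat.card T * q = (q * e) * Nat.card T := by ring
      rw [this, hqe1, Nat.one_mul] at h2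
      exact hTtop h2
    · -- index of the centre
      rw [hNe, ← h1, ← h3] at h2
      have : z * (q * e * t) = z * (center H).index := by
        rw [← h2]; ring
      exact (Nat.eq_of_mul_eq_mul_left hz0 this).symm
    · rw [hNe, ← h2, hNe, hTZ, ← h1] at hcardA
      have h6 : (A g).card * (e * (z * t)) = (z * (q * (t - 1))) * (e * (z * t)) := by
        rw [hcardA]; ring
      have hpos : 0 < e * (z * t) := by
        rcases he with rfl | rfl <;> positivity
      exact Nat.eq_of_mul_eq_mul_right hpos h6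
  rcases card_normalizer hCA hN2 hg with h | h
  · exact key 1 (Or.inl rfl) (by rw [← hT, ← hN] at h; rw [h, Nat.one_mul])
  · exact key 2 (Or.inr rfl) (by rw [← hT, ← hN] at h; exact h)

end Count

section Main

open Classical

theorem arith235 (M q0 t0 q1 t1 q2 t2 : ℕ) (h0 : M = q0 * t0) (h1 : M = q1 * t1)
    (h2 : M = q2 * t2) (ht0 : 4 ≤ t0) (hq0 : 4 ≤ q0) (ht1 : 2 ≤ t1) (ht2 : 2 ≤ t2)
    (hsum : q0 + q1 + q2 = M + 1) : t0 = 5 := by
  have a0 : q0 * 4 ≤ M := by rw [h0]; exact Nat.mul_le_mul_left q0 ht0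
  -- the final step, once `t1 = 2`, `t2 = 3` (up to symmetry)
  have fin : ∀ qa qb : ℕ, M = qa * 2 → M = qb * 3 → q0 + qa + qb = M + 1 → t0 = 5 := by
    intro qa qb ha hb hs
    rcases Nat.lt_or_ge t0 6 with hlt | hge
    · interval_cases t0
      · omega
      · rfl
    · have : q0 * 6 ≤ M := by rw [h0]; exact Nat.mul_le_mul_left q0 hge
      omega
  have two : ∀ qa qb tb : ℕ, M = qa * 2 → M = qb * tb → 2 ≤ tb → q0 + qa + qb = M + 1 →
      t0 = 5 := by
    intro qa qb tb ha hb htb hs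
    rcases Nat.lt_or_ge tb 4 with hlt | hge
    · interval_cases tb
      · omega
      · exact fin qa qb ha hb hs
    · have : qb * 4 ≤ M := by rw [hb]; exact Nat.mul_le_mul_left qb hge
      omega
  rcases Nat.lt_or_ge t1 3 with hlt1 | hge1
  · have : t1 = 2 := by omega
    subst this
    exact two q1 q2 t2 h1 h2 ht2 hsum
  · rcases Nat.lt_or_ge t2 3 with hlt2 | hge2
    · have : t2 = 2 := by omega
      subst this
      exact two q2 q1 t1 h2 h1 ht1 (by omega)
    · have b1 : q1 * 3 ≤ M := by rw [h1]; exact Nat.mul_le_mul_left q1 hge1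
      have b2 : q2 * 3 ≤ M := by rw [h2]; exact Nat.mul_le_mul_left q2 hge2
      omega

variable {H : Type*} [Group H] [Fintype H]

theorem exists_outside (B : Finset H) (hlt : B.card < (U : Finset H).card) :
    ∃ g, g ∉ center H ∧ g ∉ B := by
  obtain ⟨g, hg, hgB⟩ := Finset.exists_mem_notMem_of_card_lt_card hlt
  exact ⟨g, mem_U.mp hg, hgB⟩

theorem klein_count_aux (m : ℕ) (hm : 4 ≤ m)
    (hCA : ∀ h : H, h ∉ center H → ∀ a b : H, a * h = h * a → b * h = h * b → a * b = b * a)
    (hN2 : ∀ h : H, h ∉ center H → ∀ a b : H,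
      (a * h * a⁻¹) * h = h * (a * h * a⁻¹) → (b * h * b⁻¹) * h = h * (b * h * b⁻¹) →
      a * h ≠ h * a → b * h ≠ h * b → (a⁻¹ * b) * h = h * (a⁻¹ * b))
    (S : Set H) (hSord : ∀ s ∈ S, ∀ k : ℕ, s ^ k ∈ center H → m ∣ k)
    (s₁ s₂ s₃ s₄ : H) (h₁ : s₁ ∈ S) (h₂ : s₂ ∈ S) (h₃ : s₃ ∈ S) (h₄ : s₄ ∈ S)
    (h12 : s₁ * s₂ ≠ s₂ * s₁) (h13 : s₁ * s₃ ≠ s₃ * s₁) (h14 : s₁ * s₄ ≠ s₄ * s₁)
    (h23 : s₂ * s₃ ≠ s₃ * s₂) (h24 : s₂ * s₄ ≠ s₄ * s₂) (h34 : s₃ * s₄ ≠ s₄ * s₃) :
    m = 5 := by
  set z := Nat.card (center H) with hz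
  have hz0 : 0 < z := Nat.card_pos
  set N := (center H).index with hNdef
  have hUcard : (U : Finset H).card = z * (N - 1) := by
    have h1 := card_U (H := H)
    have h2 : z * N = Nat.card H := card_mul_index (center H)
    rw [← h2] at h1
    rw [Nat.mul_sub_one]
    omega
  have cd : ∀ g : H, g ∉ center H → ∃ q e t : ℕ, (e = 1 ∨ e = 2) ∧ 2 ≤ t ∧ 2 ≤ q * e ∧
      N = q * e * t ∧ (A g).card = z * (q * (t - 1)) ∧ (TZ g).card = z * (t - 1) ∧
      (g ∈ S → m ∣ t) := fun g hg => class_data hCA hN2 S m hSord hg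
  have hSZ : ∀ s ∈ S, s ∉ center H := by
    intro s hs hc
    have h1 := hSord s hs 1 (by simpa using hc)
    have h2 : m ≤ 1 := Nat.le_of_dvd (by norm_num) h1
    omega
  have low : ∀ q e t : ℕ, (e = 1 ∨ e = 2) → 2 ≤ t → N = q * e * t →
      N ≤ 4 * (q * (t - 1)) := by
    intro q e t he ht hN
    obtain ⟨t', rfl⟩ := Nat.exists_eq_add_of_le ht
    have e2 : q * (2 + t' - 1) = q * t' + q := by
      have : 2 + t' - 1 = t' + 1 := by omega
      rw [this]; ring
    rw [e2, hN]
    rcases he with rfl | rfl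
    · have e1 : q * 1 * (2 + t') = q * t' + 2 * q := by ring
      rw [e1]; omega
    · have e1 : q * 2 * (2 + t') = 2 * (q * t') + 4 * q := by ring
      rw [e1]; omega
  have bound : ∀ (B : Finset H) (b c : ℕ) (g : H), B ⊆ U → B.card = z * b →
      Disjoint B (A g) → (A g).card = z * c → b + c ≤ N - 1 := by
    intro B b c g hB hBc hdis hAc
    have h1 : (B ∪ A g).card ≤ (U : Finset H).card :=
      Finset.card_le_card (Finset.union_subset hB (A_subset_U g))
    rw [Finset.card_union_of_disjoint hdis, hBc, hAc, hUcard, ← Nat.mul_add] at h1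
    exact Nat.le_of_mul_le_mul_left h1 hz0
  have pick : ∀ (B : Finset H) (b : ℕ), B.card = z * b → b < N - 1 →
      ∃ g, g ∉ center H ∧ g ∉ B := by
    intro B b hBc hb
    apply exists_outside
    rw [hBc, hUcard]
    exact (Nat.mul_lt_mul_left hz0).mpr hb
  -- classes of elements of `S` have `e = 2`
  have eS : ∀ s ∈ S, ∀ q e t : ℕ, (e = 1 ∨ e = 2) → 2 ≤ t → 2 ≤ q * e → N = q * e * t →
      (A s).card = z * (q * (t - 1)) → m ∣ t → e = 2 := by
    intro s hs q e t he ht hqe hN hA hmt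
    rcases he with rfl | rfl
    · exfalso
      have ht4 : 4 ≤ t := le_trans hm (Nat.le_of_dvd (by omega) hmt)
      obtain ⟨t', rfl⟩ := Nat.exists_eq_add_of_le ht4
      have e1 : q * 1 * (4 + t') = q * t' + 4 * q := by ring
      have e2 : q * (4 + t' - 1) = q * t' + 3 * q := by
        have : 4 + t' - 1 = t' + 3 := by omega
        rw [this]; ring
      rw [e1] at hN
      rw [e2] at hA
      have hq2 : 2 ≤ q := by omega
      obtain ⟨g, hgZ, hgA⟩ := pick (A s) _ hA (by omega)
      obtain ⟨q1, e1', t1, he1, ht1, -, hN1, hA1, -, -⟩ := cd g hgZ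
      have hlow := low q1 e1' t1 he1 ht1 hN1
      have hb := bound (A s) _ _ g (A_subset_U s) hA (disjoint_A hCA hgZ hgA) hA1
      omega
    · rfl
  have hs1Z := hSZ s₁ h₁
  obtain ⟨q0, e0, t0, he0, ht0, hqe0, hN0, hA0, hTZ0, hm0⟩ := cd s₁ hs1Z
  have hmt0 := hm0 h₁
  have he0' : e0 = 2 := eS s₁ h₁ q0 e0 t0 he0 ht0 hqe0 hN0 hA0 hmt0
  subst he0'
  have ht04 : 4 ≤ t0 := le_trans hm (Nat.le_of_dvd (by omega) hmt0)
  -- all elements of `S` lie in the class of `s₁`
  have allS : ∀ s ∈ S, s ∈ A s₁ := by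
    intro s hs
    by_contra hsA
    have hsZ := hSZ s hs
    obtain ⟨qb, eb, tb, heb, htb, hqeb, hNb, hAb, -, hmb⟩ := cd s hsZ
    have hmtb := hmb hs
    have heb' : eb = 2 := eS s hs qb eb tb heb htb hqeb hNb hAb hmtb
    subst heb'
    have htb4 : 4 ≤ tb := le_trans hm (Nat.le_of_dvd (by omega) hmtb)
    obtain ⟨ta', rfl⟩ := Nat.exists_eq_add_of_le ht04
    obtain ⟨tb', rfl⟩ := Nat.exists_eq_add_of_le htb4
    have ea1 : q0 * 2 * (4 + ta') = 2 * (q0 * ta') + 8 * q0 := by ring
    have ea2 : q0 * (4 + ta' - 1) = q0 * ta' + 3 * q0 := by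
      have : 4 + ta' - 1 = ta' + 3 := by omega
      rw [this]; ring
    have eb1 : qb * 2 * (4 + tb') = 2 * (qb * tb') + 8 * qb := by ring
    have eb2 : qb * (4 + tb' - 1) = qb * tb' + 3 * qb := by
      have : 4 + tb' - 1 = tb' + 3 := by omega
      rw [this]; ring
    rw [ea1] at hN0
    rw [ea2] at hA0
    rw [eb1] at hNb
    rw [eb2] at hAb
    have hdis : Disjoint (A s₁) (A s) := disjoint_A hCA hsZ hsA
    have hcardU : (A s₁ ∪ A s).card =
        z * ((q0 * ta' + 3 * q0) + (qb * tb' + 3 * qb)) := by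
      rw [Finset.card_union_of_disjoint hdis, hA0, hAb, ← Nat.mul_add]
    have hq0 : 1 ≤ q0 := by omega
    have hqb : 1 ≤ qb := by omega
    obtain ⟨g, hgZ, hgU⟩ := pick (A s₁ ∪ A s) _ hcardU (by omega)
    rw [Finset.mem_union, not_or] at hgU
    obtain ⟨q1, e1', t1, he1, ht1, -, hN1, hA1, -, -⟩ := cd g hgZ
    have hlow := low q1 e1' t1 he1 ht1 hN1
    have hb := bound (A s₁ ∪ A s) _ _ g
      (Finset.union_subset (A_subset_U _) (A_subset_U _)) hcardU
      (Finset.disjoint_union_left.mpr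
        ⟨disjoint_A hCA hgZ hgU.1, disjoint_A hCA hgZ hgU.2⟩) hA1
    omega
  -- the class of `s₁` contains at least four tori
  have hq04 : 4 ≤ q0 := by
    have m2 := allS s₂ h₂
    have m3 := allS s₃ h₃
    have m4 := allS s₄ h₄
    have c1 : (TZ s₁).card = z * (t0 - 1) := hTZ0
    have c2 : (TZ s₂).card = z * (t0 - 1) := (card_TZ_eq hCA hs1Z m2).trans hTZ0
    have c3 : (TZ s₃).card = z * (t0 - 1) := (card_TZ_eq hCA hs1Z m3).trans hTZ0
    have c4 : (TZ s₄).card = z * (t0 - 1) := (card_TZ_eq hCA hs1Z m4).trans hTZ0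
    have d12 := disjoint_TZ hCA h12
    have d13 := disjoint_TZ hCA h13
    have d14 := disjoint_TZ hCA h14
    have d23 := disjoint_TZ hCA h23
    have d24 := disjoint_TZ hCA h24
    have d34 := disjoint_TZ hCA h34
    have hsub : TZ s₁ ∪ TZ s₂ ∪ TZ s₃ ∪ TZ s₄ ⊆ A s₁ := by
      refine Finset.union_subset (Finset.union_subset (Finset.union_subset ?_ ?_) ?_) ?_
      · exact TZ_subset_A hCA (self_mem_A hs1Z)
      · exact TZ_subset_A hCA m2
      · exact TZ_subset_A hCA m3
      · exact TZ_subset_A hCA m4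
    have hcard : (TZ s₁ ∪ TZ s₂ ∪ TZ s₃ ∪ TZ s₄).card = 4 * (z * (t0 - 1)) := by
      rw [Finset.card_union_of_disjoint
          (Finset.disjoint_union_left.mpr ⟨Finset.disjoint_union_left.mpr ⟨d14, d24⟩, d34⟩),
        Finset.card_union_of_disjoint (Finset.disjoint_union_left.mpr ⟨d13, d23⟩),
        Finset.card_union_of_disjoint d12, c1, c2, c3, c4]
      ring
    have hle := Finset.card_le_card hsub
    rw [hcard, hA0] at hle
    have hpos : 0 < z * (t0 - 1) := Nat.mul_pos hz0 (by omega)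
    have h5 : 4 * (z * (t0 - 1)) ≤ q0 * (z * (t0 - 1)) := by
      have : q0 * (z * (t0 - 1)) = z * (q0 * (t0 - 1)) := by ring
      rw [this]; exact hle
    exact Nat.le_of_mul_le_mul_right h5 hpos
  -- expand the data of the class of `s₁`
  obtain ⟨t0', rfl⟩ := Nat.exists_eq_add_of_le ht04
  have e01 : q0 * 2 * (4 + t0') = 2 * (q0 * t0') + 8 * q0 := by ring
  have e02 : q0 * (4 + t0' - 1) = q0 * t0' + 3 * q0 := by
    have : 4 + t0' - 1 = t0' + 3 := by omega
    rw [this]; ring
  rw [e01] at hN0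
  rw [e02] at hA0
  -- every other class has `e = 2`
  have eOther : ∀ g : H, g ∉ center H → g ∉ A s₁ → ∀ q e t : ℕ, (e = 1 ∨ e = 2) → 2 ≤ t →
      2 ≤ q * e → N = q * e * t → (A g).card = z * (q * (t - 1)) → e = 2 := by
    intro g hgZ hgA q e t he ht hqe hN hA
    rcases he with rfl | rfl
    · exfalso
      obtain ⟨t', rfl⟩ := Nat.exists_eq_add_of_le ht
      have e1 : q * 1 * (2 + t') = q * t' + 2 * q := by ring
      have e2 : q * (2 + t' - 1) = q * t' + q := by
        have : 2 + t' - 1 = t' + 1 := by omega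
        rw [this]; ring
      rw [e1] at hN
      rw [e2] at hA
      have hdis := disjoint_A hCA hgZ hgA
      have hb := bound (A s₁) _ _ g (A_subset_U _) hA0 hdis hA
      rcases Nat.eq_zero_or_pos t' with h0 | hpos
      · subst h0
        rw [Nat.mul_zero, Nat.zero_add] at hN hA hb
        have hcardU : (A s₁ ∪ A g).card = z * ((q0 * t0' + 3 * q0) + q) := by
          rw [Finset.card_union_of_disjoint hdis, hA0, hA, ← Nat.mul_add]
        obtain ⟨g', hg'Z, hg'U⟩ := pick (A s₁ ∪ A g) _ hcardU (by omega)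
        rw [Finset.mem_union, not_or] at hg'U
        obtain ⟨q1, e1', t1, he1, ht1, -, hN1, hA1, -, -⟩ := cd g' hg'Z
        have hlow := low q1 e1' t1 he1 ht1 hN1
        have hb' := bound (A s₁ ∪ A g) _ _ g'
          (Finset.union_subset (A_subset_U _) (A_subset_U _)) hcardU
          (Finset.disjoint_union_left.mpr
            ⟨disjoint_A hCA hg'Z hg'U.1, disjoint_A hCA hg'Z hg'U.2⟩) hA1
        omega
      · have hP : q ≤ q * t' := Nat.le_mul_of_pos_right q hpos
        omega
    · rfl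
  -- a second class
  obtain ⟨g₁, hg1Z, hg1A⟩ := pick (A s₁) _ hA0 (by omega)
  obtain ⟨q1, e1, t1, he1, ht1, hqe1, hN1, hA1, -, -⟩ := cd g₁ hg1Z
  have he1' := eOther g₁ hg1Z hg1A q1 e1 t1 he1 ht1 hqe1 hN1 hA1
  subst he1'
  obtain ⟨t1', rfl⟩ := Nat.exists_eq_add_of_le ht1
  have e11 : q1 * 2 * (2 + t1') = 2 * (q1 * t1') + 4 * q1 := by ring
  have e12 : q1 * (2 + t1' - 1) = q1 * t1' + q1 := by
    have : 2 + t1' - 1 = t1' + 1 := by omega
    rw [this]; ring
  rw [e11] at hN1
  rw [e12] at hA1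
  have hdis01 := disjoint_A hCA hg1Z hg1A
  have hcard01 : (A s₁ ∪ A g₁).card = z * ((q0 * t0' + 3 * q0) + (q1 * t1' + q1)) := by
    rw [Finset.card_union_of_disjoint hdis01, hA0, hA1, ← Nat.mul_add]
  have hq1 : 1 ≤ q1 := by omega
  -- a third class
  obtain ⟨g₂, hg2Z, hg2U⟩ := pick (A s₁ ∪ A g₁) _ hcard01 (by omega)
  rw [Finset.mem_union, not_or] at hg2U
  obtain ⟨q2, e2, t2, he2, ht2, hqe2, hN2', hA2, -, -⟩ := cd g₂ hg2Z
  have he2' := eOther g₂ hg2Z hg2U.1 q2 e2 t2 he2 ht2 hqe2 hN2' hA2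
  subst he2'
  obtain ⟨t2', rfl⟩ := Nat.exists_eq_add_of_le ht2
  have e21 : q2 * 2 * (2 + t2') = 2 * (q2 * t2') + 4 * q2 := by ring
  have e22 : q2 * (2 + t2' - 1) = q2 * t2' + q2 := by
    have : 2 + t2' - 1 = t2' + 1 := by omega
    rw [this]; ring
  rw [e21] at hN2'
  rw [e22] at hA2
  have hsub01 : A s₁ ∪ A g₁ ⊆ U := Finset.union_subset (A_subset_U _) (A_subset_U _)
  have hdis2 : Disjoint (A s₁ ∪ A g₁) (A g₂) :=
    Finset.disjoint_union_left.mpr
      ⟨disjoint_A hCA hg2Z hg2U.1, disjoint_A hCA hg2Z hg2U.2⟩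
  have hb2 := bound (A s₁ ∪ A g₁) _ _ g₂ hsub01 hcard01 hdis2 hA2
  have hcard012 : (A s₁ ∪ A g₁ ∪ A g₂).card =
      z * (((q0 * t0' + 3 * q0) + (q1 * t1' + q1)) + (q2 * t2' + q2)) := by
    rw [Finset.card_union_of_disjoint hdis2, hcard01, hA2, ← Nat.mul_add]
  have hq2 : 1 ≤ q2 := by omega
  -- there is no fourth class
  have hsum : q0 + q1 + q2 = (q0 * t0' + 4 * q0) + 1 := by
    by_contra hne
    obtain ⟨g₃, hg3Z, hg3U⟩ := pick (A s₁ ∪ A g₁ ∪ A g₂) _ hcard012 (by omega)
    rw [Finset.mem_union, not_or, Finset.mem_union, not_or] at hg3U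
    obtain ⟨q3, e3, t3, he3, ht3, hqe3, hN3, hA3, -, -⟩ := cd g₃ hg3Z
    have he3' := eOther g₃ hg3Z hg3U.1.1 q3 e3 t3 he3 ht3 hqe3 hN3 hA3
    subst he3'
    obtain ⟨t3', rfl⟩ := Nat.exists_eq_add_of_le ht3
    have e31 : q3 * 2 * (2 + t3') = 2 * (q3 * t3') + 4 * q3 := by ring
    have e32 : q3 * (2 + t3' - 1) = q3 * t3' + q3 := by
      have : 2 + t3' - 1 = t3' + 1 := by omega
      rw [this]; ring
    rw [e31] at hN3
    rw [e32] at hA3
    have hb3 := bound (A s₁ ∪ A g₁ ∪ A g₂) _ _ g₃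
      (Finset.union_subset hsub01 (A_subset_U _)) hcard012
      (Finset.disjoint_union_left.mpr
        ⟨Finset.disjoint_union_left.mpr
          ⟨disjoint_A hCA hg3Z hg3U.1.1, disjoint_A hCA hg3Z hg3U.1.2⟩,
          disjoint_A hCA hg3Z hg3U.2⟩) hA3
    omega
  have ht5 : 4 + t0' = 5 :=
    arith235 (q0 * t0' + 4 * q0) q0 (4 + t0') q1 (2 + t1') q2 (2 + t2') (by ring)
      (by have : q1 * (2 + t1') = q1 * t1' + 2 * q1 := by ring
          rw [this]; omega)
      (by have : q2 * (2 + t2') = q2 * t2' + 2 * q2 := by ring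
          rw [this]; omega)
      (by omega) hq04 (by omega) (by omega) hsum
  rw [ht5] at hmt0
  rcases (Nat.dvd_prime Nat.prime_five).mp hmt0 with h | h
  · omega
  · exact h

end Main

/-- **Klein's class equation** (piece K1 of S3055). -/
theorem klein_count {H : Type*} [Group H] [Finite H] (m : ℕ) (hm : 4 ≤ m)
    (hCA : ∀ h : H, h ∉ Subgroup.center H → ∀ a b : H, a * h = h * a → b * h = h * b →
      a * b = b * a)
    (hN2 : ∀ h : H, h ∉ Subgroup.center H → ∀ a b : H,
      (a * h * a⁻¹) * h = h * (a * h * a⁻¹) → (b * h * b⁻¹) * h = h * (b * h * b⁻¹) →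
      a * h ≠ h * a → b * h ≠ h * b → (a⁻¹ * b) * h = h * (a⁻¹ * b))
    (S : Set H) (hSconj : ∀ s ∈ S, ∀ g : H, g * s * g⁻¹ ∈ S)
    (hSord : ∀ s ∈ S, ∀ k : ℕ, s ^ k ∈ Subgroup.center H → m ∣ k)
    (s₁ s₂ s₃ s₄ : H) (h₁ : s₁ ∈ S) (h₂ : s₂ ∈ S) (h₃ : s₃ ∈ S) (h₄ : s₄ ∈ S)
    (h12 : s₁ * s₂ ≠ s₂ * s₁) (h13 : s₁ * s₃ ≠ s₃ * s₁) (h14 : s₁ * s₄ ≠ s₄ * s₁)
    (h23 : s₂ * s₃ ≠ s₃ * s₂) (h24 : s₂ * s₄ ≠ s₄ * s₂) (h34 : s₃ * s₄ ≠ s₄ * s₃) :
    m = 5 := by
  have _ := hSconj
  have : Fintype H := Fintype.ofFinite H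
  exact klein_count_aux m hm hCA hN2 S hSord s₁ s₂ s₃ s₄ h₁ h₂ h₃ h₄ h12 h13 h14 h23 h24 h34

end Cfsg.Agent.Lib.Helper66.KleinCount
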