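import Mathlib

set_option autoImplicit false

/-!
# A double cover of the alternating group

On the space of functions on `(ZMod 2)^n` with values in `ZMod 3`, the operators `L i` of left
multiplication by the generators of a Clifford algebra (squares `-1`, pairwise anticommuting)
commute with the operators `R i` of right multiplication.  The invertible operators `x` that
commute with all `R i` and with the parity operator and satisfy `x * L i = L (g i) * x` for an
even permutation `g` form, with these `g`, a group `P n` mapping onto the alternating group with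
kernel `{1, -1}`.
-/

namespace Cfsg.Agent.Lib.Helper66.SpinAlt

open Equiv
open scoped commutatorElement

/-- The sign character. -/
def chi (a : ZMod 2) : ZMod 3 := if a = 0 then 1 else -1

theorem chi_zero : chi 0 = 1 := by decide
theorem chi_one : chi 1 = -1 := by decide
theorem chi_mul_self (a : ZMod 2) : chi a * chi a = 1 := by revert a; decide
theorem chi_add_one (a : ZMod 2) : chi (a + 1) = -chi a := by revert a; decide
theorem chi_inj {a b : ZMod 2} (h : chi a = chi b) : a = b := by revert a b; decide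
theorem chi_eq_one {a : ZMod 2} (h : chi a = 1) : a = 0 := by revert a; decide

/-- The index set. -/
abbrev B (n : ℕ) : Type := Fin n → ZMod 2

/-- The space. -/
abbrev V (n : ℕ) : Type := B n → ZMod 3

/-- The operators. -/
abbrev A (n : ℕ) : Type := Module.End (ZMod 3) (V n)

variable {n : ℕ}

/-- The unit vectors of the index set. -/
def dl (i : Fin n) : B n := Pi.single i 1

theorem add_dl_dl (T : B n) (i : Fin n) : T + dl i + dl i = T := by
  funext j
  show T j + dl i j + dl i j = T j
  rw [add_assoc, CharTwo.add_self_eq_zero, add_zero]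

/-- Partial sums of coordinates. -/
def ps (p : Fin n → Fin n → Prop) [DecidableRel p] (i : Fin n) (T : B n) : ZMod 2 :=
  ∑ j, if p j i then T j else 0

theorem ps_add_dl (p : Fin n → Fin n → Prop) [DecidableRel p] (i k : Fin n) (T : B n) :
    ps p i (T + dl k) = ps p i T + if p k i then 1 else 0 := by
  have h : ∀ j, (if p j i then (T + dl k) j else 0) =
      (if p j i then T j else 0) + (if j = k then (if p j i then (1 : ZMod 2) else 0) else 0) := by
    intro j
    by_cases hj : j = k
    · subst hj
      by_cases hp : p j i <;> simp [hp, dl]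
    · by_cases hp : p j i <;> simp [hp, dl, hj]
  unfold ps
  rw [Finset.sum_congr rfl (fun j _ => h j), Finset.sum_add_distrib, Finset.sum_ite_eq']
  simp

/-- The total sum of coordinates. -/
def wt (T : B n) : ZMod 2 := ∑ j, T j

theorem wt_add_dl (T : B n) (k : Fin n) : wt (T + dl k) = wt T + 1 := by
  unfold wt dl
  simp only [Pi.add_apply]
  rw [Finset.sum_add_distrib, Finset.sum_pi_single']
  simp

/-- The operator `f ↦ (T ↦ χ(partial sum of T) f (T + δ_i))`. -/
def M (p : Fin n → Fin n → Prop) [DecidableRel p] (i : Fin n) : A n where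
  toFun f := fun T => chi (ps p i T) * f (T + dl i)
  map_add' f g := by funext T; simp [mul_add]
  map_smul' c f := by funext T; simp; ring

theorem M_apply (p : Fin n → Fin n → Prop) [DecidableRel p] (i : Fin n) (f : V n) (T : B n) :
    M p i f T = chi (ps p i T) * f (T + dl i) := rfl

theorem M_sq (p : Fin n → Fin n → Prop) [DecidableRel p] (i : Fin n) (hp : p i i) :
    M p i * M p i = -1 := by
  apply LinearMap.ext
  intro f
  funext T
  show M p i (M p i f) T = -(f T)
  rw [M_apply, M_apply, ps_add_dl, if_pos hp, add_dl_dl, chi_add_one]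
  have := chi_mul_self (ps p i T)
  linear_combination (-(f T)) * this

theorem M_comm (p q : Fin n → Fin n → Prop) [DecidableRel p] [DecidableRel q] (i j : Fin n)
    (h : q i j ↔ p j i) : M p i * M q j = M q j * M p i := by
  apply LinearMap.ext
  intro f
  funext T
  show M p i (M q j f) T = M q j (M p i f) T
  rw [M_apply, M_apply, M_apply, M_apply, ps_add_dl, ps_add_dl, add_right_comm T (dl i) (dl j)]
  by_cases hq : q i j
  · have hp : p j i := h.mp hq
    rw [if_pos hq, if_pos hp, chi_add_one, chi_add_one]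
    ring
  · have hp : ¬ p j i := fun hp => hq (h.mpr hp)
    rw [if_neg hq, if_neg hp, add_zero, add_zero]
    ring

theorem M_anti (p q : Fin n → Fin n → Prop) [DecidableRel p] [DecidableRel q] (i j : Fin n)
    (h : ¬ (q i j ↔ p j i)) : M p i * M q j = -(M q j * M p i) := by
  apply LinearMap.ext
  intro f
  funext T
  show M p i (M q j f) T = -(M q j (M p i f) T)
  rw [M_apply, M_apply, M_apply, M_apply, ps_add_dl, ps_add_dl, add_right_comm T (dl i) (dl j)]
  by_cases hq : q i j
  · have hp : ¬ p j i := fun hp => h ⟨fun _ => hp, fun _ => hq⟩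
    rw [if_pos hq, if_neg hp, chi_add_one, add_zero]
    ring
  · have hp : p j i := by
      by_contra hp
      exact h ⟨fun hq' => absurd hq' hq, fun hp' => absurd hp' hp⟩
    rw [if_neg hq, if_pos hp, chi_add_one, add_zero]
    ring

/-- The parity operator. -/
def Par : A n where
  toFun f := fun T => chi (wt T) * f T
  map_add' f g := by funext T; simp [mul_add]
  map_smul' c f := by funext T; simp; ring

theorem Par_apply (f : V n) (T : B n) : Par f T = chi (wt T) * f T := rfl

theorem M_Par (p : Fin n → Fin n → Prop) [DecidableRel p] (i : Fin n) :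
    M p i * Par = -(Par * M p i) := by
  apply LinearMap.ext
  intro f
  funext T
  show M p i (Par f) T = -(Par (M p i f) T)
  rw [M_apply, Par_apply, Par_apply, M_apply, wt_add_dl, chi_add_one]
  ring

/-- Left multiplications. -/
def L (i : Fin n) : A n := M (fun a b => a ≤ b) i

/-- Right multiplications. -/
def R (i : Fin n) : A n := M (fun a b => b ≤ a) i

theorem L_sq (i : Fin n) : L i * L i = -1 := M_sq _ i le_rfl

theorem L_anti {i j : Fin n} (h : i ≠ j) : L i * L j = -(L j * L i) := by
  apply M_anti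
  intro h'
  rcases le_total i j with h1 | h1
  · exact h (le_antisymm h1 (h'.mp h1))
  · exact h (le_antisymm (h'.mpr h1) h1)

theorem L_R (i j : Fin n) : L i * R j = R j * L i := M_comm _ _ i j Iff.rfl

theorem L_Par (i : Fin n) : L i * Par = -(Par * L i) := M_Par _ i

theorem three (x : A n) : x + x + x = 0 := by
  apply LinearMap.ext
  intro f
  funext T
  show x f T + x f T + x f T = 0
  generalize x f T = a
  revert a
  decide

/-- The reflection vectors. -/
def v (a b : Fin n) : A n := L a - L b

theorem v_sq {a b : Fin n} (h : a ≠ b) : v a b * v a b = 1 := by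
  unfold v
  have e1 : (L a - L b) * (L a - L b) = L a * L a - L a * L b - L b * L a + L b * L b := by
    rw [sub_mul, mul_sub, mul_sub]
    abel
  rw [e1, L_sq, L_sq, L_anti h]
  have h3 := three (1 : A n)
  have e2 : -1 - -(L b * L a) - L b * L a + -1 = (1 : A n) - ((1 : A n) + 1 + 1) := by abel
  rw [e2, h3, sub_zero]

theorem v_L {a b : Fin n} (h : a ≠ b) (l : Fin n) :
    v a b * L l = -(L (swap a b l) * v a b) := by
  unfold v
  rcases eq_or_ne l a with rfl | hla
  · rw [swap_apply_left, sub_mul, mul_sub, L_sq, L_sq]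
    abel
  rcases eq_or_ne l b with rfl | hlb
  · rw [swap_apply_right, sub_mul, mul_sub, L_sq, L_sq]
    abel
  · rw [swap_apply_of_ne_of_ne hla hlb, sub_mul, mul_sub, L_anti hla.symm, L_anti hlb.symm]
    abel

theorem v_R (a b l : Fin n) : v a b * R l = R l * v a b := by
  unfold v
  rw [sub_mul, mul_sub, L_R, L_R]

theorem v_Par (a b : Fin n) : v a b * Par = -(Par * v a b) := by
  unfold v
  rw [sub_mul, mul_sub, L_Par, L_Par]
  abel

theorem v_anti {a b c d : Fin n} (hac : a ≠ c) (had : a ≠ d) (hbc : b ≠ c) (hbd : b ≠ d) :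
    v a b * v c d = -(v c d * v a b) := by
  unfold v
  rw [sub_mul, mul_sub, mul_sub, mul_sub, sub_mul, sub_mul, L_anti hac, L_anti had, L_anti hbc,
    L_anti hbd]
  abel

theorem mul_neg' (x y : A n) : x * -y = -(x * y) := by
  apply LinearMap.ext; intro f; simp

theorem neg_mul' (x y : A n) : -x * y = -(x * y) := by
  apply LinearMap.ext; intro f; simp

theorem neg_neg' (x : A n) : - -x = x := by
  apply LinearMap.ext; intro f; simp

/-- The reflection vectors as units. -/
def vu (a b : Fin n) (h : a ≠ b) : (A n)ˣ := ⟨v a b, v a b, v_sq h, v_sq h⟩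

theorem vu_val (a b : Fin n) (h : a ≠ b) : ((vu a b h : (A n)ˣ) : A n) = v a b := rfl

/-! ### The group -/

/-- The group of pairs. -/
def P (n : ℕ) : Subgroup ((A n)ˣ × Perm (Fin n)) where
  carrier := {x | x.2 ∈ alternatingGroup (Fin n) ∧
    (∀ i, (x.1 : A n) * L i = L (x.2 i) * (x.1 : A n)) ∧
    (∀ i, (x.1 : A n) * R i = R i * (x.1 : A n)) ∧ (x.1 : A n) * Par = Par * (x.1 : A n)}
  one_mem' := ⟨one_mem _, fun i => by simp, fun i => by simp, by simp⟩
  mul_mem' := by
    rintro x y ⟨hx1, hx2, hx3, hx4⟩ ⟨hy1, hy2, hy3, hy4⟩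
    refine ⟨mul_mem hx1 hy1, fun i => ?_, fun i => ?_, ?_⟩
    · show ((x.1 * y.1 : (A n)ˣ) : A n) * L i = L (x.2 (y.2 i)) * ((x.1 * y.1 : (A n)ˣ) : A n)
      rw [Units.val_mul, mul_assoc, hy2, ← mul_assoc, hx2, mul_assoc]
    · show ((x.1 * y.1 : (A n)ˣ) : A n) * R i = R i * ((x.1 * y.1 : (A n)ˣ) : A n)
      rw [Units.val_mul, mul_assoc, hy3, ← mul_assoc, hx3, mul_assoc]
    · show ((x.1 * y.1 : (A n)ˣ) : A n) * Par = Par * ((x.1 * y.1 : (A n)ˣ) : A n)
      rw [Units.val_mul, mul_assoc, hy4, ← mul_assoc, hx4, mul_assoc]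
  inv_mem' := by
    rintro x ⟨hx1, hx2, hx3, hx4⟩
    refine ⟨inv_mem hx1, fun i => ?_, fun i => ?_, ?_⟩
    · show ((x.1⁻¹ : (A n)ˣ) : A n) * L i = L (x.2⁻¹ i) * ((x.1⁻¹ : (A n)ˣ) : A n)
      have h := hx2 (x.2⁻¹ i)
      have e : x.2 (x.2⁻¹ i) = i := Equiv.apply_symm_apply x.2 i
      rw [e] at h
      rw [Units.inv_mul_eq_iff_eq_mul, ← mul_assoc, h, mul_assoc, Units.mul_inv, mul_one]
    · show ((x.1⁻¹ : (A n)ˣ) : A n) * R i = R i * ((x.1⁻¹ : (A n)ˣ) : A n)
      rw [Units.inv_mul_eq_iff_eq_mul, ← mul_assoc, hx3, mul_assoc, Units.mul_inv, mul_one]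
    · show ((x.1⁻¹ : (A n)ˣ) : A n) * Par = Par * ((x.1⁻¹ : (A n)ˣ) : A n)
      rw [Units.inv_mul_eq_iff_eq_mul, ← mul_assoc, hx4, mul_assoc, Units.mul_inv, mul_one]

theorem pair_L {a b c d : Fin n} (hab : a ≠ b) (hcd : c ≠ d) (i : Fin n) :
    v a b * v c d * L i = L (swap a b (swap c d i)) * (v a b * v c d) := by
  rw [mul_assoc, v_L hcd, mul_neg', ← mul_assoc, v_L hab, neg_mul', neg_neg', mul_assoc]

theorem pair_mem {a b c d : Fin n} (hab : a ≠ b) (hcd : c ≠ d) :
    (vu a b hab * vu c d hcd, swap a b * swap c d) ∈ P n := by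
  refine ⟨?_, fun i => ?_, fun i => ?_, ?_⟩
  · show swap a b * swap c d ∈ alternatingGroup (Fin n)
    rw [Perm.mem_alternatingGroup, map_mul, Perm.sign_swap hab, Perm.sign_swap hcd]
    rfl
  · show v a b * v c d * L i = L (swap a b (swap c d i)) * (v a b * v c d)
    rw [mul_assoc, v_L hcd, mul_neg', ← mul_assoc, v_L hab, neg_mul', neg_neg', mul_assoc]
  · show v a b * v c d * R i = R i * (v a b * v c d)
    rw [mul_assoc, v_R, ← mul_assoc, v_R, mul_assoc]
  · show v a b * v c d * Par = Par * (v a b * v c d)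
    rw [mul_assoc, v_Par, mul_neg', ← mul_assoc, v_Par, neg_mul', neg_neg', mul_assoc]

/-! ### The commutant -/

/-- The basis vectors. -/
def e (U : B n) : V n := Pi.single U 1

theorem M_e (p : Fin n → Fin n → Prop) [DecidableRel p] (i : Fin n) (U : B n) :
    M p i (e U) = chi (ps p i (U + dl i)) • e (U + dl i) := by
  funext T
  show chi (ps p i T) * e U (T + dl i) = chi (ps p i (U + dl i)) * e (U + dl i) T
  unfold e
  by_cases h : T = U + dl i
  · subst h
    rw [add_dl_dl]
    simp
  · have h' : T + dl i ≠ U := fun h' => h (by rw [← h', add_dl_dl])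
    rw [Pi.single_eq_of_ne h, Pi.single_eq_of_ne h']
    simp

theorem ps_zero (p : Fin n → Fin n → Prop) [DecidableRel p] (i : Fin n) : ps p i 0 = 0 := by
  unfold ps
  simp

theorem M_e_zero (p : Fin n → Fin n → Prop) [DecidableRel p] (i : Fin n) (hp : p i i) :
    M p i (e 0) = -e (dl i) := by
  rw [M_e, ps_add_dl, ps_zero, if_pos hp, zero_add, chi_one, zero_add, neg_smul, one_smul]

theorem L_e_zero (i : Fin n) : L i (e 0) = -e (dl i) := M_e_zero (fun a b => a ≤ b) i le_rfl

theorem R_e_zero (i : Fin n) : R i (e 0) = -e (dl i) := M_e_zero (fun a b => b ≤ a) i le_rfl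

theorem Par_e_zero : Par (e (0 : B n)) = e 0 := by
  funext T
  rw [Par_apply]
  unfold e
  by_cases h : T = 0
  · subst h
    have : wt (0 : B n) = 0 := by unfold wt; simp
    rw [this, chi_zero, one_mul]
  · rw [Pi.single_eq_of_ne h, mul_zero]

theorem lo_add_hi (i : Fin n) (T : B n) :
    ps (fun a b => a ≤ b) i T + ps (fun a b => b ≤ a) i T = wt T + T i := by
  have h : ∀ j, (if j ≤ i then T j else 0) + (if i ≤ j then T j else 0) =
      T j + (if j = i then T j else 0) := by
    intro j
    rcases lt_trichotomy j i with h1 | h1 | h1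
    · rw [if_pos h1.le, if_neg (not_le.mpr h1), if_neg h1.ne]
    · subst h1
      rw [if_pos le_rfl, if_pos rfl]
    · rw [if_neg (not_le.mpr h1), if_pos h1.le, if_neg h1.ne', zero_add, add_zero]
  unfold ps wt
  rw [← Finset.sum_add_distrib, Finset.sum_congr rfl (fun j _ => h j), Finset.sum_add_distrib,
    Finset.sum_ite_eq']
  simp

theorem eq_sum_dl (U : B n) : U = ∑ i ∈ Finset.univ.filter (fun i => U i = 1), dl i := by
  funext j
  rw [Finset.sum_apply]
  have h : ∀ i, dl i j = if i = j then (1 : ZMod 2) else 0 := by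
    intro i
    unfold dl
    rw [Pi.single_apply]
    by_cases hij : i = j
    · rw [if_pos hij, if_pos hij.symm]
    · rw [if_neg hij, if_neg (fun h => hij h.symm)]
  rw [Finset.sum_congr rfl (fun i _ => h i), Finset.sum_ite_eq']
  by_cases hj : U j = 1
  · rw [if_pos (by simp [hj]), hj]
  · rw [if_neg (by simp [hj])]
    revert hj
    generalize U j = a
    revert a
    decide

theorem commutant (X : A n) (hL : ∀ i, X * L i = L i * X) (hR : ∀ i, X * R i = R i * X)
    (hP : X * Par = Par * X) : ∃ c : ZMod 3, X = c • (1 : A n) := by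
  have key : ∀ T : B n, X (e 0) T ≠ 0 → T = 0 := by
    intro T hT
    have hw : wt T = 0 := by
      have h1 : Par (X (e 0)) = X (e 0) := by
        have h2 : ((Par : A n) * X) (e 0) = (X * (Par : A n)) (e 0) := by rw [hP]
        have h3 : (X * (Par : A n)) (e 0) = X (e 0) := by
          show X (Par (e 0)) = X (e 0)
          rw [Par_e_zero]
        exact h2.trans h3
      have h2 := congrFun h1 T
      rw [Par_apply] at h2
      have h3 : chi (wt T) = 1 := by
        have h4 : (chi (wt T) - 1) * X (e 0) T = 0 := by rw [sub_mul, h2, one_mul, sub_self]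
        rcases mul_eq_zero.mp h4 with h5 | h5
        · exact sub_eq_zero.mp h5
        · exact absurd h5 hT
      exact chi_eq_one h3
    funext i
    have h1 : L i (X (e 0)) = R i (X (e 0)) := by
      have h2 : L i (X (e 0)) = X (L i (e 0)) := by
        show (L i * X) (e 0) = (X * L i) (e 0)
        rw [hL]
      have h3 : R i (X (e 0)) = X (R i (e 0)) := by
        show (R i * X) (e 0) = (X * R i) (e 0)
        rw [hR]
      rw [h2, h3, L_e_zero, R_e_zero]
    have h2 := congrFun h1 (T + dl i)
    unfold L R at h2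
    rw [M_apply, M_apply, add_dl_dl, ps_add_dl, ps_add_dl, if_pos le_rfl] at h2
    have h3 : chi (ps (fun a b => a ≤ b) i T + 1) = chi (ps (fun a b => b ≤ a) i T + 1) :=
      mul_right_cancel₀ hT h2
    have h4 := chi_inj h3
    have h5 : ps (fun a b => a ≤ b) i T = ps (fun a b => b ≤ a) i T := add_right_cancel h4
    have h6 := lo_add_hi i T
    rw [h5, CharTwo.add_self_eq_zero, hw, zero_add] at h6
    exact h6.symm
  refine ⟨X (e 0) 0, ?_⟩
  have base : X (e 0) = X (e 0) 0 • e 0 := by
    funext T
    by_cases hT : T = 0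
    · subst hT
      show X (e 0) 0 = X (e 0) 0 * e 0 0
      unfold e
      rw [Pi.single_eq_same, mul_one]
    · show X (e 0) T = X (e 0) 0 * e 0 T
      unfold e
      rw [Pi.single_eq_of_ne hT, mul_zero]
      by_contra h
      exact hT (key T h)
  have step : ∀ (U : B n) (i : Fin n), X (e U) = X (e 0) 0 • e U →
      X (e (U + dl i)) = X (e 0) 0 • e (U + dl i) := by
    intro U i hU
    have h1 : e (U + dl i) = chi (ps (fun a b => b ≤ a) i (U + dl i)) • R i (e U) := by
      unfold R
      rw [M_e, smul_smul, chi_mul_self, one_smul]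
    have h2 : X (R i (e U)) = R i (X (e U)) := by
      show (X * R i) (e U) = (R i * X) (e U)
      rw [hR]
    rw [h1, map_smul, h2, hU, map_smul, smul_comm]
  have all : ∀ s : Finset (Fin n), X (e (∑ i ∈ s, dl i)) = X (e 0) 0 • e (∑ i ∈ s, dl i) := by
    intro s
    induction s using Finset.induction_on with
    | empty => rw [Finset.sum_empty]; exact base
    | insert i s hi ih =>
      rw [Finset.sum_insert hi, add_comm]
      exact step _ i ih
  apply LinearMap.pi_ext
  intro U x
  have h1 : (Pi.single U x : V n) = x • e U := by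
    unfold e
    rw [← Pi.single_smul, smul_eq_mul, mul_one]
  rw [h1, map_smul, map_smul]
  congr 1
  rw [eq_sum_dl U]
  rw [all]
  rfl

/-! ### The cover -/

theorem one_ne_neg_one : (1 : A n) ≠ -1 := by
  intro h
  have h1 := congrFun (LinearMap.congr_fun h (e 0)) 0
  have h2 : (e (0 : B n)) 0 = -(e (0 : B n)) 0 := h1
  unfold e at h2
  rw [Pi.single_eq_same] at h2
  revert h2
  decide

theorem neg_one_mul' (x : A n) : (-1 : A n) * x = -x := by
  apply LinearMap.ext; intro f; simp

theorem mul_neg_one' (x : A n) : x * (-1 : A n) = -x := by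
  apply LinearMap.ext; intro f; simp

/-- The operator `-1` as a unit. -/
def negOne : (A n)ˣ :=
  ⟨-1, -1, by rw [neg_one_mul', neg_neg'], by rw [neg_one_mul', neg_neg']⟩

theorem negOne_val : ((negOne : (A n)ˣ) : A n) = -1 := rfl

theorem negOne_comm (u : (A n)ˣ) : u * negOne = negOne * u := by
  apply Units.ext
  show (u : A n) * (-1 : A n) = (-1 : A n) * (u : A n)
  rw [neg_one_mul', mul_neg_one']

theorem negOne_sq : (negOne : (A n)ˣ) * negOne = 1 := by
  apply Units.ext
  show (-1 : A n) * (-1 : A n) = 1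
  rw [neg_one_mul', neg_neg']

theorem neg_one_smul_one : ((-1 : ZMod 3) • (1 : A n)) = ((negOne : (A n)ˣ) : A n) := by
  apply LinearMap.ext
  intro f
  simp [negOne_val]

/-- The central element. -/
def zP (n : ℕ) : ↥(P n) :=
  ⟨(negOne, 1), ⟨one_mem _,
    fun i => by
      show (-1 : A n) * L i = L i * (-1 : A n)
      rw [neg_one_mul', mul_neg_one'],
    fun i => by
      show (-1 : A n) * R i = R i * (-1 : A n)
      rw [neg_one_mul', mul_neg_one'],
    by
      show (-1 : A n) * Par = Par * (-1 : A n)
      rw [neg_one_mul', mul_neg_one']⟩⟩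

/-- The projection onto the alternating group. -/
def proj (n : ℕ) : ↥(P n) →* ↥(alternatingGroup (Fin n)) :=
  ((MonoidHom.snd (A n)ˣ (Perm (Fin n))).comp (P n).subtype).codRestrict _ (fun x => x.2.1)

theorem zP_mem_ker (n : ℕ) : zP n ∈ (proj n).ker := by
  apply MonoidHom.mem_ker.mpr
  rfl

theorem proj_ker (n : ℕ) : (proj n).ker = Subgroup.zpowers (zP n) := by
  apply le_antisymm
  · intro x hx
    have h2 : x.1.2 = 1 := congrArg Subtype.val (MonoidHom.mem_ker.mp hx)
    obtain ⟨-, hL, hR, hP⟩ := x.2
    obtain ⟨c, hc⟩ := commutant (x.1.1 : A n)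
      (fun i => by have := hL i; rw [h2] at this; exact this) hR hP
    have hc0 : c ≠ 0 := by
      intro h0
      rw [h0, zero_smul] at hc
      have h3 : (x.1.1 : A n) * ((x.1.1⁻¹ : (A n)ˣ) : A n) = 1 := Units.mul_inv _
      rw [hc, zero_mul] at h3
      have h4 := congrFun (LinearMap.congr_fun h3 (e 0)) 0
      have h5 : (0 : ZMod 3) = (e (0 : B n)) 0 := h4
      unfold e at h5
      rw [Pi.single_eq_same] at h5
      revert h5
      decide
    have hc1 : c = 1 ∨ c = -1 := by
      revert hc0
      generalize c = c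
      revert c
      decide
    rcases hc1 with h | h
    · have hx1 : x = 1 := by
        apply Subtype.ext
        apply Prod.ext
        · apply Units.ext
          rw [hc, h, one_smul]
          rfl
        · exact h2
      rw [hx1]
      exact Subgroup.one_mem _
    · have hx1 : x = zP n := by
        apply Subtype.ext
        apply Prod.ext
        · apply Units.ext
          rw [hc, h]
          exact neg_one_smul_one
        · exact h2
      rw [hx1]
      exact Subgroup.mem_zpowers _
  · rw [Subgroup.zpowers_le]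
    exact zP_mem_ker n

theorem prod_mem_of_even {α : Type*} [DecidableEq α] (H : Subgroup (Perm α))
    (hH : ∀ s t : Perm α, s.IsSwap → t.IsSwap → s * t ∈ H) :
    ∀ (m : ℕ) (l : List (Perm α)), l.length = m + m → (∀ g ∈ l, g.IsSwap) → l.prod ∈ H := by
  intro m
  induction m with
  | zero =>
    intro l hl _
    have h : l = [] := List.length_eq_zero_iff.mp (by simpa using hl)
    subst h
    simp
  | succ m ih =>
    intro l hl hs
    match l, hl, hs with
    | [], hl, _ => simp at hl
    | [s], hl, _ => simp at hl; omega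
    | s :: t :: l', hl, hs =>
      rw [List.prod_cons, List.prod_cons, ← mul_assoc]
      refine H.mul_mem (hH s t (hs s (by simp)) (hs t (by simp)))
        (ih l' ?_ (fun g hg => hs g (by simp [hg])))
      simp at hl
      omega

theorem proj_surjective (n : ℕ) : Function.Surjective (proj n) := by
  rintro ⟨g, hg⟩
  have key : g ∈ (P n).map (MonoidHom.snd (A n)ˣ (Perm (Fin n))) := by
    rcases Perm.swapFactors g with ⟨l, hl1, hl2⟩
    have hev : Even l.length := by
      rw [← Perm.prod_list_swap_mem_alternatingGroup_iff_even_length hl2, hl1]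
      exact hg
    obtain ⟨m, hm⟩ := hev
    rw [← hl1]
    refine prod_mem_of_even _ ?_ m l hm hl2
    rintro s t ⟨a, b, hab, rfl⟩ ⟨c, d, hcd, rfl⟩
    exact ⟨_, pair_mem hab hcd, rfl⟩
  obtain ⟨x, hx, rfl⟩ := key
  exact ⟨⟨x, hx⟩, rfl⟩

theorem comm_eq {a b c d : Fin n} (hab : a ≠ b) (hac : a ≠ c) (had : a ≠ d) (hbc : b ≠ c)
    (hbd : b ≠ d) (hcd : c ≠ d) :
    ⁅(⟨_, pair_mem hab hcd⟩ : ↥(P n)), ⟨_, pair_mem hac hbd⟩⁆ = zP n := by
  have e1a : swap a b (swap c d a) = b := by
    rw [swap_apply_of_ne_of_ne hac had, swap_apply_left]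
  have e1b : swap a b (swap c d b) = a := by
    rw [swap_apply_of_ne_of_ne hbc hbd, swap_apply_right]
  have e1c : swap a b (swap c d c) = d := by
    rw [swap_apply_left, swap_apply_of_ne_of_ne had.symm hbd.symm]
  have e1d : swap a b (swap c d d) = c := by
    rw [swap_apply_right, swap_apply_of_ne_of_ne hac.symm hbc.symm]
  apply Subtype.ext
  apply Prod.ext
  · show ⁅vu a b hab * vu c d hcd, vu a c hac * vu b d hbd⁆ = negOne
    have ha := pair_L hab hcd a
    have hb := pair_L hab hcd b
    have hc := pair_L hab hcd c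
    have hd := pair_L hab hcd d
    rw [e1a] at ha
    rw [e1b] at hb
    rw [e1c] at hc
    rw [e1d] at hd
    have h1 : v a b * v c d * v a c = v b d * (v a b * v c d) := by
      show v a b * v c d * (L a - L c) = (L b - L d) * (v a b * v c d)
      rw [mul_sub, sub_mul, ha, hc]
    have h2 : v a b * v c d * v b d = v a c * (v a b * v c d) := by
      show v a b * v c d * (L b - L d) = (L a - L c) * (v a b * v c d)
      rw [mul_sub, sub_mul, hb, hd]
    have h3 : v a b * v c d * (v a c * v b d) = -(v a c * v b d * (v a b * v c d)) := by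
      rw [← mul_assoc, h1, mul_assoc, h2, ← mul_assoc, v_anti hab.symm hbc had.symm hcd.symm,
        neg_mul']
    have hu : vu a b hab * vu c d hcd * (vu a c hac * vu b d hbd) =
        negOne * (vu a c hac * vu b d hbd * (vu a b hab * vu c d hcd)) := by
      apply Units.ext
      show v a b * v c d * (v a c * v b d) = (-1 : A n) * (v a c * v b d * (v a b * v c d))
      rw [neg_one_mul']
      exact h3
    rw [commutatorElement_def, hu]
    group
  · show ⁅swap a b * swap c d, swap a c * swap b d⁆ = 1
    rw [commutatorElement_eq_one_iff_mul_comm]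
    have hdis : swap b d * swap a c = swap a c * swap b d := by
      rw [mul_swap_eq_swap_mul, swap_apply_of_ne_of_ne hab had,
        swap_apply_of_ne_of_ne hbc.symm hcd]
    have f1 : (swap a b * swap c d) a = b := e1a
    have f2 : (swap a b * swap c d) b = a := e1b
    have f3 : (swap a b * swap c d) c = d := e1c
    have f4 : (swap a b * swap c d) d = c := e1d
    rw [← mul_assoc, mul_swap_eq_swap_mul (swap a b * swap c d) a c, f1, f3, mul_assoc,
      mul_swap_eq_swap_mul (swap a b * swap c d) b d, f2, f4, ← mul_assoc, hdis]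

theorem zP_mem_commutator (hn : 4 ≤ n) : zP n ∈ commutator ↥(P n) := by
  have h01 : (⟨0, by omega⟩ : Fin n) ≠ ⟨1, by omega⟩ := by simp [Fin.ext_iff]
  have h02 : (⟨0, by omega⟩ : Fin n) ≠ ⟨2, by omega⟩ := by simp [Fin.ext_iff]
  have h03 : (⟨0, by omega⟩ : Fin n) ≠ ⟨3, by omega⟩ := by simp [Fin.ext_iff]
  have h12 : (⟨1, by omega⟩ : Fin n) ≠ ⟨2, by omega⟩ := by simp [Fin.ext_iff]
  have h13 : (⟨1, by omega⟩ : Fin n) ≠ ⟨3, by omega⟩ := by simp [Fin.ext_iff]
  have h23 : (⟨2, by omega⟩ : Fin n) ≠ ⟨3, by omega⟩ := by simp [Fin.ext_iff]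
  rw [← comm_eq h01 h02 h03 h12 h13 h23, commutator_def]
  exact Subgroup.commutator_mem_commutator (Subgroup.mem_top _) (Subgroup.mem_top _)

theorem zP_mem_center (n : ℕ) : zP n ∈ Subgroup.center ↥(P n) := by
  rw [Subgroup.mem_center_iff]
  intro y
  apply Subtype.ext
  apply Prod.ext
  · show y.1.1 * (negOne : (A n)ˣ) = negOne * y.1.1
    exact negOne_comm _
  · show y.1.2 * 1 = 1 * y.1.2
    rw [mul_one, one_mul]

theorem zP_order (n : ℕ) : orderOf (zP n) = 2 := by
  apply orderOf_eq_prime
  · apply Subtype.ext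
    apply Prod.ext
    · show (negOne : (A n)ˣ) ^ 2 = 1
      rw [pow_two, negOne_sq]
    · show (1 : Perm (Fin n)) ^ 2 = 1
      rw [one_pow]
  · intro h
    have h1 : (negOne : (A n)ˣ) = 1 := congrArg (fun x : ↥(P n) => x.1.1) h
    have h2 : (-1 : A n) = 1 := congrArg (fun u : (A n)ˣ => (u : A n)) h1
    exact one_ne_neg_one h2.symm

/-- A double cover of the alternating group. -/
theorem exists_cover (n : ℕ) (hn : 4 ≤ n) :
    ∃ (Γ : Type) (_ : Group Γ) (_ : Finite Γ) (z : Γ) (_ : z ∈ Subgroup.center Γ),
      orderOf z = 2 ∧ z ∈ commutator Γ ∧ ∃ _ : (Subgroup.zpowers z).Normal,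
        Nonempty (Γ ⧸ Subgroup.zpowers z ≃* alternatingGroup (Fin n)) := by
  have hfinA : Finite (A n) := Finite.of_injective (fun f : A n => (f : V n → V n))
    DFunLike.coe_injective
  have hfin : Finite ↥(P n) := inferInstance
  have hnorm : (Subgroup.zpowers (zP n)).Normal := by
    constructor
    intro k hk g
    have hkc : k ∈ Subgroup.center ↥(P n) :=
      (Subgroup.zpowers_le.mpr (zP_mem_center n)) hk
    have e : g * k * g⁻¹ = k := by
      rw [Subgroup.mem_center_iff.mp hkc g, mul_inv_cancel_right]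
    rw [e]
    exact hk
  refine ⟨↥(P n), inferInstance, hfin, zP n, zP_mem_center n, zP_order n,
    zP_mem_commutator hn, hnorm, ⟨?_⟩⟩
  exact (QuotientGroup.quotientMulEquivOfEq (proj_ker n).symm).trans
    (QuotientGroup.quotientKerEquivOfSurjective (proj n) (proj_surjective n))

end Cfsg.Agent.Lib.Helper66.SpinAlt
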