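import Mathlib
import Cfsg.Prelude.Def_KGroupFacts

set_option autoImplicit false

/-!
# Hopf-type machinery for Schur multipliers (helper66)

For a homomorphism `π : FreeGroup α →* G` with kernel `R` we study `E = F / [F, R]`,
the central subgroup `Z = R / [F, R]` and `T = Z ⊓ E'`.
-/

namespace Cfsg.Agent.Lib.Helper66.Hopf

open scoped commutatorElement

universe u v w

section General

variable {X : Type*} [Group X]

theorem normal_of_le_center (S : Subgroup X) (h : S ≤ Subgroup.center X) : S.Normal :=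
  ⟨fun n hn g => by
    have := Subgroup.mem_center_iff.mp (h hn) g
    rw [this, mul_inv_cancel_right]; exact hn⟩

theorem commutatorElement_mul_central_left (g h z : X) (hz : z ∈ Subgroup.center X) :
    ⁅g * z, h⁆ = ⁅g, h⁆ := by
  have hzh : z * h * z⁻¹ = h := by
    rw [← Subgroup.mem_center_iff.mp hz h, mul_inv_cancel_right]
  calc ⁅g * z, h⁆ = g * (z * h * z⁻¹) * g⁻¹ * h⁻¹ := by rw [commutatorElement_def]; group
    _ = ⁅g, h⁆ := by rw [hzh, commutatorElement_def]

theorem commutatorElement_mul_central_right (g h w : X) (hw : w ∈ Subgroup.center X) :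
    ⁅g, h * w⁆ = ⁅g, h⁆ := by
  have hwg : w * g⁻¹ * w⁻¹ = g⁻¹ := by
    rw [← Subgroup.mem_center_iff.mp hw g⁻¹, mul_inv_cancel_right]
  calc ⁅g, h * w⁆ = g * h * (w * g⁻¹ * w⁻¹) * h⁻¹ := by rw [commutatorElement_def]; group
    _ = ⁅g, h⁆ := by rw [hwg, commutatorElement_def]

theorem commutatorElement_eq_one_of_central (g z : X) (hz : z ∈ Subgroup.center X) :
    ⁅g, z⁆ = 1 := by
  have := commutatorElement_mul_central_right g 1 z hz
  rw [one_mul] at this
  rw [this, commutatorElement_def]; group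

/-- Adjoining a central subgroup does not change the commutator subgroup. -/
theorem commutator_sup_central (H C : Subgroup X) (hC : C ≤ Subgroup.center X) :
    ⁅H ⊔ C, H ⊔ C⁆ = ⁅H, H⁆ := by
  have hCn : C.Normal := normal_of_le_center C hC
  apply le_antisymm
  · rw [Subgroup.commutator_le]
    intro g₁ hg₁ g₂ hg₂
    obtain ⟨h₁, hh₁, c₁, hc₁, rfl⟩ := Subgroup.mem_sup_of_normal_right.mp hg₁
    obtain ⟨h₂, hh₂, c₂, hc₂, rfl⟩ := Subgroup.mem_sup_of_normal_right.mp hg₂
    rw [commutatorElement_mul_central_left _ _ _ (hC hc₁),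
      commutatorElement_mul_central_right _ _ _ (hC hc₂)]
    exact Subgroup.commutator_mem_commutator hh₁ hh₂
  · exact Subgroup.commutator_mono le_sup_left le_sup_left

/-- If the centre has finite index, there are only finitely many commutators. -/
theorem finite_commutatorSet_of_finiteIndex_center [(Subgroup.center X).FiniteIndex] :
    Finite (commutatorSet X) := by
  have hfin : Finite (X ⧸ Subgroup.center X) := inferInstance
  let f : (X ⧸ Subgroup.center X) × (X ⧸ Subgroup.center X) → X :=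
    fun p => ⁅p.1.out, p.2.out⁆
  apply Set.Finite.subset (Set.finite_range f)
  rintro g ⟨g₁, g₂, rfl⟩
  obtain ⟨z₁, hz₁⟩ := QuotientGroup.mk_out_eq_mul (Subgroup.center X) g₁
  obtain ⟨z₂, hz₂⟩ := QuotientGroup.mk_out_eq_mul (Subgroup.center X) g₂
  refine ⟨(QuotientGroup.mk g₁, QuotientGroup.mk g₂), ?_⟩
  change ⁅(QuotientGroup.mk g₁ : X ⧸ Subgroup.center X).out,
    (QuotientGroup.mk g₂ : X ⧸ Subgroup.center X).out⁆ = ⁅g₁, g₂⁆
  rw [hz₁, hz₂, commutatorElement_mul_central_left _ _ _ z₁.2,
    commutatorElement_mul_central_right _ _ _ z₂.2]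

/-- Schur: if the centre has finite index, the commutator subgroup is finite. -/
theorem finite_commutator_of_finiteIndex_center [(Subgroup.center X).FiniteIndex] :
    Finite (_root_.commutator X) := by
  have := finite_commutatorSet_of_finiteIndex_center (X := X)
  infer_instance

/-- A surjective homomorphism between commutative groups onto a finitely generated torsion-free
group has a section. -/
theorem exists_section {K Q : Type*} [CommGroup K] [CommGroup Q] (f : K →* Q)
    (hf : Function.Surjective f) [hQ : Group.FG Q]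
    (htf : ∀ x : Q, ∀ m : ℕ, 0 < m → x ^ m = 1 → x = 1) :
    ∃ j : Q →* K, f.comp j = MonoidHom.id Q := by
  have hfin : Module.Finite ℤ (Additive Q) :=
    Module.Finite.iff_addGroup_fg.mpr (GroupFG.iff_add_fg.mp hQ)
  have htf' : Module.IsTorsionFree ℤ (Additive Q) := by
    refine ⟨fun r hr x y hxy => ?_⟩
    have hr0 : r ≠ 0 := hr.ne_zero
    have h1 : r • (x - y) = 0 := by
      rw [smul_sub]; exact sub_eq_zero.mpr hxy
    have h2 : (Additive.toMul (x - y)) ^ r.natAbs = 1 := by
      have h3 : (r.natAbs : ℤ) • (x - y) = 0 := by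
        rcases Int.natAbs_eq r with h | h
        · rw [← h]; exact h1
        · have : (r.natAbs : ℤ) = -r := by omega
          rw [this, neg_smul, h1, neg_zero]
      rw [natCast_zsmul] at h3
      exact congrArg Additive.toMul h3
    have h4 := htf _ r.natAbs (Int.natAbs_pos.mpr hr0) h2
    have h5 : x - y = 0 := by
      apply Additive.toMul.injective
      exact h4
    exact sub_eq_zero.mp h5
  have hfree : Module.Free ℤ (Additive Q) := Module.free_of_finite_type_torsion_free'
  obtain ⟨h, hh⟩ := Module.projective_lifting_property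
    (MonoidHom.toAdditive f).toIntLinearMap (LinearMap.id : Additive Q →ₗ[ℤ] Additive Q)
    (fun x => hf x)
  refine ⟨MonoidHom.toAdditive.symm h.toAddMonoidHom, ?_⟩
  ext x
  have := congrArg (fun l => l (Additive.ofMul x)) hh
  exact congrArg Additive.toMul this

end General

section Free

variable {α : Type u} {G : Type v} [Group G] (π : FreeGroup α →* G)

/-- `[F, R]` for `R = ker π`. -/
def FR : Subgroup (FreeGroup α) := ⁅(⊤ : Subgroup (FreeGroup α)), π.ker⁆

instance FR_normal : (FR π).Normal := Subgroup.commutator_normal ⊤ π.ker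

theorem FR_le_ker : FR π ≤ π.ker := Subgroup.commutator_le_right ⊤ π.ker

theorem FR_le_commutator : FR π ≤ _root_.commutator (FreeGroup α) := by
  rw [commutator_def]; exact Subgroup.commutator_mono le_rfl le_top

/-- `E = F / [F, R]`. -/
abbrev E := FreeGroup α ⧸ FR π

/-- The induced map `E → G`. -/
def πE : E π →* G := QuotientGroup.lift (FR π) π (FR_le_ker π)

theorem πE_mk (f : FreeGroup α) : πE π (QuotientGroup.mk f) = π f := rfl

theorem πE_surjective (hπ : Function.Surjective π) : Function.Surjective (πE π) := fun g => by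
  obtain ⟨f, rfl⟩ := hπ g; exact ⟨QuotientGroup.mk f, rfl⟩

/-- `Z = R / [F, R]`, the kernel of `E → G`. -/
def Z : Subgroup (E π) := (πE π).ker

theorem mem_Z (e : E π) : e ∈ Z π ↔ πE π e = 1 := MonoidHom.mem_ker

theorem Z_le_center : Z π ≤ Subgroup.center (E π) := by
  intro z hz
  rw [Subgroup.mem_center_iff]
  intro e
  obtain ⟨f, rfl⟩ := QuotientGroup.mk_surjective e
  obtain ⟨r, rfl⟩ := QuotientGroup.mk_surjective z
  have hr : r ∈ π.ker := hz
  have hc : ⁅f, r⁆ ∈ FR π := Subgroup.commutator_mem_commutator (Subgroup.mem_top f) hr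
  have h1 : (QuotientGroup.mk (⁅f, r⁆) : E π) = 1 := (QuotientGroup.eq_one_iff _).mpr hc
  rw [commutatorElement_def] at h1
  simp only [QuotientGroup.mk_mul, QuotientGroup.mk_inv] at h1
  exact mul_inv_eq_iff_eq_mul.mp (mul_inv_eq_one.mp h1)

instance Z_normal : (Z π).Normal := MonoidHom.normal_ker _

/-- `T = Z ⊓ E'`: the Schur multiplier. -/
def T : Subgroup (E π) := Z π ⊓ _root_.commutator (E π)

theorem T_le_Z : T π ≤ Z π := inf_le_left

theorem T_le_commutator : T π ≤ _root_.commutator (E π) := inf_le_right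

theorem T_le_center : T π ≤ Subgroup.center (E π) := (T_le_Z π).trans (Z_le_center π)

instance T_normal : (T π).Normal := normal_of_le_center _ (T_le_center π)

/-- Every central extension of `G` receives a homomorphism from `E` over `G`. -/
theorem exists_lift {X : Type w} [Group X] (ξ : X →* G) (hξ : Function.Surjective ξ)
    (hc : ξ.ker ≤ Subgroup.center X) : ∃ θ : E π →* X, ξ.comp θ = πE π := by
  choose s hs using fun a : α => hξ (π (FreeGroup.of a))
  have h1 : ξ.comp (FreeGroup.lift s) = π := FreeGroup.ext_hom _ _ (fun a => by simp [hs])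
  have h2 : FR π ≤ (FreeGroup.lift s).ker := by
    rw [FR, Subgroup.commutator_le]
    intro f _ r hr
    rw [MonoidHom.mem_ker, map_commutatorElement]
    apply commutatorElement_eq_one_of_central
    apply hc
    rw [MonoidHom.mem_ker, ← MonoidHom.comp_apply, h1]
    exact hr
  refine ⟨QuotientGroup.lift (FR π) (FreeGroup.lift s) h2, ?_⟩
  apply QuotientGroup.monoidHom_ext
  exact MonoidHom.ext fun f => DFunLike.congr_fun h1 f

/-- In a central extension `ξ : X → G`, the part of the kernel inside the commutator subgroup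
is an image of `T`. -/
theorem commutator_inf_ker_le (hπ : Function.Surjective π) {X : Type w} [Group X]
    (ξ : X →* G) (hc : ξ.ker ≤ Subgroup.center X) (θ : E π →* X) (hθ : ξ.comp θ = πE π) :
    _root_.commutator X ⊓ ξ.ker ≤ (T π).map θ := by
  have hsup : θ.range ⊔ ξ.ker = ⊤ := by
    rw [eq_top_iff]
    intro x _
    obtain ⟨e, he⟩ := πE_surjective π hπ (ξ x)
    have hk : (θ e)⁻¹ * x ∈ ξ.ker := by
      rw [MonoidHom.mem_ker, map_mul, map_inv, ← MonoidHom.comp_apply, hθ, he, inv_mul_cancel]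
    have : x = θ e * ((θ e)⁻¹ * x) := by group
    rw [this]
    exact Subgroup.mul_mem _ (Subgroup.mem_sup_left ⟨e, rfl⟩) (Subgroup.mem_sup_right hk)
  have hcomm : _root_.commutator X = (_root_.commutator (E π)).map θ := by
    rw [commutator_def, ← hsup, commutator_sup_central _ _ hc, commutator_def,
      Subgroup.map_commutator, ← MonoidHom.range_eq_map]
  intro x hx
  obtain ⟨hx1, hx2⟩ := Subgroup.mem_inf.mp hx
  rw [hcomm] at hx1
  obtain ⟨e, he, rfl⟩ := hx1
  refine ⟨e, Subgroup.mem_inf.mpr ⟨?_, he⟩, rfl⟩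
  rw [mem_Z, ← hθ]; exact hx2

theorem map_T_le_ker {X : Type w} [Group X] (ξ : X →* G) (θ : E π →* X)
    (hθ : ξ.comp θ = πE π) : (T π).map θ ≤ ξ.ker := by
  rintro _ ⟨t, ht, rfl⟩
  rw [MonoidHom.mem_ker, ← MonoidHom.comp_apply, hθ]
  exact (mem_Z π t).mp (T_le_Z π ht)

/-- For a stem extension the kernel is exactly the image of `T`. -/
theorem map_T_eq_ker (hπ : Function.Surjective π) {X : Type w} [Group X]
    (ξ : X →* G) (hc : ξ.ker ≤ Subgroup.center X) (hs : ξ.ker ≤ _root_.commutator X)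
    (θ : E π →* X) (hθ : ξ.comp θ = πE π) : (T π).map θ = ξ.ker :=
  le_antisymm (map_T_le_ker π ξ θ hθ)
    (le_trans (le_inf hs le_rfl) (commutator_inf_ker_le π hπ ξ hc θ hθ))

/-- A lift to a stem extension is surjective. -/
theorem surjective_of_stem (hπ : Function.Surjective π) {X : Type w} [Group X]
    (ξ : X →* G) (hc : ξ.ker ≤ Subgroup.center X) (hs : ξ.ker ≤ _root_.commutator X)
    (θ : E π →* X) (hθ : ξ.comp θ = πE π) : Function.Surjective θ := by
  intro x
  obtain ⟨e, he⟩ := πE_surjective π hπ (ξ x)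
  have hk : (θ e)⁻¹ * x ∈ ξ.ker := by
    rw [MonoidHom.mem_ker, map_mul, map_inv, ← MonoidHom.comp_apply, hθ, he, inv_mul_cancel]
  rw [← map_T_eq_ker π hπ ξ hc hs θ hθ] at hk
  obtain ⟨t, _, ht⟩ := hk
  exact ⟨e * t, by rw [map_mul, ht]; group⟩

theorem Z_finiteIndex [Finite G] (hπ : Function.Surjective π) : (Z π).FiniteIndex :=
  ⟨by
    rw [Z, Subgroup.index_ker, MonoidHom.range_eq_top.mpr (πE_surjective π hπ),
      Subgroup.card_top]
    exact Nat.card_pos.ne'⟩

theorem index_Z [Finite G] (hπ : Function.Surjective π) : (Z π).index = Nat.card G := by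
  rw [Z, Subgroup.index_ker, MonoidHom.range_eq_top.mpr (πE_surjective π hπ), Subgroup.card_top]

theorem finite_commutator [Finite G] (hπ : Function.Surjective π) :
    Finite (_root_.commutator (E π)) := by
  have := Z_finiteIndex π hπ
  have : (Subgroup.center (E π)).FiniteIndex := Subgroup.finiteIndex_of_le (Z_le_center π)
  exact finite_commutator_of_finiteIndex_center

theorem finite_T [Finite G] (hπ : Function.Surjective π) : Finite (T π) := by
  have := finite_commutator π hπ
  exact Finite.of_injective (Subgroup.inclusion (T_le_commutator π))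
    (Subgroup.inclusion_injective _)

/-- The abelianization of a free group is torsion-free. -/
theorem abelianization_freeGroup_torsionFree (x : Abelianization (FreeGroup α)) (m : ℕ)
    (hm : 0 < m) (h : x ^ m = 1) : x = 1 := by
  let y : FreeAbelianGroup α := (Additive.ofMul x : Additive (Abelianization (FreeGroup α)))
  have hy : m • y = 0 := congrArg Additive.ofMul h
  have h1 : m • (FreeAbelianGroup.equivFinsupp α y) = 0 := by
    rw [← map_nsmul, hy, map_zero]
  have h2 : FreeAbelianGroup.equivFinsupp α y = 0 := by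
    rcases smul_eq_zero.mp h1 with h | h
    · omega
    · exact h
  have h3 : y = 0 := (FreeAbelianGroup.equivFinsupp α).injective (by rw [h2, map_zero])
  exact congrArg Additive.toMul h3

/-- `E / E'` is torsion-free. -/
theorem mem_commutator_of_pow_mem (e : E π) (m : ℕ) (hm : 0 < m)
    (h : e ^ m ∈ _root_.commutator (E π)) : e ∈ _root_.commutator (E π) := by
  have hle : FR π ≤ (Abelianization.of : FreeGroup α →* Abelianization (FreeGroup α)).ker := by
    rw [Abelianization.ker_of]; exact FR_le_commutator π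
  let a : E π →* Abelianization (FreeGroup α) := QuotientGroup.lift (FR π) Abelianization.of hle
  have h1 : a (e ^ m) = 1 := Abelianization.commutator_subset_ker a h
  rw [map_pow] at h1
  have h2 := abelianization_freeGroup_torsionFree (a e) m hm h1
  obtain ⟨f, rfl⟩ := QuotientGroup.mk_surjective e
  have h3 : f ∈ _root_.commutator (FreeGroup α) := by
    rw [← Abelianization.ker_of]; exact h2
  rw [commutator_def] at h3 ⊢
  have h4 : (QuotientGroup.mk' (FR π)) f ∈ Subgroup.map (QuotientGroup.mk' (FR π))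
      ⁅(⊤ : Subgroup (FreeGroup α)), (⊤ : Subgroup (FreeGroup α))⁆ := ⟨f, h3, rfl⟩
  rw [Subgroup.map_commutator] at h4
  exact Subgroup.commutator_mono le_top le_top h4

open scoped IsMulCommutative in
/-- Complements of `T` in `Z` exist, and can be found inside any `K ≤ Z` with `K ⊔ T = Z`. -/
theorem exists_compl [Finite α] [Finite G] (hπ : Function.Surjective π) (K : Subgroup (E π))
    (hK : K ≤ Z π) (hKT : K ⊔ T π = Z π) :
    ∃ S : Subgroup (E π), S ≤ K ∧ S ⊓ T π = ⊥ ∧ S ⊔ T π = Z π := by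
  have hKc : K ≤ Subgroup.center (E π) := hK.trans (Z_le_center π)
  have hKn : K.Normal := normal_of_le_center K hKc
  have hTfin := finite_T π hπ
  have hKfi : K.FiniteIndex := by
    have h1 : K.relIndex (Z π) * (Z π).index = K.index := Subgroup.relIndex_mul_index hK
    have h2 : K.relIndex (Z π) = K.relIndex (T π) := by
      rw [← hKT, Subgroup.relIndex_sup_left]
    have h3 : K.relIndex (T π) ≠ 0 :=
      (Nat.pos_of_dvd_of_pos (Subgroup.relIndex_dvd_card K (T π)) Nat.card_pos).ne'
    exact ⟨by rw [← h1, h2, index_Z π hπ]; exact mul_ne_zero h3 Nat.card_pos.ne'⟩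
  have hEfg : Group.FG (E π) := Group.fg_of_surjective (QuotientGroup.mk'_surjective (FR π))
  have hKfg : Group.FG K := Subgroup.fg_of_index_ne_zero K
  have hKcomm : IsMulCommutative K :=
    ⟨⟨fun a b => Subtype.ext (Subgroup.mem_center_iff.mp (hKc b.2) a)⟩⟩
  let q : K →* E π ⧸ T π := (QuotientGroup.mk' (T π)).comp K.subtype
  have hQcomm : IsMulCommutative q.range := by
    refine ⟨⟨?_⟩⟩
    rintro ⟨_, ⟨a, rfl⟩⟩ ⟨_, ⟨b, rfl⟩⟩
    apply Subtype.ext
    change q a * q b = q b * q a
    rw [← map_mul, ← map_mul, mul_comm' a b]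
  have hQfg : Group.FG q.range :=
    Group.fg_of_surjective (f := q.rangeRestrict) q.rangeRestrict_surjective
  have htf : ∀ x : q.range, ∀ m : ℕ, 0 < m → x ^ m = 1 → x = 1 := by
    intro x m hm hx
    obtain ⟨k, rfl⟩ := q.rangeRestrict_surjective x
    have h1 : q (k ^ m) = 1 := by
      have := congrArg Subtype.val hx
      rw [map_pow]
      exact this
    have h2 : ((k : E π)) ^ m ∈ T π := (QuotientGroup.eq_one_iff _).mp h1
    have h3 : (k : E π) ∈ _root_.commutator (E π) :=
      mem_commutator_of_pow_mem π _ m hm (T_le_commutator π h2)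
    have h4 : (k : E π) ∈ T π := Subgroup.mem_inf.mpr ⟨hK k.2, h3⟩
    apply Subtype.ext
    change q k = 1
    exact (QuotientGroup.eq_one_iff _).mpr h4
  obtain ⟨j, hj⟩ := exists_section (hQ := hQfg) q.rangeRestrict q.rangeRestrict_surjective htf
  refine ⟨j.range.map K.subtype, ?_, ?_, ?_⟩
  · rintro _ ⟨k, _, rfl⟩; exact k.2
  · rw [eq_bot_iff]
    intro s hs
    obtain ⟨hs1, hs2⟩ := Subgroup.mem_inf.mp hs
    obtain ⟨k, ⟨x, rfl⟩, rfl⟩ := hs1
    have hx : q.rangeRestrict (j x) = x := DFunLike.congr_fun hj x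
    have h1 : q (j x) = 1 := (QuotientGroup.eq_one_iff _).mpr hs2
    have h2 : x = 1 := by rw [← hx]; exact Subtype.ext h1
    rw [Subgroup.mem_bot, h2, map_one]; rfl
  · apply le_antisymm
    · refine sup_le ?_ (T_le_Z π)
      rintro _ ⟨k, _, rfl⟩; exact hK k.2
    · rw [← hKT]
      apply sup_le _ le_sup_right
      intro k hk
      have hx : q.rangeRestrict (j (q.rangeRestrict ⟨k, hk⟩)) = q.rangeRestrict ⟨k, hk⟩ :=
        DFunLike.congr_fun hj _
      have h1 : q (j (q.rangeRestrict ⟨k, hk⟩)) = q ⟨k, hk⟩ := congrArg Subtype.val hx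
      have h2 : ((j (q.rangeRestrict ⟨k, hk⟩) : K) : E π)⁻¹ * k ∈ T π := by
        rw [← QuotientGroup.eq]; exact h1
      have : k = ((j (q.rangeRestrict ⟨k, hk⟩) : K) : E π) *
          (((j (q.rangeRestrict ⟨k, hk⟩) : K) : E π)⁻¹ * k) := by group
      rw [this]
      exact Subgroup.mul_mem _ (Subgroup.mem_sup_left ⟨_, ⟨_, rfl⟩, rfl⟩)
        (Subgroup.mem_sup_right h2)

/-- The extension `E / S → G` for a subgroup `S ≤ Z`. -/
def σS (S : Subgroup (E π)) [S.Normal] (hS : S ≤ Z π) : E π ⧸ S →* G :=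
  QuotientGroup.lift S (πE π) hS

theorem σS_mk (S : Subgroup (E π)) [S.Normal] (hS : S ≤ Z π) (e : E π) :
    σS π S hS (QuotientGroup.mk e) = πE π e := rfl

theorem ker_σS (S : Subgroup (E π)) [S.Normal] (hS : S ≤ Z π) :
    (σS π S hS).ker = (Z π).map (QuotientGroup.mk' S) := by
  ext x
  obtain ⟨e, rfl⟩ := QuotientGroup.mk_surjective x
  constructor
  · intro h
    exact ⟨e, h, rfl⟩
  · rintro ⟨z, hz, hzx⟩
    rw [MonoidHom.mem_ker, ← hzx]
    exact hz

theorem σS_isStem (hπ : Function.Surjective π) (S : Subgroup (E π)) [S.Normal]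
    (hS : S ≤ Z π) (hST : S ⊔ T π = Z π) : Cfsg.IsStemExtension (σS π S hS) := by
  refine ⟨?_, ?_, ?_⟩
  · intro g
    obtain ⟨e, rfl⟩ := πE_surjective π hπ g
    exact ⟨QuotientGroup.mk e, rfl⟩
  · rw [ker_σS]
    rintro _ ⟨z, hz, rfl⟩
    rw [Subgroup.mem_center_iff]
    intro y
    obtain ⟨e, rfl⟩ := QuotientGroup.mk_surjective y
    change (QuotientGroup.mk e : E π ⧸ S) * QuotientGroup.mk z =
      QuotientGroup.mk z * QuotientGroup.mk e
    rw [← QuotientGroup.mk_mul, ← QuotientGroup.mk_mul,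
      Subgroup.mem_center_iff.mp (Z_le_center π hz) e]
  · rw [ker_σS, ← hST]
    rintro _ ⟨z, hz, rfl⟩
    obtain ⟨s, hs, t, ht, rfl⟩ := Subgroup.mem_sup_of_normal_right.mp hz
    have hs1 : (QuotientGroup.mk' S) s = 1 := (QuotientGroup.eq_one_iff s).mpr hs
    have h1 : (QuotientGroup.mk' S) (s * t) = (QuotientGroup.mk' S) t := by
      rw [map_mul, hs1, one_mul]
    rw [h1, commutator_def]
    have h4 : (QuotientGroup.mk' S) t ∈ Subgroup.map (QuotientGroup.mk' S)
        ⁅(⊤ : Subgroup (E π)), (⊤ : Subgroup (E π))⁆ :=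
      ⟨t, by rw [← commutator_def]; exact T_le_commutator π ht, rfl⟩
    rw [Subgroup.map_commutator] at h4
    exact Subgroup.commutator_mono le_top le_top h4

theorem σS_kerEquiv (S : Subgroup (E π)) [S.Normal] (hS : S ≤ Z π)
    (hST1 : S ⊓ T π = ⊥) (hST2 : S ⊔ T π = Z π) : Nonempty ((σS π S hS).ker ≃* T π) := by
  let φ : T π →* (σS π S hS).ker :=
    ((QuotientGroup.mk' S).comp (T π).subtype).codRestrict _ (fun t => by
      rw [MonoidHom.mem_ker]
      exact (mem_Z π _).mp (T_le_Z π t.2))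
  have hinj : Function.Injective φ := by
    rw [injective_iff_map_eq_one]
    intro t ht
    have h1 : (QuotientGroup.mk' S) (t : E π) = 1 := congrArg Subtype.val ht
    have h2 : (t : E π) ∈ S := (QuotientGroup.eq_one_iff _).mp h1
    have h3 : (t : E π) ∈ S ⊓ T π := Subgroup.mem_inf.mpr ⟨h2, t.2⟩
    rw [hST1, Subgroup.mem_bot] at h3
    exact Subtype.ext h3
  have hsurj : Function.Surjective φ := by
    rintro ⟨x, hx⟩
    rw [ker_σS, ← hST2] at hx
    obtain ⟨z, hz, rfl⟩ := hx
    obtain ⟨s, hs, t, ht, rfl⟩ := Subgroup.mem_sup_of_normal_right.mp hz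
    refine ⟨⟨t, ht⟩, Subtype.ext ?_⟩
    have hs1 : (QuotientGroup.mk' S) s = 1 := (QuotientGroup.eq_one_iff s).mpr hs
    change (QuotientGroup.mk' S) t = (QuotientGroup.mk' S) (s * t)
    rw [map_mul, hs1, one_mul]
  exact ⟨(MulEquiv.ofBijective φ ⟨hinj, hsurj⟩).symm⟩

theorem σS_finite [Finite G] (hπ : Function.Surjective π) (S : Subgroup (E π)) [S.Normal]
    (hS : S ≤ Z π) (hST : S ⊔ T π = Z π) : Finite (E π ⧸ S) := by
  have hTfin := finite_T π hπ
  have h1 : S.relIndex (Z π) * (Z π).index = S.index := Subgroup.relIndex_mul_index hS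
  have h2 : S.relIndex (Z π) = S.relIndex (T π) := by
    rw [← hST, Subgroup.relIndex_sup_left]
  have h3 : S.relIndex (T π) ≠ 0 :=
    (Nat.pos_of_dvd_of_pos (Subgroup.relIndex_dvd_card S (T π)) Nat.card_pos).ne'
  have : S.FiniteIndex :=
    ⟨by rw [← h1, h2, index_Z π hπ]; exact mul_ne_zero h3 Nat.card_pos.ne'⟩
  exact Subgroup.finite_quotient_of_finiteIndex

end Free

section Main

variable {α : Type u} {G : Type u} [Group G] (π : FreeGroup α →* G)

/-- A finite Schur cover with kernel `≃* T` dominating a given stem extension. -/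
theorem exists_cover_over [Finite G] [Finite α] (hπ : Function.Surjective π) {Δ : Type w}
    [Group Δ] (τ : Δ →* G) (hτ : Cfsg.IsStemExtension τ) :
    ∃ (Γ : Type u) (_ : Group Γ) (_ : Finite Γ) (σ : Γ →* G), Cfsg.IsStemExtension σ ∧
      Nonempty (σ.ker ≃* T π) ∧ ∃ β : Γ →* Δ, Function.Surjective β ∧ τ.comp β = σ := by
  obtain ⟨hτs, hτc, hτk⟩ := hτ
  obtain ⟨θ, hθ⟩ := exists_lift π τ hτs hτc
  have hθs := surjective_of_stem π hπ τ hτc hτk θ hθ
  have hmap := map_T_eq_ker π hπ τ hτc hτk θ hθ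
  have hK : θ.ker ≤ Z π := by
    intro e he
    rw [mem_Z, ← hθ, MonoidHom.comp_apply, MonoidHom.mem_ker.mp he, map_one]
  have hKT : θ.ker ⊔ T π = Z π := by
    apply le_antisymm (sup_le hK (T_le_Z π))
    intro z hz
    have h1 : θ z ∈ τ.ker := by
      rw [MonoidHom.mem_ker, ← MonoidHom.comp_apply, hθ]; exact (mem_Z π z).mp hz
    rw [← hmap] at h1
    obtain ⟨t, ht, hte⟩ := h1
    have h2 : z * t⁻¹ ∈ θ.ker := by
      rw [MonoidHom.mem_ker, map_mul, map_inv, hte, mul_inv_cancel]
    have : z = (z * t⁻¹) * t := by group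
    rw [this]
    exact Subgroup.mul_mem _ (Subgroup.mem_sup_left h2) (Subgroup.mem_sup_right ht)
  obtain ⟨S, hSK, hST1, hST2⟩ := exists_compl π hπ θ.ker hK hKT
  have hSZ : S ≤ Z π := hSK.trans hK
  have hSn : S.Normal := normal_of_le_center S (hSZ.trans (Z_le_center π))
  refine ⟨E π ⧸ S, inferInstance, σS_finite π hπ S hSZ hST2, σS π S hSZ,
    σS_isStem π hπ S hSZ hST2, σS_kerEquiv π S hSZ hST1 hST2, QuotientGroup.lift S θ hSK, ?_, ?_⟩
  · intro d
    obtain ⟨e, rfl⟩ := hθs d
    exact ⟨QuotientGroup.mk e, rfl⟩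
  · apply QuotientGroup.monoidHom_ext
    exact MonoidHom.ext fun e => DFunLike.congr_fun hθ e

/-- A finite Schur cover with kernel `≃* T`. -/
theorem exists_cover [Finite G] [Finite α] (hπ : Function.Surjective π) :
    ∃ (Γ : Type u) (_ : Group Γ) (_ : Finite Γ) (σ : Γ →* G), Cfsg.IsStemExtension σ ∧
      Nonempty (σ.ker ≃* T π) := by
  obtain ⟨S, hSK, hST1, hST2⟩ := exists_compl π hπ (Z π) le_rfl (sup_eq_left.mpr (T_le_Z π))
  have hSn : S.Normal := normal_of_le_center S (hSK.trans (Z_le_center π))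
  exact ⟨E π ⧸ S, inferInstance, σS_finite π hπ S hSK hST2, σS π S hSK,
    σS_isStem π hπ S hSK hST2, σS_kerEquiv π S hSK hST1 hST2⟩

/-- The kernel of every stem extension is a homomorphic image of `T`. -/
theorem exists_surjective_T_ker (hπ : Function.Surjective π) {Γ : Type w} [Group Γ]
    (σ : Γ →* G) (hσ : Cfsg.IsStemExtension σ) : ∃ f : T π →* σ.ker, Function.Surjective f := by
  obtain ⟨hs, hc, hk⟩ := hσ
  obtain ⟨θ, hθ⟩ := exists_lift π σ hs hc
  have hmap := map_T_eq_ker π hπ σ hc hk θ hθ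
  refine ⟨(θ.comp (T π).subtype).codRestrict σ.ker (fun t => hmap ▸ ⟨t, t.2, rfl⟩), ?_⟩
  rintro ⟨x, hx⟩
  rw [← hmap] at hx
  obtain ⟨t, ht, rfl⟩ := hx
  exact ⟨⟨t, ht⟩, rfl⟩

/-- Any `A` with `HasSchurMultiplier G A` is isomorphic to `T`. -/
theorem equiv_T_of_hasSchurMultiplier [Finite G] [Finite α] (hπ : Function.Surjective π)
    {A : Type w} [CommGroup A] (hA : Cfsg.HasSchurMultiplier G A) : Nonempty (A ≃* T π) := by
  obtain ⟨⟨Γ, _, _, σ, hσ, ⟨e⟩⟩, hA2⟩ := hA
  obtain ⟨f, hf⟩ := exists_surjective_T_ker π hπ σ hσ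
  obtain ⟨Γ', _, _, σ', hσ', ⟨e'⟩⟩ := exists_cover π hπ
  obtain ⟨π', hπ'⟩ := hA2 Γ' σ' hσ'
  have hTfin := finite_T π hπ
  have hAfin : Finite A := Finite.of_equiv σ.ker e.toEquiv
  have h1 : Function.Surjective (e.toMonoidHom.comp f) := e.surjective.comp hf
  have h2 : Function.Surjective (e'.toMonoidHom.comp π') := e'.surjective.comp hπ'
  have hle : Nat.card A ≤ Nat.card (T π) := Nat.card_le_card_of_surjective _ h1
  exact ⟨MulEquiv.ofBijective (e'.toMonoidHom.comp π') (h2.bijective_of_nat_card_le hle)⟩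

/-- Any commutative group isomorphic to `T` is "the" Schur multiplier. -/
theorem hasSchurMultiplier_of_equiv [Finite G] [Finite α] (hπ : Function.Surjective π)
    {A : Type w} [CommGroup A] (e : A ≃* T π) : Cfsg.HasSchurMultiplier G A := by
  refine ⟨?_, ?_⟩
  · obtain ⟨Γ, i1, i2, σ, hσ, ⟨e'⟩⟩ := exists_cover π hπ
    exact ⟨Γ, i1, i2, σ, hσ, ⟨e'.trans e.symm⟩⟩
  · intro Γ _ _ σ hσ
    obtain ⟨f, hf⟩ := exists_surjective_T_ker π hπ σ hσ
    exact ⟨f.comp e.toMonoidHom, hf.comp e.surjective⟩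

theorem T_eq_bot_of_trivial [Finite G] [Finite α] (hπ : Function.Surjective π)
    (h : Cfsg.HasCyclicSchurMultiplier G 1) : T π = ⊥ := by
  obtain ⟨e⟩ := equiv_T_of_hasSchurMultiplier π hπ h
  apply Subgroup.eq_bot_of_card_eq
  rw [← Nat.card_congr e.toEquiv]
  exact Nat.card_unique

/-- If `T = ⊥`, central extensions of `G` meet their commutator subgroup trivially. -/
theorem commutator_inf_ker_eq_bot (hπ : Function.Surjective π) (hT : T π = ⊥) {X : Type w}
    [Group X] (ξ : X →* G) (hξ : Function.Surjective ξ) (hc : ξ.ker ≤ Subgroup.center X) :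
    _root_.commutator X ⊓ ξ.ker = ⊥ := by
  obtain ⟨θ, hθ⟩ := exists_lift π ξ hξ hc
  have := commutator_inf_ker_le π hπ ξ hc θ hθ
  rw [hT, Subgroup.map_bot] at this
  exact eq_bot_iff.mpr this

end Main

section Canonical

variable (G : Type u) [Group G]

/-- The canonical presentation `FreeGroup G → G`. -/
def can : FreeGroup G →* G := FreeGroup.lift id

theorem can_surjective : Function.Surjective (can G) := fun g =>
  ⟨FreeGroup.of g, by simp [can]⟩

/-- In a central extension of a finite group with trivial Schur multiplier, the kernel meets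
the commutator subgroup trivially. -/
theorem commutator_inf_ker_eq_bot_of_trivial [Finite G]
    (h : Cfsg.HasCyclicSchurMultiplier G 1) {X : Type w} [Group X] (ξ : X →* G)
    (hξ : Function.Surjective ξ) (hc : ξ.ker ≤ Subgroup.center X) :
    _root_.commutator X ⊓ ξ.ker = ⊥ :=
  commutator_inf_ker_eq_bot (can G) (can_surjective G)
    (T_eq_bot_of_trivial (can G) (can_surjective G) h) ξ hξ hc

end Canonical

end Cfsg.Agent.Lib.Helper66.Hopf
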