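import Mathlib
import Cfsg.Prelude.Def_KGroupFacts
import Cfsg.Agent.Lib.Helper35.Stem
import Cfsg.Agent.Lib.Helper86.SD16
import Cfsg.Agent.Lib.Helper66.Hopf

/-!
# Local criteria for the kernel of a stem extension to be trivial

`σ : Γ → G` a central extension, `U ≤ G`, `H = σ⁻¹(U)`.  By transfer, a central element of
`Γ'` of order prime to `|G : U|` lies in `⁅H, H⁆`.  We compute `⁅H, H⁆` from generators of `U`.
-/

set_option autoImplicit false

namespace Cfsg.Agent.Lib.Helper66.StemLocal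

open scoped commutatorElement
open Cfsg.Agent.Lib.Helper66

section General

variable {Γ : Type*} [Group Γ]

theorem commutatorElement_mul_left' (x y z : Γ) :
    ⁅x * y, z⁆ = x * ⁅y, z⁆ * x⁻¹ * ⁅x, z⁆ := by
  rw [commutatorElement_def, commutatorElement_def, commutatorElement_def]; group

theorem commutatorElement_mul_right' (x y z : Γ) :
    ⁅x, y * z⁆ = ⁅x, y⁆ * (y * ⁅x, z⁆ * y⁻¹) := by
  rw [commutatorElement_def, commutatorElement_def, commutatorElement_def]; group

theorem commutatorElement_inv_left' (x y : Γ) : ⁅x⁻¹, y⁆ = x⁻¹ * ⁅x, y⁆⁻¹ * x := by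
  rw [commutatorElement_def, commutatorElement_def]; group

theorem commutatorElement_inv_right' (x y : Γ) : ⁅x, y⁻¹⁆ = y⁻¹ * ⁅x, y⁆⁻¹ * y := by
  rw [commutatorElement_def, commutatorElement_def]; group

/-- If `W` is stable under conjugation by the generators `s` and their inverses, it is stable
under conjugation by `closure s`. -/
theorem conj_mem_of_closure (W : Subgroup Γ) (s : Set Γ)
    (hN : ∀ a ∈ s, ∀ v ∈ W, a * v * a⁻¹ ∈ W ∧ a⁻¹ * v * a ∈ W) {x : Γ}
    (hx : x ∈ Subgroup.closure s) : ∀ v ∈ W, x * v * x⁻¹ ∈ W ∧ x⁻¹ * v * x ∈ W := by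
  induction hx using Subgroup.closure_induction with
  | mem a ha => exact hN a ha
  | one =>
    intro v hv
    simpa using hv
  | mul a b _ _ iha ihb =>
    intro v hv
    constructor
    · have h1 := (iha _ (ihb v hv).1).1
      have e : a * b * v * (a * b)⁻¹ = a * (b * v * b⁻¹) * a⁻¹ := by group
      rw [e]; exact h1
    · have h1 := (ihb _ (iha v hv).2).2
      have e : (a * b)⁻¹ * v * (a * b) = b⁻¹ * (a⁻¹ * v * a) * b := by group
      rw [e]; exact h1
  | inv a _ iha =>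
    intro v hv
    constructor
    · have h1 := (iha v hv).2
      rwa [inv_inv]
    · have h1 := (iha v hv).1
      rwa [inv_inv]

/-- Commutators of a subgroup generated by `s` lie in `W` as soon as the commutators of the
generators do and `W` is stable under conjugation by the generators and their inverses. -/
theorem commutator_closure_le (W : Subgroup Γ) (s : Set Γ)
    (hN : ∀ a ∈ s, ∀ v ∈ W, a * v * a⁻¹ ∈ W ∧ a⁻¹ * v * a ∈ W)
    (hs : ∀ a ∈ s, ∀ b ∈ s, ⁅a, b⁆ ∈ W) :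
    ⁅Subgroup.closure s, Subgroup.closure s⁆ ≤ W := by
  rw [Subgroup.commutator_le]
  intro x hx y hy
  induction hx, hy using Subgroup.closure_induction₂ with
  | mem x y hx hy => exact hs x hx y hy
  | one_left x hx => rw [commutatorElement_one_left]; exact Subgroup.one_mem _
  | one_right x hx => rw [commutatorElement_one_right]; exact Subgroup.one_mem _
  | mul_left x y z hx hy hz h1 h2 =>
    rw [commutatorElement_mul_left']
    exact Subgroup.mul_mem _ (conj_mem_of_closure W s hN hx _ h2).1 h1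
  | mul_right y z x hy hz hx h1 h2 =>
    rw [commutatorElement_mul_right']
    exact Subgroup.mul_mem _ h1 (conj_mem_of_closure W s hN hy _ h2).1
  | inv_left x y hx hy h =>
    rw [commutatorElement_inv_left']
    exact (conj_mem_of_closure W s hN hx _ (Subgroup.inv_mem _ h)).2
  | inv_right x y hx hy h =>
    rw [commutatorElement_inv_right']
    exact (conj_mem_of_closure W s hN hy _ (Subgroup.inv_mem _ h)).2

end General

section Ext

variable {Γ G : Type*} [Group Γ] [Group G] (σ : Γ →* G)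

/-- The preimage of the subgroup generated by the images of `s`. -/
theorem comap_closure_image (s : Set Γ) :
    (Subgroup.closure (σ '' s)).comap σ = Subgroup.closure s ⊔ σ.ker := by
  rw [← MonoidHom.map_closure, Subgroup.comap_map_eq]

/-- In a central extension, the commutator subgroup of the preimage of `⟨σ(s)⟩` is that of
`⟨s⟩`. -/
theorem commutator_comap_closure (hc : σ.ker ≤ Subgroup.center Γ) (s : Set Γ) :
    ⁅(Subgroup.closure (σ '' s)).comap σ, (Subgroup.closure (σ '' s)).comap σ⁆ =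
      ⁅Subgroup.closure s, Subgroup.closure s⁆ := by
  rw [comap_closure_image, Hopf.commutator_sup_central _ _ hc]

/-- Transfer criterion: the kernel of a finite stem extension is trivial if for every prime
`l` some subgroup `U` of index prime to `l` has no element of order `l` in
`⁅σ⁻¹ U, σ⁻¹ U⁆ ⊓ ker σ`. -/
theorem ker_eq_bot_of_local [Finite Γ] (hσ : Cfsg.IsStemExtension σ)
    (h : ∀ l : ℕ, l.Prime → ∃ U : Subgroup G, (U.index).Coprime l ∧
      ∀ z ∈ ⁅U.comap σ, U.comap σ⁆ ⊓ σ.ker, orderOf z ≠ l) : σ.ker = ⊥ := by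
  apply Cfsg.Agent.Lib.Helper35.Stem.eq_bot_of_no_prime_order
  intro z hz hl
  obtain ⟨U, hU, hUz⟩ := h _ hl
  have hidx : (U.comap σ).index = U.index := Subgroup.index_comap_of_surjective U hσ.1
  have hmem := Cfsg.Agent.Lib.Helper35.Stem.mem_commutator_of_coprime (U.comap σ)
    (hσ.2.1 hz) (hσ.2.2 hz) (by rw [hidx]; exact hU)
  exact hUz z (Subgroup.mem_inf.mpr ⟨hmem, hz⟩) rfl

/-- Cyclic subgroups: the preimage is commutative. -/
theorem commutator_comap_eq_bot_of_isCyclic (hs : Function.Surjective σ)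
    (hc : σ.ker ≤ Subgroup.center Γ) (U : Subgroup G) [IsCyclic U] :
    ⁅U.comap σ, U.comap σ⁆ = ⊥ := by
  have hcyc : IsCyclic ((U.comap σ).map σ) := by
    rw [Subgroup.map_comap_eq_self_of_surjective hs]; infer_instance
  have hS := Cfsg.Agent.Lib.Helper35.Stem.comm_of_map_isCyclic σ hc (U.comap σ) hcyc
  rw [Subgroup.commutator_eq_bot_iff_le_centralizer]
  intro a ha
  rw [Subgroup.mem_centralizer_iff]
  intro b hb
  exact hS b hb a ha

/-- Two commuting elements `x, y` and an element `g` inverting `x` and centralizing `y`: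
every element of `⁅H, H⁆`, `H = σ⁻¹⟨x, y⟩`, squares to `1`. -/
theorem sq_eq_one_of_pair (hs : Function.Surjective σ) (hc : σ.ker ≤ Subgroup.center Γ)
    {x y g : G} (hxy : x * y = y * x) (hgx : g * x * g⁻¹ = x⁻¹) (hgy : g * y * g⁻¹ = y) :
    ∀ z ∈ ⁅(Subgroup.closure ({x, y} : Set G)).comap σ,
      (Subgroup.closure ({x, y} : Set G)).comap σ⁆, z ^ 2 = 1 := by
  obtain ⟨X, rfl⟩ := hs x
  obtain ⟨Y, rfl⟩ := hs y
  obtain ⟨Gl, rfl⟩ := hs g
  have himg : ({σ X, σ Y} : Set G) = σ '' {X, Y} := (Set.image_pair σ X Y).symm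
  rw [himg, commutator_comap_closure σ hc]
  have hcker : ⁅X, Y⁆ ∈ σ.ker := by
    rw [MonoidHom.mem_ker, map_commutatorElement, commutatorElement_eq_one_iff_commute]
    exact hxy
  have hcc : ∀ t : Γ, t * ⁅X, Y⁆ = ⁅X, Y⁆ * t := Subgroup.mem_center_iff.mp (hc hcker)
  have hzc : ∀ (n : ℤ) (t : Γ), t * ⁅X, Y⁆ ^ n = ⁅X, Y⁆ ^ n * t := fun n t =>
    Subgroup.mem_center_iff.mp (Subgroup.zpow_mem _ (hc hcker) n) t
  -- `c² = 1`
  have hsq : ⁅X, Y⁆ * ⁅X, Y⁆ = 1 := by
    have h1 : Gl * ⁅X, Y⁆ * Gl⁻¹ = ⁅Gl * X * Gl⁻¹, Gl * Y * Gl⁻¹⁆ := by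
      rw [commutatorElement_def, commutatorElement_def]; group
    have h2 : ⁅Gl * X * Gl⁻¹, Gl * Y * Gl⁻¹⁆ = ⁅X⁻¹, Y⁆ :=
      Cfsg.Agent.Lib.Helper35.Stem.commutator_eq_of_map_eq σ hc
        (by rw [map_mul, map_mul, map_inv, hgx, map_inv])
        (by rw [map_mul, map_mul, map_inv, hgy])
    have h3 : Gl * ⁅X, Y⁆ * Gl⁻¹ = ⁅X, Y⁆ := by rw [hcc Gl, mul_inv_cancel_right]
    have h4 : ⁅X⁻¹, Y⁆ = ⁅X, Y⁆⁻¹ := by
      rw [commutatorElement_inv_left']
      have := Subgroup.mem_center_iff.mp (Subgroup.inv_mem _ (hc hcker)) X⁻¹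
      rw [this, inv_mul_cancel_right]
    have h5 : ⁅X, Y⁆ = ⁅X, Y⁆⁻¹ := by rw [← h4, ← h2, ← h1, h3]
    calc ⁅X, Y⁆ * ⁅X, Y⁆ = ⁅X, Y⁆⁻¹ * ⁅X, Y⁆ := by rw [← h5]
      _ = 1 := inv_mul_cancel _
  have hle : ⁅Subgroup.closure ({X, Y} : Set Γ), Subgroup.closure ({X, Y} : Set Γ)⁆ ≤
      Subgroup.zpowers ⁅X, Y⁆ := by
    apply commutator_closure_le
    · intro a _ v hv
      obtain ⟨n, rfl⟩ := Subgroup.mem_zpowers_iff.mp hv
      constructor
      · rw [hzc n a, mul_inv_cancel_right]; exact Subgroup.zpow_mem_zpowers _ n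
      · rw [mul_assoc, ← hzc n a, inv_mul_cancel_left]; exact Subgroup.zpow_mem_zpowers _ n
    · intro a ha b hb
      have ha' : a = X ∨ a = Y := ha
      have hb' : b = X ∨ b = Y := hb
      rcases ha' with h1 | h1 <;> rcases hb' with h2 | h2 <;> rw [h1, h2]
      · rw [commutatorElement_self]; exact Subgroup.one_mem _
      · exact Subgroup.mem_zpowers _
      · rw [← commutatorElement_inv X Y]; exact Subgroup.inv_mem _ (Subgroup.mem_zpowers _)
      · rw [commutatorElement_self]; exact Subgroup.one_mem _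
  intro z hz
  obtain ⟨n, rfl⟩ := Subgroup.mem_zpowers_iff.mp (hle hz)
  rw [← zpow_natCast, ← zpow_mul, mul_comm, zpow_mul, zpow_natCast, pow_two, hsq, one_zpow]

open Cfsg.Agent.Lib.Helper86.SD16 in
/-- Semidihedral subgroups of order 16: `⁅H, H⁆ ⊓ ker σ = ⊥` for `H = σ⁻¹⟨a, b⟩`. -/
theorem sd16_commutator_inf_ker (hs : Function.Surjective σ) (hc : σ.ker ≤ Subgroup.center Γ)
    {a b : G} (rel : Rel a b) :
    ⁅(Subgroup.closure ({a, b} : Set G)).comap σ,
      (Subgroup.closure ({a, b} : Set G)).comap σ⁆ ⊓ σ.ker = ⊥ := by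
  have hord := rel.orderOf_a
  have hb2 := rel.b_mul_b
  have hba := rel.ba
  obtain ⟨A, rfl⟩ := hs a
  obtain ⟨B, rfl⟩ := hs b
  have himg : ({σ A, σ B} : Set G) = σ '' {A, B} := (Set.image_pair σ A B).symm
  rw [himg, commutator_comap_closure σ hc]
  -- the central elements `z = B A B⁻¹ A⁻³` and `B²`
  have hzker : B * A * B⁻¹ * (A ^ 3)⁻¹ ∈ σ.ker := by
    rw [MonoidHom.mem_ker, map_mul, map_mul, map_mul, map_inv, map_inv, map_pow, hba,
      mul_inv_cancel]
  have hvker : B * B ∈ σ.ker := by rw [MonoidHom.mem_ker, map_mul, hb2]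
  obtain ⟨z, hz⟩ : ∃ z, z = B * A * B⁻¹ * (A ^ 3)⁻¹ := ⟨_, rfl⟩
  rw [← hz] at hzker
  have hzc : ∀ t : Γ, t * z = z * t := Subgroup.mem_center_iff.mp (hc hzker)
  have hvc : ∀ t : Γ, t * (B * B) = B * B * t := Subgroup.mem_center_iff.mp (hc hvker)
  have F1 : B * A * B⁻¹ = A ^ 3 * z := by
    rw [hzc (A ^ 3), hz, inv_mul_cancel_right]
  have hcom : ∀ n : ℕ, Commute (A ^ n) z := fun n => hzc (A ^ n)
  -- conjugation by `B` on powers of `A`
  have F1n : ∀ n : ℕ, B * A ^ n * B⁻¹ = A ^ (3 * n) * z ^ n := by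
    intro n
    rw [← conj_pow, F1, (hcom 3).mul_pow, ← pow_mul]
  -- `A⁸ z⁴ = 1`
  have F5 : A ^ 8 * z ^ 4 = 1 := by
    have h1 : B * B * A * (B * B)⁻¹ = A := by rw [← hvc A, mul_inv_cancel_right]
    have h2 : B * B * A * (B * B)⁻¹ = B * (B * A * B⁻¹) * B⁻¹ := by group
    rw [h2, F1] at h1
    have h3 : B * (A ^ 3 * z) * B⁻¹ = B * A ^ 3 * B⁻¹ * z := by
      rw [mul_assoc B, mul_assoc B, mul_assoc (A ^ 3), ← hzc B⁻¹, ← mul_assoc (A ^ 3),
        ← mul_assoc B, ← mul_assoc B]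
    rw [h3, F1n 3] at h1
    have h4 : A ^ (3 * 3) * z ^ 3 * z = A * (A ^ 8 * z ^ 4) := by
      rw [mul_assoc, ← pow_succ, ← mul_assoc, ← pow_succ']
    rw [h4] at h1
    exact mul_left_cancel (a := A) (by rw [h1, mul_one])
  obtain ⟨w, hw⟩ : ∃ w, w = A ^ 2 * z := ⟨_, rfl⟩
  have hw4 : w ^ 4 = 1 := by
    rw [hw, (hcom 2).mul_pow, ← pow_mul]
    exact F5
  have hBw : B * w * B⁻¹ = w ^ 3 := by
    have h1 : B * (A ^ 2 * z) * B⁻¹ = B * A ^ 2 * B⁻¹ * z := by
      rw [mul_assoc B, mul_assoc B, mul_assoc (A ^ 2), ← hzc B⁻¹, ← mul_assoc (A ^ 2),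
        ← mul_assoc B, ← mul_assoc B]
    rw [hw, h1, F1n 2, (hcom 2).mul_pow, ← pow_mul, mul_assoc, ← pow_succ]
  have hBw' : B⁻¹ * w * B = w ^ 3 := by
    have h1 : B⁻¹ * w * B = B * ((B * B)⁻¹ * w * (B * B)) * B⁻¹ := by group
    have h2 : (B * B)⁻¹ * w * (B * B) = w := by
      rw [mul_assoc, hvc w, inv_mul_cancel_left]
    rw [h1, h2, hBw]
  have hAw : A * w = w * A := by
    rw [hw]
    calc A * (A ^ 2 * z) = A ^ 2 * (A * z) := by
          rw [← mul_assoc, ← mul_assoc, ← pow_succ', ← pow_succ]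
      _ = A ^ 2 * z * A := by rw [hzc A, mul_assoc]
  have hcomm : ⁅B, A⁆ = w := by
    rw [commutatorElement_def, F1, hw]
    calc A ^ 3 * z * A⁻¹ = A ^ 3 * A⁻¹ * z := by
          rw [mul_assoc, ← hzc A⁻¹, mul_assoc]
      _ = A ^ 2 * z := by rw [pow_succ A 2, mul_inv_cancel_right]
  have hle : ⁅Subgroup.closure ({A, B} : Set Γ), Subgroup.closure ({A, B} : Set Γ)⁆ ≤
      Subgroup.zpowers w := by
    apply commutator_closure_le
    · intro t ht v hv
      obtain ⟨n, rfl⟩ := Subgroup.mem_zpowers_iff.mp hv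
      have ht' : t = A ∨ t = B := ht
      rcases ht' with h0 | h0 <;> rw [h0]
      · have h1 : A * w ^ n * A⁻¹ = w ^ n := by
          rw [← conj_zpow, hAw, mul_inv_cancel_right]
        have h2 : A⁻¹ * w ^ n * A = w ^ n := by
          have := conj_zpow (a := A⁻¹) (b := w) (i := n)
          rw [inv_inv] at this
          rw [← this, mul_assoc, ← hAw, inv_mul_cancel_left]
        rw [h1, h2]
        exact ⟨Subgroup.zpow_mem_zpowers _ n, Subgroup.zpow_mem_zpowers _ n⟩
      · have h1 : B * w ^ n * B⁻¹ = (w ^ 3) ^ n := by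
          rw [← conj_zpow, hBw]
        have h2 : B⁻¹ * w ^ n * B = (w ^ 3) ^ n := by
          have := conj_zpow (a := B⁻¹) (b := w) (i := n)
          rw [inv_inv] at this
          rw [← this, hBw']
        rw [h1, h2]
        exact ⟨Subgroup.zpow_mem _ (Subgroup.pow_mem _ (Subgroup.mem_zpowers _) 3) n,
          Subgroup.zpow_mem _ (Subgroup.pow_mem _ (Subgroup.mem_zpowers _) 3) n⟩
    · intro t ht u hu
      have ht' : t = A ∨ t = B := ht
      have hu' : u = A ∨ u = B := hu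
      rcases ht' with h1 | h1 <;> rcases hu' with h2 | h2 <;> rw [h1, h2]
      · rw [commutatorElement_self]; exact Subgroup.one_mem _
      · rw [← commutatorElement_inv B A, hcomm]
        exact Subgroup.inv_mem _ (Subgroup.mem_zpowers _)
      · rw [hcomm]; exact Subgroup.mem_zpowers _
      · rw [commutatorElement_self]; exact Subgroup.one_mem _
  rw [eq_bot_iff]
  intro k hk
  obtain ⟨hk1, hk2⟩ := Subgroup.mem_inf.mp hk
  obtain ⟨n, rfl⟩ := Subgroup.mem_zpowers_iff.mp (hle hk1)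
  rw [Subgroup.mem_bot]
  have hσw : σ w = σ A ^ 2 := by
    rw [hw, map_mul, map_pow, MonoidHom.mem_ker.mp hzker, mul_one]
  have h1 : σ A ^ (2 * n) = 1 := by
    have := MonoidHom.mem_ker.mp hk2
    rw [map_zpow, hσw, ← zpow_natCast, ← zpow_mul] at this
    exact this
  rw [← orderOf_dvd_iff_zpow_eq_one, hord] at h1
  have h2 : (4 : ℤ) ∣ n := by
    obtain ⟨m, hm⟩ := h1
    exact ⟨m, by push_cast at hm; omega⟩
  obtain ⟨m, rfl⟩ := h2
  have hw4' : w ^ (4 : ℤ) = 1 := by exact_mod_cast hw4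
  rw [zpow_mul, hw4', one_zpow]

end Ext

end Cfsg.Agent.Lib.Helper66.StemLocal
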