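import Mathlib
import Cfsg.Prelude.Def_KGroupFacts
import Cfsg.Agent.Lib.Helper35.Stem
import Cfsg.Agent.Lib.Helper66.Hopf
import Cfsg.Agent.Lib.Helper66.StemLocal
import Cfsg.Agent.Lib.Helper66.DihedralStem

/-!
# Schur multipliers of prime order (helper66)

* `card_ker_dvd_of_local`: local (transfer) bound `|ker σ| ∣ p` for a stem extension.
* `hasCyclic_prime_of_bound`: if all stem extensions have `|ker| ∣ p` and some central
  extension meets its commutator subgroup nontrivially, the multiplier is cyclic of order `p`.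
* `d8_card_dvd`, `d8_index_coprime`: the dihedral group of order `8` as a Sylow `2`-subgroup.
-/

set_option autoImplicit false

namespace Cfsg.Agent.Lib.Helper66.PrimeMult

open scoped commutatorElement
open Cfsg.Agent.Lib.Helper66

universe u w

section Local

variable {Γ : Type*} {G : Type*} [Group Γ] [Group G] (σ : Γ →* G)

/-- Transfer bound at a prime `p`: if for the primes `l ≠ p` some subgroup of index prime to
`l` has no element of order `l` in `⁅σ⁻¹U, σ⁻¹U⁆ ⊓ ker σ`, and for `p` some subgroup `U` of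
index prime to `p` has `|⁅σ⁻¹U, σ⁻¹U⁆ ⊓ ker σ| ∣ p`, then `|ker σ| ∣ p`. -/
theorem card_ker_dvd_of_local [Finite Γ] (hσ : Cfsg.IsStemExtension σ) (p : ℕ)
    (h : ∀ l : ℕ, l.Prime → l ≠ p → ∃ U : Subgroup G, (U.index).Coprime l ∧
      ∀ z ∈ ⁅U.comap σ, U.comap σ⁆ ⊓ σ.ker, orderOf z ≠ l)
    (U : Subgroup G) (hU : (U.index).Coprime p)
    (hUp : Nat.card ↥(⁅U.comap σ, U.comap σ⁆ ⊓ σ.ker) ∣ p) : Nat.card σ.ker ∣ p := by
  have hpow : ∀ z ∈ σ.ker, ∃ k, orderOf z = p ^ k := by
    intro z hz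
    have hpos : orderOf z ≠ 0 := (orderOf_pos z).ne'
    refine ⟨_, Nat.eq_prime_pow_of_unique_prime_dvd hpos ?_⟩
    intro l hl hdvd
    by_contra hne
    obtain ⟨V, hV, hVz⟩ := h l hl hne
    have hw : orderOf (z ^ (orderOf z / l)) = l := orderOf_pow_orderOf_div hpos hdvd
    have hwk : z ^ (orderOf z / l) ∈ σ.ker := Subgroup.pow_mem _ hz _
    have hidx : (V.comap σ).index = V.index := Subgroup.index_comap_of_surjective V hσ.1
    have hmem := Cfsg.Agent.Lib.Helper35.Stem.mem_commutator_of_coprime (V.comap σ)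
      (hσ.2.1 hwk) (hσ.2.2 hwk) (by rw [hidx, hw]; exact hV)
    exact hVz _ (Subgroup.mem_inf.mpr ⟨hmem, hwk⟩) hw
  have hle : σ.ker ≤ ⁅U.comap σ, U.comap σ⁆ ⊓ σ.ker := by
    intro z hz
    obtain ⟨k, hk⟩ := hpow z hz
    have hidx : (U.comap σ).index = U.index := Subgroup.index_comap_of_surjective U hσ.1
    have hmem := Cfsg.Agent.Lib.Helper35.Stem.mem_commutator_of_coprime (U.comap σ)
      (hσ.2.1 hz) (hσ.2.2 hz) (by rw [hidx, hk]; exact Nat.Coprime.pow_right k hU)
    exact Subgroup.mem_inf.mpr ⟨hmem, hz⟩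
  exact dvd_trans (Subgroup.card_dvd_of_le hle) hUp

end Local

/-- Multiplier of prime order: all stem extensions have kernel of order dividing `p`, and some
central extension has a nontrivial element in the intersection of its kernel with its
commutator subgroup. -/
theorem hasCyclic_prime_of_bound {G : Type u} [Group G] [Finite G] (p : ℕ) (hp : p.Prime)
    (hub : ∀ (Γ : Type u) [Group Γ] [Finite Γ] (σ : Γ →* G), Cfsg.IsStemExtension σ →
      Nat.card σ.ker ∣ p)
    {X : Type w} [Group X] (ξ : X →* G) (hξ : Function.Surjective ξ)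
    (hc : ξ.ker ≤ Subgroup.center X) (z : X) (hz : z ∈ _root_.commutator X ⊓ ξ.ker)
    (hz1 : z ≠ 1) : Cfsg.HasCyclicSchurMultiplier G p := by
  have hπ := Hopf.can_surjective G
  obtain ⟨Γ, i1, i2, σ, hσ, ⟨e⟩⟩ := Hopf.exists_cover (Hopf.can G) hπ
  have hdvd := hub Γ σ hσ
  have hT : Hopf.T (Hopf.can G) ≠ ⊥ := by
    intro hT
    have := Hopf.commutator_inf_ker_eq_bot (Hopf.can G) hπ hT ξ hξ hc
    rw [this, Subgroup.mem_bot] at hz
    exact hz1 hz
  have hcard : Nat.card (Hopf.T (Hopf.can G)) = p := by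
    rw [← Nat.card_congr e.toEquiv]
    rcases (Nat.dvd_prime hp).mp hdvd with h1 | h1
    · exfalso
      apply hT
      apply Subgroup.eq_bot_of_card_eq
      rw [← Nat.card_congr e.toEquiv]
      exact h1
    · exact h1
  have : Fact p.Prime := ⟨hp⟩
  have e2 : Multiplicative (ZMod p) ≃* Hopf.T (Hopf.can G) :=
    mulEquivOfPrimeCardEq (by rw [Nat.card_eq_fintype_card, Fintype.card_multiplicative,
      ZMod.card]) hcard
  exact Hopf.hasSchurMultiplier_of_equiv (Hopf.can G) hπ e2

section Dihedral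

variable {Γ : Type*} {G : Type*} [Group Γ] [Group G]

/-- For a dihedral subgroup `⟨r, s⟩` of order `8` of `G` and a central extension `σ` of `G`,
the subgroup `⁅H, H⁆ ⊓ ker σ`, `H = σ⁻¹⟨r, s⟩`, has order dividing `2`. -/
theorem d8_card_dvd (σ : Γ →* G) (hs : Function.Surjective σ)
    (hc : σ.ker ≤ Subgroup.center Γ) {r s : G} (hr4 : r ^ 4 = 1) (hr2 : r ^ 2 ≠ 1)
    (hsr : s * r * s⁻¹ = r⁻¹) :
    Nat.card ↥(⁅(Subgroup.closure ({r, s} : Set G)).comap σ,
      (Subgroup.closure ({r, s} : Set G)).comap σ⁆ ⊓ σ.ker) ∣ 2 := by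
  obtain ⟨R, rfl⟩ := hs r
  obtain ⟨S, rfl⟩ := hs s
  have himg : σ '' ({R, S} : Set Γ) = {σ R, σ S} := Set.image_pair σ R S
  rw [← himg, StemLocal.commutator_comap_closure σ hc]
  have hc0 : S * R * S⁻¹ * R ∈ σ.ker := by
    rw [MonoidHom.mem_ker, map_mul, map_mul, map_mul, map_inv, hsr, inv_mul_cancel]
  have hcc := Subgroup.mem_center_iff.mp (hc hc0)
  have hSR : S * R * S⁻¹ = (S * R * S⁻¹ * R) * R⁻¹ := by group
  obtain ⟨f1, f2, f3⟩ := DihedralStem.core_facts R S _ hcc hSR
  obtain ⟨w, hw⟩ : ∃ w, w = S * R * S⁻¹ * R * R⁻¹ * R⁻¹ := ⟨_, rfl⟩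
  rw [← hw] at f1 f2 f3
  have f1' : R⁻¹ * w * R = w := by
    have : R⁻¹ * (R * w * R⁻¹) * R = w := by group
    rwa [f1] at this
  have f2' : S⁻¹ * w * S = w⁻¹ := by
    have h1 : S⁻¹ * (S * w * S⁻¹) * S = w := by group
    rw [f2] at h1
    have h2 : S⁻¹ * w⁻¹ * S = (S⁻¹ * w * S)⁻¹ := by group
    rw [h2] at h1
    exact inv_eq_iff_eq_inv.mp h1
  have hle : ⁅Subgroup.closure ({R, S} : Set Γ), Subgroup.closure ({R, S} : Set Γ)⁆ ≤
      Subgroup.zpowers w := by
    apply StemLocal.commutator_closure_le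
    · intro a ha v hv
      obtain ⟨k, rfl⟩ := Subgroup.mem_zpowers_iff.mp hv
      have ha' : a = R ∨ a = S := ha
      rcases ha' with h | h <;> rw [h]
      · constructor
        · have : R * w ^ k * R⁻¹ = (R * w * R⁻¹) ^ k := by
            have := map_zpow (MulAut.conj R) w k
            simpa [MulAut.conj_apply] using this
          rw [this, f1]; exact Subgroup.zpow_mem_zpowers w k
        · have : R⁻¹ * w ^ k * R = (R⁻¹ * w * R) ^ k := by
            have := map_zpow (MulAut.conj R⁻¹) w k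
            simpa [MulAut.conj_apply] using this
          rw [this, f1']; exact Subgroup.zpow_mem_zpowers w k
      · constructor
        · have : S * w ^ k * S⁻¹ = (S * w * S⁻¹) ^ k := by
            have := map_zpow (MulAut.conj S) w k
            simpa [MulAut.conj_apply] using this
          rw [this, f2, inv_zpow]
          exact Subgroup.inv_mem _ (Subgroup.zpow_mem_zpowers w k)
        · have : S⁻¹ * w ^ k * S = (S⁻¹ * w * S) ^ k := by
            have := map_zpow (MulAut.conj S⁻¹) w k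
            simpa [MulAut.conj_apply] using this
          rw [this, f2', inv_zpow]
          exact Subgroup.inv_mem _ (Subgroup.zpow_mem_zpowers w k)
    · intro a ha b hb
      have ha' : a = R ∨ a = S := ha
      have hb' : b = R ∨ b = S := hb
      rcases ha' with h | h <;> rcases hb' with h' | h' <;> rw [h, h']
      · rw [commutatorElement_self]; exact Subgroup.one_mem _
      · rw [← commutatorElement_inv, f3]
        exact Subgroup.inv_mem _ (Subgroup.mem_zpowers w)
      · rw [f3]; exact Subgroup.mem_zpowers w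
      · rw [commutatorElement_self]; exact Subgroup.one_mem _
  -- the image of `w`
  have hσw : σ w = (σ R ^ 2)⁻¹ := by
    rw [← f3, map_commutatorElement, commutatorElement_def, hsr, pow_two, mul_inv_rev]
  have ho : orderOf (σ R ^ 2) = 2 := by
    apply orderOf_eq_prime
    · rw [← pow_mul]; exact hr4
    · exact hr2
  -- `w ^ 2` is central, hence `w ^ 4 = 1`
  have hw2k : w ^ 2 ∈ σ.ker := by
    rw [MonoidHom.mem_ker, map_pow, hσw, inv_pow, ← pow_mul, hr4, inv_one]
  have hw2c := Subgroup.mem_center_iff.mp (hc hw2k)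
  have hw4 : (w ^ 2) ^ 2 = 1 := by
    have h1 : S * w ^ 2 * S⁻¹ = (S * w * S⁻¹) ^ 2 := by
      have := map_pow (MulAut.conj S) w 2
      simpa [MulAut.conj_apply] using this
    rw [f2, hw2c S, mul_inv_cancel_right, inv_pow] at h1
    rw [pow_two]
    nth_rewrite 1 [h1]
    exact inv_mul_cancel _
  have hle2 : ⁅Subgroup.closure ({R, S} : Set Γ), Subgroup.closure ({R, S} : Set Γ)⁆ ⊓ σ.ker ≤
      Subgroup.zpowers (w ^ 2) := by
    intro x hx
    obtain ⟨hx1, hx2⟩ := Subgroup.mem_inf.mp hx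
    obtain ⟨k, rfl⟩ := Subgroup.mem_zpowers_iff.mp (hle hx1)
    rw [MonoidHom.mem_ker, map_zpow, hσw, inv_zpow, inv_eq_one,
      ← orderOf_dvd_iff_zpow_eq_one, ho] at hx2
    obtain ⟨m, rfl⟩ := hx2
    rw [Subgroup.mem_zpowers_iff]
    refine ⟨m, ?_⟩
    rw [← zpow_natCast, ← zpow_mul]
  have hcard : Nat.card (Subgroup.zpowers (w ^ 2)) ∣ 2 := by
    rw [Nat.card_zpowers]
    exact orderOf_dvd_of_pow_eq_one hw4
  exact dvd_trans (Subgroup.card_dvd_of_le hle2) hcard

/-- A dihedral subgroup `⟨r, s⟩` of order `8` has odd index in a group of order `8 m`, `m`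
odd. -/
theorem d8_index_coprime [Finite G] {r s : G} (hr4 : r ^ 4 = 1) (hr2 : r ^ 2 ≠ 1)
    (hsr : s * r * s⁻¹ = r⁻¹) (hs2 : s ^ 2 = 1)
    {m : ℕ} (hG : Nat.card G = 8 * m) (hm : Odd m) :
    ((Subgroup.closure ({r, s} : Set G)).index).Coprime 2 := by
  have : Fact (Nat.Prime 2) := ⟨Nat.prime_two⟩
  have hs : s ∉ Subgroup.zpowers r := by
    intro hmem
    obtain ⟨k, rfl⟩ := Subgroup.mem_zpowers_iff.mp hmem
    apply hr2
    have hcomm : r ^ k * r = r * r ^ k := ((Commute.refl r).zpow_left k).eq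
    rw [hcomm, mul_inv_cancel_right] at hsr
    rw [pow_two]
    nth_rewrite 1 [hsr]
    exact inv_mul_cancel r
  have hor : orderOf r = 2 ^ 2 :=
    orderOf_eq_prime_pow (p := 2) (n := 1) (by rw [pow_one]; exact hr2) (by norm_num; exact hr4)
  have hU : Subgroup.closure ({r, s} : Set G) = Subgroup.zpowers s ⊔ Subgroup.zpowers r := by
    rw [Subgroup.zpowers_eq_closure, Subgroup.zpowers_eq_closure, ← Subgroup.closure_union,
      Set.union_comm]
    rfl
  have hPr : IsPGroup 2 (Subgroup.zpowers r) :=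
    IsPGroup.of_card (n := 2) (by rw [Nat.card_zpowers, hor])
  have hPs : IsPGroup 2 (Subgroup.zpowers s) := by
    have hd : orderOf s ∣ 2 ^ 1 := by rw [pow_one]; exact orderOf_dvd_of_pow_eq_one hs2
    obtain ⟨j, _, hj⟩ := (Nat.dvd_prime_pow Nat.prime_two).1 hd
    exact IsPGroup.of_card (n := j) (by rw [Nat.card_zpowers, hj])
  have hsr' : s⁻¹ * r * s = r⁻¹ := by
    have h1 : s⁻¹ * (s * r * s⁻¹) * s = r := by group
    rw [hsr] at h1
    have h2 : s⁻¹ * r⁻¹ * s = (s⁻¹ * r * s)⁻¹ := by group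
    rw [h2] at h1
    exact inv_eq_iff_eq_inv.mp h1
  have hnorm : Subgroup.zpowers s ≤ Subgroup.normalizer (Subgroup.zpowers r : Subgroup G) := by
    rw [Subgroup.zpowers_le, Subgroup.mem_normalizer_iff]
    intro h
    constructor
    · intro hh
      obtain ⟨k, rfl⟩ := Subgroup.mem_zpowers_iff.mp hh
      have : s * r ^ k * s⁻¹ = (s * r * s⁻¹) ^ k := by
        have := map_zpow (MulAut.conj s) r k
        simpa [MulAut.conj_apply] using this
      rw [this, hsr, inv_zpow]
      exact Subgroup.inv_mem _ (Subgroup.zpow_mem_zpowers r k)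
    · intro hh
      obtain ⟨k, hk⟩ := Subgroup.mem_zpowers_iff.mp hh
      have e1 : h = s⁻¹ * (s * h * s⁻¹) * s := by group
      have : s⁻¹ * r ^ k * s = (s⁻¹ * r * s) ^ k := by
        have := map_zpow (MulAut.conj s⁻¹) r k
        simpa [MulAut.conj_apply] using this
      rw [e1, ← hk, this, hsr', inv_zpow]
      exact Subgroup.inv_mem _ (Subgroup.zpow_mem_zpowers r k)
  have hP : IsPGroup 2 (Subgroup.closure ({r, s} : Set G)) := by
    rw [hU]; exact IsPGroup.to_sup_of_normal_right' hPs hPr hnorm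
  obtain ⟨n, hn⟩ := IsPGroup.iff_card.mp hP
  have hrU : Subgroup.zpowers r ≤ Subgroup.closure ({r, s} : Set G) :=
    Subgroup.zpowers_le.mpr (Subgroup.subset_closure (by simp))
  have hsU : s ∈ Subgroup.closure ({r, s} : Set G) := Subgroup.subset_closure (by simp)
  have hcz : Nat.card (Subgroup.zpowers r) = 4 := by rw [Nat.card_zpowers, hor]; norm_num
  have hn3 : 3 ≤ n := by
    by_contra hcon
    have hn2 : n ≤ 2 := by omega
    have hle : Nat.card (Subgroup.closure ({r, s} : Set G)) ≤ 4 := by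
      rw [hn]
      calc 2 ^ n ≤ 2 ^ 2 := Nat.pow_le_pow_right (by norm_num) hn2
        _ = 4 := by norm_num
    have heq := Subgroup.eq_of_le_of_card_ge hrU (by rw [hcz]; exact hle)
    exact hs (heq ▸ hsU)
  have h8 : 8 ∣ Nat.card (Subgroup.closure ({r, s} : Set G)) := by
    rw [hn]
    exact (by norm_num : (8 : ℕ) = 2 ^ 3) ▸ pow_dvd_pow 2 hn3
  obtain ⟨j, hj⟩ := h8
  have hidx := Subgroup.card_mul_index (Subgroup.closure ({r, s} : Set G))
  rw [hG, hj] at hidx
  have hdvd : (Subgroup.closure ({r, s} : Set G)).index ∣ m := by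
    refine ⟨j, ?_⟩
    have : 8 * (j * (Subgroup.closure ({r, s} : Set G)).index) = 8 * m := by
      rw [← mul_assoc, hidx]
    have h := Nat.eq_of_mul_eq_mul_left (by norm_num : 0 < 8) this
    rw [← h, mul_comm]
  exact Nat.Coprime.coprime_dvd_left hdvd (Nat.Coprime.symm (Nat.coprime_two_left.mpr hm))

end Dihedral

end Cfsg.Agent.Lib.Helper66.PrimeMult
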