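import Mathlib
import Cfsg.Prelude.Def_Transfer
import Cfsg.Agent.Lib.Helper4.SympA
import Cfsg.Agent.S0804

/-!
# A group of order `1920` with a normal subgroup of order `32` of "extraspecial minus type"
and a `(2, 3, 5)`-triple is `2^{1+4}_- : A₅`

Abstract assembly used for the involution centraliser of `J3` (S2135).  Helper66.
-/

set_option autoImplicit false

namespace Cfsg.Agent.Lib.Helper66.ESA5

open Subgroup
open scoped commutatorElement

variable {K : Type*} [Group K]

/-- the centre of `Q` is `{1, t}` -/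
theorem center_eq (Q : Subgroup K) (t : K) (htQ : t ∈ Q) (ht1 : t ≠ 1)
    (htc : ∀ q ∈ Q, t * q = q * t)
    (hcent : ∀ c ∈ Q, (∀ q ∈ Q, c * q = q * c) → c = 1 ∨ c = t) :
    Nat.card (center Q) = 2 ∧ ∀ c : Q, c ∈ center Q ↔ (c : K) = 1 ∨ (c : K) = t := by
  have hmem : ∀ c : Q, c ∈ center Q ↔ (c : K) = 1 ∨ (c : K) = t := by
    intro c
    constructor
    · intro hc
      apply hcent c.1 c.2
      intro q hq
      have := (Subgroup.mem_center_iff.mp hc ⟨q, hq⟩)
      have h2 := congrArg Subtype.val this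
      simpa using h2.symm
    · rintro (h | h)
      · have : c = 1 := Subtype.ext h
        rw [this]; exact Subgroup.one_mem _
      · rw [Subgroup.mem_center_iff]
        intro g
        apply Subtype.ext
        simp only [Subgroup.coe_mul]
        rw [h]
        exact (htc g.1 g.2).symm
  refine ⟨?_, hmem⟩
  rw [Nat.card_eq_two_iff]
  refine ⟨⟨1, Subgroup.one_mem _⟩, ⟨⟨t, htQ⟩, (hmem _).mpr (Or.inr rfl)⟩, ?_, ?_⟩
  · intro h
    apply ht1
    have := congrArg (fun x : center Q => ((x : Q) : K)) h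
    simpa using this.symm
  · ext c
    simp only [Set.mem_insert_iff, Set.mem_singleton_iff, Set.mem_univ, iff_true]
    rcases (hmem c.1).mp c.2 with h | h
    · left; apply Subtype.ext; apply Subtype.ext; simpa using h
    · right; apply Subtype.ext; apply Subtype.ext; simpa using h

/-- extraspecial -/
theorem extraspecial [Finite K] (Q : Subgroup K) (t : K)
    (hQ : Nat.card Q = 32) (htQ : t ∈ Q) (ht1 : t ≠ 1)
    (htc : ∀ q ∈ Q, t * q = q * t)
    (hsq : ∀ x ∈ Q, x * x = 1 ∨ x * x = t)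
    (hcomm : ∀ x ∈ Q, ∀ y ∈ Q, x * y = y * x ∨ x * y = t * (y * x))
    (hnc : ∃ x ∈ Q, ∃ y ∈ Q, x * y ≠ y * x)
    (hcent : ∀ c ∈ Q, (∀ q ∈ Q, c * q = q * c) → c = 1 ∨ c = t) :
    Cfsg.IsExtraspecial 2 Q := by
  obtain ⟨hc2, hmem⟩ := center_eq Q t htQ ht1 htc hcent
  have : Fact (Nat.Prime 2) := ⟨Nat.prime_two⟩
  apply Cfsg.Agent.Lib.Helper4.SympA.mk_extraspecial
  · exact IsPGroup.of_card (n := 5) (by rw [hQ]; norm_num)
  · exact hc2
  · intro x y
    rw [hmem]
    rcases hcomm x.1 x.2 y.1 y.2 with h | h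
    · left
      rw [commutatorElement_def]
      simp only [Subgroup.coe_mul, Subgroup.coe_inv]
      rw [h]; group
    · right
      rw [commutatorElement_def]
      simp only [Subgroup.coe_mul, Subgroup.coe_inv]
      rw [h]; group
  · intro x
    rw [hmem, pow_two]
    simp only [Subgroup.coe_mul]
    exact hsq x.1 x.2
  · obtain ⟨x, hx, y, hy, hxy⟩ := hnc
    refine ⟨⟨x, hx⟩, ⟨y, hy⟩, ?_⟩
    intro h
    apply hxy
    have := congrArg Subtype.val h
    simpa using this

/-- no elementary abelian subgroup of order `8` -/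
theorem no_E8 [Finite K] (Q : Subgroup K)
    (hE8 : ∀ x ∈ Q, ∀ y ∈ Q, ∀ z ∈ Q, x * x = 1 → y * y = 1 → z * z = 1 → x * y = y * x →
      x * z = z * x → y * z = z * y → x ≠ 1 → y ≠ 1 → y ≠ x →
      z = 1 ∨ z = x ∨ z = y ∨ z = x * y)
    (E : Subgroup Q) (hE : Cfsg.IsElementaryAbelian 2 E) : Nat.card E ≤ 2 ^ 2 := by
  classical
  by_contra hcon
  rw [not_le] at hcon
  obtain ⟨hcm, hpow⟩ := hE
  have : Fintype E := Fintype.ofFinite _
  have h4 : 4 < (Finset.univ : Finset E).card := by
    rw [Finset.card_univ, ← Nat.card_eq_fintype_card]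
    exact lt_of_eq_of_lt (by norm_num) hcon
  have pick : ∀ s : Finset E, s.card ≤ 4 → ∃ a : E, a ∉ s := by
    intro s hs
    obtain ⟨a, -, ha⟩ := Finset.exists_mem_notMem_of_card_lt_card (lt_of_le_of_lt hs h4)
    exact ⟨a, ha⟩
  obtain ⟨x, hx⟩ := pick {1} (by simp)
  obtain ⟨y, hy⟩ := pick {1, x} (le_trans Finset.card_le_two (by norm_num))
  obtain ⟨z, hz⟩ := pick {1, x, y, x * y} (Finset.card_le_four)
  simp only [Finset.mem_singleton] at hx
  simp only [Finset.mem_insert, Finset.mem_singleton, not_or] at hy hz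
  have sq : ∀ a : E, ((a : Q) : K) * ((a : Q) : K) = 1 := by
    intro a
    have h := hpow a.1 a.2
    have h2 := congrArg Subtype.val h
    simpa [pow_two] using h2
  have cm : ∀ a b : E, ((a : Q) : K) * ((b : Q) : K) = ((b : Q) : K) * ((a : Q) : K) := by
    intro a b
    have h := hcm.is_comm.comm a b
    have h2 := congrArg (fun u : E => ((u : Q) : K)) h
    simpa using h2
  have ne : ∀ a b : E, a ≠ b → ((a : Q) : K) ≠ ((b : Q) : K) := by
    intro a b hab h
    exact hab (Subtype.ext (Subtype.ext h))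
  have h := hE8 x.1.1 x.1.2 y.1.1 y.1.2 z.1.1 z.1.2 (sq x) (sq y) (sq z) (cm x y) (cm x z) (cm y z)
    (by simpa using ne x 1 hx) (by simpa using ne y 1 hy.1) (ne y x hy.2)
  rcases h with h | h | h | h
  · exact ne z 1 hz.1 (by simpa using h)
  · exact ne z x hz.2.1 h
  · exact ne z y hz.2.2.1 h
  · exact ne z (x * y) hz.2.2.2 (by simpa using h)

/-- complement and quotient -/
theorem complement [Finite K] (Q : Subgroup K) [Q.Normal]
    (hK : Nat.card K = 1920) (hQ : Nat.card Q = 32)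
    (hA5 : ∃ x y : K, x ^ 3 = 1 ∧ y ^ 5 = 1 ∧ (x * y) ^ 2 = 1 ∧ y ≠ 1) :
    (∃ H : Subgroup K, Q.IsComplement' H) ∧ Nonempty (K ⧸ Q ≃* alternatingGroup (Fin 5)) := by
  obtain ⟨x, y, hx, hy, hxy, hne⟩ := hA5
  obtain ⟨H, ⟨e⟩⟩ := Cfsg.Agent.S0804.exists_A5 x y hx hy hxy hne
  have hcA : Nat.card (alternatingGroup (Fin 5)) = 60 := by
    rw [nat_card_alternatingGroup]; simp [Nat.factorial]
  have hcH : Nat.card H = 60 := by rw [Nat.card_congr e.toEquiv, hcA]
  have : IsSimpleGroup H := by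
    have : IsSimpleGroup (alternatingGroup (Fin 5)) := alternatingGroup.isSimpleGroup (by simp)
    exact e.isSimpleGroup
  have hbot : Q.subgroupOf H = ⊥ := by
    rcases (inferInstance : (Q.subgroupOf H).Normal).eq_bot_or_eq_top with h | h
    · exact h
    · exfalso
      rw [Subgroup.subgroupOf_eq_top] at h
      have := Subgroup.card_dvd_of_le h
      rw [hcH, hQ] at this
      norm_num at this
  have hdis : Disjoint Q H := Subgroup.subgroupOf_eq_bot.mp hbot
  refine ⟨⟨H, Subgroup.isComplement'_of_card_mul_and_disjoint (by rw [hQ, hcH, hK]) hdis⟩, ?_⟩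
  let φ : H →* K ⧸ Q := (QuotientGroup.mk' Q).comp H.subtype
  have hinj : Function.Injective φ := by
    rw [← MonoidHom.ker_eq_bot_iff]
    rw [eq_bot_iff]
    intro h hh
    rw [MonoidHom.mem_ker] at hh
    have h1 : (h : K) ∈ Q := by
      have : (QuotientGroup.mk' Q) (h : K) = 1 := hh
      rwa [QuotientGroup.mk'_apply, QuotientGroup.eq_one_iff] at this
    have h2 : h ∈ Q.subgroupOf H := Subgroup.mem_subgroupOf.mpr h1
    rw [hbot] at h2
    exact h2
  have hcq : Nat.card (K ⧸ Q) = 60 := by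
    have h := Subgroup.card_eq_card_quotient_mul_card_subgroup Q
    rw [hK, hQ] at h
    omega
  have hbij : Function.Bijective φ :=
    hinj.bijective_of_nat_card_le (by rw [hcq, hcH])
  exact ⟨(MulEquiv.ofBijective φ hbij).symm.trans e⟩

end Cfsg.Agent.Lib.Helper66.ESA5
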