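import Cfsg.Agent.Lib.Helper59.FxStmt

/-!
# S3390 / NSIGN: the even permutations form a normal subgroup of index 2 meeting `S` in `T`
-/

set_option autoImplicit false

namespace Cfsg.Agent.Lib.Helper66.FxNSIGN

universe u v

open Cfsg.Agent.Lib.Helper59.FxStmt

theorem main (h : Sgn.{v}) : NSign.{u, v} := by
  classical
  intro G _ _ Ω _ _ S α β s cfg hidx hfree hncyc
  set T := S ⊓ MulAction.stabilizer G α with hT
  have hsT : s ∉ T := fun hs => cfg.ne (by
    have h1 : s • α = α := hs.2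
    rw [← cfg.sα, h1])
  have hmul : ∀ a b : G, a ∈ S → b ∈ S → (a * b ∈ T ↔ (a ∈ T ↔ b ∈ T)) := by
    intro a b ha hb
    have hi : (T.subgroupOf S).index = 2 := hidx
    have := Subgroup.mul_mem_iff_of_index_two hi (a := ⟨a, ha⟩) (b := ⟨b, hb⟩)
    simpa [Subgroup.mem_subgroupOf] using this
  have hTβ : ∀ g ∈ T, g • β = β := by
    intro g hg
    have : g ∈ S ⊓ MulAction.stabilizer G β := by rw [cfg.Tβ]; exact hg
    exact this.2
  have hperm : ∀ g ∈ S, (g • α = α ∧ g • β = β) ∨ (g • α = β ∧ g • β = α) := by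
    intro g hg
    by_cases hgT : g ∈ T
    · left
      exact ⟨hgT.2, hTβ g hgT⟩
    · right
      have h1 : s⁻¹ * g ∈ T := by
        rw [hmul _ _ (S.inv_mem cfg.hs) hg]
        constructor
        · intro h'; exact absurd (by simpa using T.inv_mem h') hsT
        · intro h'; exact absurd h' hgT
      have e1 : (s⁻¹ * g) • α = α := h1.2
      have e2 : (s⁻¹ * g) • β = β := hTβ _ h1
      constructor
      · have : g • α = s • ((s⁻¹ * g) • α) := by rw [smul_smul]; simp
        rw [this, e1, cfg.sα]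
      · have : g • β = s • ((s⁻¹ * g) • β) := by rw [smul_smul]; simp
        rw [this, e2, cfg.sβ]
  have hcompl : ∀ g ∈ S, ∀ ω : Ω, ω ≠ α → ω ≠ β → g • ω ≠ α ∧ g • ω ≠ β := by
    intro g hg ω hα hβ
    have hω : ∀ γ, g • ω = γ → ω = g⁻¹ • γ := by
      intro γ e; rw [← e, smul_smul]; simp
    rcases hperm g⁻¹ (S.inv_mem hg) with ⟨e1, e2⟩ | ⟨e1, e2⟩
    · exact ⟨fun e => hα ((hω _ e).trans e1), fun e => hβ ((hω _ e).trans e2)⟩
    · exact ⟨fun e => hβ ((hω _ e).trans e1), fun e => hα ((hω _ e).trans e2)⟩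
  have hfr : ∀ g ∈ S, ∀ ω : Ω, ω ≠ α → ω ≠ β → g • ω = ω → g = 1 := by
    intro g hg ω hα hβ e
    have : g ∈ S ⊓ MulAction.stabilizer G ω := ⟨hg, e⟩
    rw [hfree ω hα hβ] at this
    exact Subgroup.mem_bot.mp this
  -- counting
  let Y : SubMulAction ↥S Ω :=
    { carrier := {ω | ω ≠ α ∧ ω ≠ β}
      smul_mem' := fun g ω hω => hcompl g.1 g.2 ω hω.1 hω.2 }
  have hstab : ∀ y : ↥Y, MulAction.stabilizer ↥S y = ⊥ := by
    intro y
    rw [eq_bot_iff]
    intro g hg
    rw [MulAction.mem_stabilizer_iff] at hg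
    have e : (g : G) • (y : Ω) = y := congrArg Subtype.val hg
    have := hfr g.1 g.2 y.1 y.2.1 y.2.2 e
    rw [Subgroup.mem_bot]; exact Subtype.ext this
  have hcardY : Nat.card S ∣ Nat.card ↥Y := by
    have e := MulAction.selfEquivOrbitsQuotientProd hstab
    rw [Nat.card_congr e, Nat.card_prod]
    exact Dvd.intro_left _ rfl
  obtain ⟨n, hn⟩ := cfg.p2.exists_card_eq
  have key : ∀ x ∈ S, x ≠ 1 → orderOf x ≠ Nat.card S → ∀ ρ : Equiv.Perm Ω, ρ α = α → ρ β = β →
      (∀ j : ℕ, ∀ ω : Ω, ω ≠ α → ω ≠ β → (ρ ^ j) ω = x ^ j • ω) → Equiv.Perm.sign ρ = 1 := by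
    intro x hx hx1 hord ρ hρα hρβ hpow
    set m := orderOf x with hm
    have hmdvd : m ∣ 2 ^ n := by
      rw [← hn]
      have := orderOf_dvd_natCard (⟨x, hx⟩ : ↥S)
      rwa [Subgroup.orderOf_mk] at this
    obtain ⟨j, hjn, hj⟩ := (Nat.dvd_prime_pow Nat.prime_two).mp hmdvd
    have hj0 : j ≠ 0 := by
      rintro rfl
      rw [pow_zero] at hj
      exact hx1 (orderOf_eq_one_iff.mp hj)
    have hjn' : j < n := by
      rcases hjn.lt_or_eq with h' | h'
      · exact h'
      · exfalso; apply hord; rw [hn, ← h']; exact hj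
    have hmeven : Even m := by rw [hj]; exact (Nat.even_pow.mpr ⟨even_two, hj0⟩)
    have hρm : ρ ^ m = 1 := by
      ext ω
      by_cases hα : ω = α
      · subst hα; rw [Equiv.Perm.pow_apply_eq_self_of_apply_eq_self hρα]; rfl
      by_cases hβ : ω = β
      · subst hβ; rw [Equiv.Perm.pow_apply_eq_self_of_apply_eq_self hρβ]; rfl
      rw [hpow m ω hα hβ, hm, pow_orderOf_eq_one, one_smul]; rfl
    have hsupp : ∀ ω : Ω, ρ ω ≠ ω ↔ (ω ≠ α ∧ ω ≠ β) := by
      intro ω
      constructor
      · intro hne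
        refine ⟨?_, ?_⟩
        · rintro rfl; exact hne hρα
        · rintro rfl; exact hne hρβ
      · rintro ⟨hα, hβ⟩ e
        have := hpow 1 ω hα hβ
        rw [pow_one, pow_one, e] at this
        exact hx1 (hfr x hx ω hα hβ this.symm)
    have hsgn := h ρ m hmeven hρm (by
      intro ω hne i hi
      obtain ⟨hα, hβ⟩ := (hsupp ω).mp hne
      rw [hpow i ω hα hβ] at hi
      have := hfr (x ^ i) (S.pow_mem hx i) ω hα hβ hi
      exact orderOf_dvd_of_pow_eq_one this)
    rw [hsgn]
    have hcs : ρ.support.card = Nat.card ↥Y := by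
      have e1 : ρ.support = Finset.univ.filter (fun ω => ω ≠ α ∧ ω ≠ β) := by
        ext ω; simp [Equiv.Perm.mem_support, hsupp ω]
      rw [e1, ← Fintype.card_subtype, ← Nat.card_eq_fintype_card]
      rfl
    obtain ⟨k, hk⟩ := hcardY
    have : Even (ρ.support.card / m) := by
      rw [hcs, hk, hn, hj]
      have : 2 ^ n * k / 2 ^ j = 2 ^ (n - j) * k := by
        rw [Nat.mul_comm, Nat.mul_div_assoc _ (pow_dvd_pow 2 hjn), Nat.pow_div hjn (by norm_num),
          Nat.mul_comm]
      rw [this]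
      exact (Nat.even_pow.mpr ⟨even_two, by omega⟩).mul_right k
    exact this.neg_one_pow
  let φ : G →* ℤˣ := Equiv.Perm.sign.comp (MulAction.toPermHom G Ω)
  have hφT : ∀ x ∈ T, φ x = 1 := by
    intro x hxT
    by_cases hx1 : x = 1
    · rw [hx1, map_one]
    have hcardS : Nat.card S = 2 * Nat.card T := by
      have h1 := Subgroup.card_mul_index (T.subgroupOf S)
      have h2 : (T.subgroupOf S).index = 2 := hidx
      rw [h2, Nat.card_congr (Subgroup.subgroupOfEquivOfLe (inf_le_left : T ≤ S)).toEquiv] at h1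
      exact h1.symm.trans (Nat.mul_comm _ _)
    have hord : orderOf x ≠ Nat.card S := by
      have h1 : orderOf x ∣ Nat.card T := by
        have := orderOf_dvd_natCard (⟨x, hxT⟩ : ↥T)
        rwa [Subgroup.orderOf_mk] at this
      have h2 := Nat.le_of_dvd Nat.card_pos h1
      have : 0 < Nat.card T := Nat.card_pos
      omega
    exact key x hxT.1 hx1 hord (MulAction.toPerm x) hxT.2 (hTβ x hxT) (by
      intro j ω _ _
      rw [← MulAction.toPermHom_apply, ← map_pow]; rfl)
  have hφS : ∀ x ∈ S, x ∉ T → φ x = -1 := by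
    intro x hxS hxT
    have hx1 : x ≠ 1 := by rintro rfl; exact hxT T.one_mem
    have hord : orderOf x ≠ Nat.card S := by
      intro e
      apply hncyc
      exact isCyclic_of_orderOf_eq_card (⟨x, hxS⟩ : ↥S) (by rw [Subgroup.orderOf_mk]; exact e)
    obtain ⟨e1, e2⟩ : x • α = β ∧ x • β = α := by
      rcases hperm x hxS with ⟨e1, _⟩ | h'
      · exact absurd ⟨hxS, e1⟩ hxT
      · exact h'
    have hk := key x hxS hx1 hord (Equiv.swap α β * MulAction.toPerm x)
      (by simp [e1]) (by simp [e2]) (by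
        intro j
        induction j with
        | zero => intro ω _ _; simp
        | succ j ih =>
          intro ω hα hβ
          rw [pow_succ', Equiv.Perm.mul_apply, ih ω hα hβ, Equiv.Perm.mul_apply,
            MulAction.toPerm_apply, smul_smul, ← pow_succ']
          obtain ⟨h1, h2⟩ := hcompl (x ^ (j+1)) (S.pow_mem hxS _) ω hα hβ
          exact Equiv.swap_apply_of_ne_of_ne h1 h2)
    rw [map_mul, Equiv.Perm.sign_swap cfg.ne] at hk
    show Equiv.Perm.sign (MulAction.toPerm x) = -1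
    rw [neg_one_mul, neg_eq_iff_eq_neg] at hk
    exact hk
  refine ⟨φ.ker, MonoidHom.normal_ker φ, ?_, ?_, ?_⟩
  · rw [Subgroup.index_ker]
    have : φ.range = ⊤ := by
      rw [eq_top_iff]
      intro u _
      rcases Int.units_eq_one_or u with rfl | rfl
      · exact ⟨1, map_one φ⟩
      · exact ⟨s, hφS s cfg.hs hsT⟩
    rw [this, Subgroup.card_top, Nat.card_eq_fintype_card, Fintype.card_units_int]
  · intro x hx; exact MonoidHom.mem_ker.mpr (hφT x hx)
  · intro x hxS hxN
    by_contra hxα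
    have h1 := hφS x hxS (fun hxT => hxα hxT.2)
    rw [MonoidHom.mem_ker.mp hxN] at h1
    exact absurd h1 (by decide)

end Cfsg.Agent.Lib.Helper66.FxNSIGN
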