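import Cfsg.Agent.Lib.Helper59.FxStmt

/-!
# S3390 / SGN: the sign of a permutation all of whose non-trivial cycles have even length `m`
-/

set_option autoImplicit false

namespace Cfsg.Agent.Lib.Helper66.FxSGN

universe v

open Cfsg.Agent.Lib.Helper59.FxStmt

theorem main : Sgn.{v} := by
  intro X _ _ ρ m hm hρ hfree
  have hall : ∀ n ∈ ρ.cycleType, n = m := by
    intro n hn
    have h1 : n ∣ m := (Equiv.Perm.dvd_of_mem_cycleType hn).trans (orderOf_dvd_of_pow_eq_one hρ)
    have h2 : m ∣ n := by
      rw [Equiv.Perm.cycleType_def] at hn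
      obtain ⟨c, hc, rfl⟩ := Multiset.mem_map.mp hn
      have hc' : c ∈ ρ.cycleFactorsFinset := hc
      have hcyc := (Equiv.Perm.mem_cycleFactorsFinset_iff.mp hc').1
      obtain ⟨x, hx⟩ := hcyc.nonempty_support
      have hcx : c = ρ.cycleOf x := Equiv.Perm.cycle_is_cycleOf hx hc'
      have hρx : ρ x ≠ x := by
        have := (Equiv.Perm.mem_cycleFactorsFinset_iff.mp hc').2 x hx
        rw [← this]; exact Equiv.Perm.mem_support.mp hx
      have := hfree x hρx (c.support.card)
        (by
          rw [hcx]
          have h3 := Equiv.Perm.pow_mod_card_support_cycleOf_self_apply ρ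
            (ρ.cycleOf x).support.card x
          rw [Nat.mod_self] at h3
          rw [← h3]; simp)
      exact this
    exact Nat.dvd_antisymm h1 h2
  have hrep : ρ.cycleType = Multiset.replicate (Multiset.card ρ.cycleType) m :=
    Multiset.eq_replicate_card.mpr hall
  have hsum : ρ.support.card = Multiset.card ρ.cycleType * m := by
    rw [← Equiv.Perm.sum_cycleType]
    conv_lhs => rw [hrep]
    simp
  rw [Equiv.Perm.sign_of_cycleType, Equiv.Perm.sum_cycleType, hsum]
  rcases Nat.eq_zero_or_pos m with h0 | hpos
  · subst h0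
    have hc0 : Multiset.card ρ.cycleType = 0 := by
      by_contra hne
      obtain ⟨n, hn⟩ := Multiset.card_pos_iff_exists_mem.mp (Nat.pos_of_ne_zero hne)
      have := Equiv.Perm.two_le_of_mem_cycleType hn
      have := hall n hn
      omega
    simp [hc0]
  · rw [Nat.mul_div_cancel _ hpos, pow_add, mul_comm _ m, pow_mul, hm.neg_one_pow, one_pow,
      one_mul]

end Cfsg.Agent.Lib.Helper66.FxSGN
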