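import Cfsg.Agent.Lib.Helper8.HSElts35
import Cfsg.Agent.Lib.Helper35.StemC
import Cfsg.Agent.Lib.Helper35.AltMult

set_option autoImplicit false

/-!
# The 3-part and the 5-part of the Schur multiplier of the Higman-Sims group

Piece B of S2046: a stem extension of the model group `G0` whose kernel has exponent 3 or 5 is
an isomorphism.  The Sylow 3-subgroup is elementary abelian of order 9 with an involution
inverting one generator and centralising the other; the Sylow 5-subgroup is extraspecial of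
order 125 with an involution inverting both generators.
-/

namespace Cfsg.Agent.Lib.Helper66.HSOdd

open Cfsg Cfsg.Agent.Lib.Helper8.HSTab Cfsg.Agent.Lib.Helper35.StemB
open scoped commutatorElement

/-! ### Generalities -/

section Extra

variable {G : Type*} [Group G]

open Subgroup

theorem conj_mem_of_closure (H : Subgroup G) (S : Set G) (x : G)
    (h : ∀ s ∈ S, x * s * x⁻¹ ∈ H) : ∀ y ∈ closure S, x * y * x⁻¹ ∈ H := by
  intro y hy
  induction hy using Subgroup.closure_induction with
  | mem s hs => exact h s hs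
  | one => simp
  | mul a b _ _ ha hb =>
    have e : x * (a * b) * x⁻¹ = (x * a * x⁻¹) * (x * b * x⁻¹) := by group
    rw [e]; exact H.mul_mem ha hb
  | inv a _ ha =>
    have e : x * a⁻¹ * x⁻¹ = (x * a * x⁻¹)⁻¹ := by group
    rw [e]; exact H.inv_mem ha

/-- Two commuting elements of prime order `p` generating different subgroups generate a
subgroup of order `p * p`. -/
theorem card_pair [Finite G] (p : ℕ) (hp : p.Prime) {c c' : G}
    (hc : orderOf c = p) (hc' : orderOf c' = p) (hcomm : c * c' = c' * c)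
    (hne : c' ∉ zpowers c) : Nat.card (closure ({c, c'} : Set G)) = p * p := by
  have hU : closure ({c, c'} : Set G) = zpowers c ⊔ zpowers c' := by
    rw [zpowers_eq_closure, zpowers_eq_closure, ← Subgroup.closure_union]
    rfl
  have hcz : ∀ k : ℤ, c' * c ^ k * c'⁻¹ = c ^ k := fun k => by
    rw [(Commute.zpow_right (show Commute c' c from hcomm.symm) k).eq, mul_inv_cancel_right]
  have hcz' : ∀ k : ℤ, c'⁻¹ * c ^ k * c' = c ^ k := fun k => by
    have := hcz k
    calc c'⁻¹ * c ^ k * c' = c'⁻¹ * (c' * c ^ k * c'⁻¹) * c' := by rw [this]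
      _ = c ^ k := by group
  have hnorm : zpowers c' ≤ normalizer (zpowers c : Set G) := by
    rw [zpowers_le, mem_normalizer_iff]
    intro h
    constructor
    · intro hh
      obtain ⟨k, rfl⟩ := mem_zpowers_iff.mp hh
      rw [hcz]
      exact zpow_mem_zpowers c k
    · intro hh
      obtain ⟨k, hk⟩ := mem_zpowers_iff.mp hh
      have e1 : h = c'⁻¹ * (c' * h * c'⁻¹) * c' := by group
      rw [e1, ← hk, hcz']
      exact zpow_mem_zpowers c k
  have hcardK : Nat.card (zpowers c') = p := by rw [Nat.card_zpowers, hc']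
  have hcardH : Nat.card (zpowers c) = p := by rw [Nat.card_zpowers, hc]
  have hbot : zpowers c ⊓ zpowers c' = ⊥ := by
    have hdvd : Nat.card ↥(zpowers c ⊓ zpowers c') ∣ p :=
      hcardK ▸ Subgroup.card_dvd_of_le inf_le_right
    rcases (Nat.dvd_prime hp).mp hdvd with h1 | h1
    · exact Subgroup.card_eq_one.mp h1
    · exfalso
      have heq : zpowers c ⊓ zpowers c' = zpowers c' :=
        Subgroup.eq_of_le_of_card_ge inf_le_right (by rw [h1, hcardK])
      have hle : zpowers c' ≤ zpowers c := heq ▸ inf_le_left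
      exact hne (hle (mem_zpowers c'))
  rw [hU, card_sup_of_le_normalizer hnorm hbot, hcardH, hcardK]

/-- Two elements of prime order `p` whose commutator has order `p` and commutes with both
generate a subgroup of order `p * p * p`. -/
theorem card_extra [Finite G] (p : ℕ) (hp : p.Prime) {a b : G}
    (ha : orderOf a = p) (hb : orderOf b = p) (hca : ⁅a, b⁆ * a = a * ⁅a, b⁆)
    (hcb : ⁅a, b⁆ * b = b * ⁅a, b⁆) (hc : orderOf ⁅a, b⁆ = p) :
    Nat.card (closure ({a, b} : Set G)) = p * p * p := by
  obtain ⟨c, hcdef⟩ : ∃ c, c = ⁅a, b⁆ := ⟨_, rfl⟩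
  rw [← hcdef] at hca hcb hc
  have hc1 : c ≠ 1 := by
    intro h
    rw [h, orderOf_one] at hc
    exact hp.one_lt.ne hc
  have hab : a * b ≠ b * a := by
    intro h
    apply hc1
    rw [hcdef, commutatorElement_eq_one_iff_mul_comm]
    exact h
  have hane : a ∉ zpowers c := by
    intro h
    obtain ⟨k, hk⟩ := mem_zpowers_iff.mp h
    apply hab
    rw [← hk]
    exact (Commute.zpow_left (show Commute c b from hcb) k).eq
  have hK : Nat.card (closure ({c, a} : Set G)) = p * p := card_pair p hp hc ha hca hane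
  have hU : closure ({a, b} : Set G) = closure ({c, a} : Set G) ⊔ zpowers b := by
    apply le_antisymm
    · rw [closure_le]
      rintro x (rfl | rfl)
      · exact (le_sup_left : closure ({c, x} : Set G) ≤ _) (subset_closure (by simp))
      · exact (le_sup_right : zpowers x ≤ _) (mem_zpowers x)
    · rw [sup_le_iff]
      constructor
      · rw [closure_le]
        rintro x (rfl | rfl)
        · have h1 : a ∈ closure ({a, b} : Set G) := subset_closure (by simp)
          have h2 : b ∈ closure ({a, b} : Set G) := subset_closure (by simp)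
          rw [hcdef, commutatorElement_def]
          exact mul_mem (mul_mem (mul_mem h1 h2) (inv_mem h1)) (inv_mem h2)
        · exact subset_closure (by simp)
      · rw [zpowers_le]
        exact subset_closure (by simp)
  have e1 : a * b = c * b * a := by rw [hcdef, commutatorElement_def]; group
  have e2 : b⁻¹ * c * b = c := by rw [mul_assoc, hcb, inv_mul_cancel_left]
  have e3 : b * c * b⁻¹ = c := by rw [← hcb, mul_inv_cancel_right]
  have hba : b * a * b⁻¹ = c⁻¹ * a := by rw [hcdef, commutatorElement_def]; group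
  have hba' : b⁻¹ * a * b⁻¹⁻¹ = c * a := by
    calc b⁻¹ * a * b⁻¹⁻¹ = b⁻¹ * (a * b) := by group
      _ = b⁻¹ * (c * b * a) := by rw [e1]
      _ = (b⁻¹ * c * b) * a := by group
      _ = c * a := by rw [e2]
  have hcK : c ∈ closure ({c, a} : Set G) := subset_closure (by simp)
  have haK : a ∈ closure ({c, a} : Set G) := subset_closure (by simp)
  have hnorm : zpowers b ≤ normalizer ((closure ({c, a} : Set G) : Subgroup G) : Set G) := by
    rw [zpowers_le, mem_normalizer_iff]
    intro h
    constructor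
    · intro hh
      refine conj_mem_of_closure _ {c, a} b ?_ h hh
      rintro s (rfl | rfl)
      · rw [e3]; exact hcK
      · rw [hba]; exact mul_mem (inv_mem hcK) haK
    · intro hh
      have h1 := conj_mem_of_closure (closure ({c, a} : Set G)) {c, a} b⁻¹ (by
        rintro s (rfl | rfl)
        · rw [inv_inv, e2]; exact hcK
        · rw [hba']; exact mul_mem hcK haK) (b * h * b⁻¹) hh
      have e : b⁻¹ * (b * h * b⁻¹) * b⁻¹⁻¹ = h := by group
      rw [e] at h1
      exact h1
  have hcardB : Nat.card (zpowers b) = p := by rw [Nat.card_zpowers, hb]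
  have hbot : closure ({c, a} : Set G) ⊓ zpowers b = ⊥ := by
    have hdvd : Nat.card ↥(closure ({c, a} : Set G) ⊓ zpowers b) ∣ p :=
      hcardB ▸ Subgroup.card_dvd_of_le inf_le_right
    rcases (Nat.dvd_prime hp).mp hdvd with h1 | h1
    · exact Subgroup.card_eq_one.mp h1
    · exfalso
      have heq : closure ({c, a} : Set G) ⊓ zpowers b = zpowers b :=
        Subgroup.eq_of_le_of_card_ge inf_le_right (by rw [h1, hcardB])
      have hle : zpowers b ≤ closure ({c, a} : Set G) := heq ▸ inf_le_left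
      have hbK : b ∈ closure ({c, a} : Set G) := hle (mem_zpowers b)
      have hcent : closure ({c, a} : Set G) ≤ centralizer ({a} : Set G) := by
        rw [closure_le]
        rintro x (rfl | rfl)
        · rw [SetLike.mem_coe, mem_centralizer_iff]
          rintro y rfl
          exact hca.symm
        · rw [SetLike.mem_coe, mem_centralizer_iff]
          rintro y rfl
          rfl
      have h2 := mem_centralizer_iff.mp (hcent hbK) a rfl
      exact hab h2
  rw [hU, card_sup_of_le_normalizer hnorm hbot, hK, hcardB]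

end Extra

/-! ### The prime 3 -/

theorem a3_b3 : a3 * b3 = b3 * a3 := by
  apply tab_injective
  rw [tab_mul, tab_mul, tab_a3, tab_b3]
  decide +kernel

theorem a3_cube : a3 * a3 * a3 = 1 := by
  apply tab_injective
  rw [tab_mul, tab_mul, tab_a3, tab_one]
  decide +kernel

theorem b3_cube : b3 * b3 * b3 = 1 := by
  apply tab_injective
  rw [tab_mul, tab_mul, tab_b3, tab_one]
  decide +kernel

theorem a3_ne : a3 ≠ 1 := by
  intro h
  have h1 := congrArg tab h
  rw [tab_a3, tab_one] at h1
  revert h1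
  decide +kernel

theorem b3_ne : b3 ≠ 1 := by
  intro h
  have h1 := congrArg tab h
  rw [tab_b3, tab_one] at h1
  revert h1
  decide +kernel

theorem b3_ne_a3 : b3 ≠ a3 := by
  intro h
  have h1 := congrArg tab h
  rw [tab_b3, tab_a3] at h1
  revert h1
  decide +kernel

theorem b3_ne_a3sq : b3 ≠ a3 * a3 := by
  intro h
  have h1 := congrArg tab h
  rw [tab_mul, tab_b3, tab_a3] at h1
  revert h1
  decide +kernel

theorem t3_a3 : t3 * a3 * t3⁻¹ = a3⁻¹ := by
  apply tab_injective
  rw [tab_mul, tab_mul, tab_inv, tab_inv, tab_a3, tab_t3]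
  decide +kernel

theorem t3_b3 : t3 * b3 * t3⁻¹ = b3 := by
  apply tab_injective
  rw [tab_mul, tab_mul, tab_inv, tab_b3, tab_t3]
  decide +kernel

/-- The elements as members of the model group. -/
def A3 : ↥G0 := ⟨a3, a3_mem⟩
def B3 : ↥G0 := ⟨b3, b3_mem⟩
def T3 : ↥G0 := ⟨t3, t3_mem⟩

theorem A3_order : orderOf A3 = 3 := by
  apply orderOf_eq_prime
  · apply Subtype.ext
    show a3 ^ 3 = 1
    rw [pow_succ, pow_two]
    exact a3_cube
  · intro h
    exact a3_ne (congrArg Subtype.val h)

theorem B3_order : orderOf B3 = 3 := by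
  apply orderOf_eq_prime
  · apply Subtype.ext
    show b3 ^ 3 = 1
    rw [pow_succ, pow_two]
    exact b3_cube
  · intro h
    exact b3_ne (congrArg Subtype.val h)

theorem B3_ne : ∀ i < 3, B3 ≠ A3 ^ i := by
  intro i hi h
  have h1 : b3 = a3 ^ i := congrArg Subtype.val h
  interval_cases i
  · exact b3_ne (by rw [h1, pow_zero])
  · exact b3_ne_a3 (by rw [h1, pow_one])
  · exact b3_ne_a3sq (by rw [h1, pow_two])

/-- The 3-part: a stem extension of the model group with kernel of exponent 3 is an
isomorphism. -/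
theorem hs_three (Γ : Type) [Group Γ] [Finite Γ] (σ : Γ →* ↥G0) (hσ : Cfsg.IsStemExtension σ)
    (hexp : ∀ k ∈ σ.ker, k ^ 3 = 1) : σ.ker = ⊥ := by
  obtain ⟨hsurj, hcen, hcomm⟩ := hσ
  obtain ⟨al, hal⟩ := hsurj A3
  obtain ⟨bl, hbl⟩ := hsurj B3
  obtain ⟨tl, htl⟩ := hsurj T3
  rw [eq_bot_iff]
  intro z hz
  rw [Subgroup.mem_bot]
  by_contra hz1
  have hzord : orderOf z = 3 := orderOf_eq_prime (hexp z hz) hz1
  have hfin : Finite ↥G0 := inferInstance
  have hidx : ((Subgroup.closure ({A3, B3} : Set ↥G0)).index).Coprime 3 :=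
    Cfsg.Agent.Lib.Helper35.AltMult.index_coprime_of_pair 3 Nat.prime_three A3_order B3_order
      (Subtype.ext a3_b3) B3_ne (m := 4928000) (by rw [card_G0]; norm_num) (by decide)
  have h3 : z ∈ ⁅(Subgroup.closure ({A3, B3} : Set ↥G0)).comap σ,
      (Subgroup.closure ({A3, B3} : Set ↥G0)).comap σ⁆ := by
    have hfi : ((Subgroup.closure ({A3, B3} : Set ↥G0)).comap σ).FiniteIndex := inferInstance
    apply Cfsg.Agent.Lib.Helper35.Stem.mem_commutator_of_coprime _ (hcen hz) (hcomm hz)
    rw [Subgroup.index_comap_of_surjective _ hsurj, hzord]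
    exact hidx
  exact hz1 (eq_one_of_abelian_pair σ hcen 3 (by decide) hexp al bl tl
    (by rw [hal, hbl]; exact Subtype.ext a3_b3)
    (by rw [htl, hal]; exact Subtype.ext t3_a3)
    (by rw [htl, hbl]; exact Subtype.ext t3_b3)
    (by rw [hal, hbl]; exact h3))

/-! ### The prime 5 -/

theorem a5_pow : a5 * a5 * a5 * a5 * a5 = 1 := by
  apply tab_injective
  rw [tab_mul, tab_mul, tab_mul, tab_mul, tab_a5, tab_one]
  decide +kernel

theorem b5_pow : b5 * b5 * b5 * b5 * b5 = 1 := by
  apply tab_injective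
  rw [tab_mul, tab_mul, tab_mul, tab_mul, tab_b5, tab_one]
  decide +kernel

theorem a5_ne : a5 ≠ 1 := by
  intro h
  have h1 := congrArg tab h
  rw [tab_a5, tab_one] at h1
  revert h1
  decide +kernel

theorem b5_ne : b5 ≠ 1 := by
  intro h
  have h1 := congrArg tab h
  rw [tab_b5, tab_one] at h1
  revert h1
  decide +kernel

/-- The commutator of the two generators. -/
def c5 : Equiv.Perm (Fin 100) := a5 * b5 * a5⁻¹ * b5⁻¹

theorem tab_c5 : tab c5 = tmul (tmul (tmul a5T b5T) (tinv a5T)) (tinv b5T) := by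
  unfold c5
  rw [tab_mul, tab_mul, tab_mul, tab_inv, tab_inv, tab_a5, tab_b5]

theorem c5_pow : c5 * c5 * c5 * c5 * c5 = 1 := by
  apply tab_injective
  rw [tab_mul, tab_mul, tab_mul, tab_mul, tab_c5, tab_one]
  decide +kernel

theorem c5_ne : c5 ≠ 1 := by
  intro h
  have h1 := congrArg tab h
  rw [tab_c5, tab_one] at h1
  revert h1
  decide +kernel

theorem c5_a5 : c5 * a5 = a5 * c5 := by
  apply tab_injective
  rw [tab_mul, tab_mul, tab_c5, tab_a5]
  decide +kernel

theorem c5_b5 : c5 * b5 = b5 * c5 := by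
  apply tab_injective
  rw [tab_mul, tab_mul, tab_c5, tab_b5]
  decide +kernel

theorem t5_a5 : t5 * a5 * t5⁻¹ = a5⁻¹ := by
  apply tab_injective
  rw [tab_mul, tab_mul, tab_inv, tab_inv, tab_a5, tab_t5]
  decide +kernel

theorem t5_b5 : t5 * b5 * t5⁻¹ = b5⁻¹ := by
  apply tab_injective
  rw [tab_mul, tab_mul, tab_inv, tab_inv, tab_b5, tab_t5]
  decide +kernel

def A5 : ↥G0 := ⟨a5, a5_mem⟩
def B5 : ↥G0 := ⟨b5, b5_mem⟩
def T5 : ↥G0 := ⟨t5, t5_mem⟩

theorem comm_val : ((⁅A5, B5⁆ : ↥G0) : Equiv.Perm (Fin 100)) = c5 := rfl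

theorem A5_pow : A5 ^ 5 = 1 := by
  apply Subtype.ext
  show a5 ^ 5 = 1
  rw [pow_succ, pow_succ, pow_succ, pow_two]
  exact a5_pow

theorem fact5 : Fact (Nat.Prime 5) := ⟨by norm_num⟩

theorem A5_order : orderOf A5 = 5 := by
  have := fact5
  apply orderOf_eq_prime A5_pow
  intro h
  exact a5_ne (congrArg Subtype.val h)

theorem B5_order : orderOf B5 = 5 := by
  have := fact5
  apply orderOf_eq_prime
  · apply Subtype.ext
    show b5 ^ 5 = 1
    rw [pow_succ, pow_succ, pow_succ, pow_two]
    exact b5_pow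
  · intro h
    exact b5_ne (congrArg Subtype.val h)

theorem C5_order : orderOf ⁅A5, B5⁆ = 5 := by
  have := fact5
  apply orderOf_eq_prime
  · apply Subtype.ext
    show c5 ^ 5 = 1
    rw [pow_succ, pow_succ, pow_succ, pow_two]
    exact c5_pow
  · intro h
    exact c5_ne (congrArg Subtype.val h)

theorem C5_A5 : ⁅A5, B5⁆ * A5 = A5 * ⁅A5, B5⁆ := Subtype.ext c5_a5

theorem C5_B5 : ⁅A5, B5⁆ * B5 = B5 * ⁅A5, B5⁆ := Subtype.ext c5_b5

/-- The 5-part: a stem extension of the model group with kernel of exponent 5 is an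
isomorphism. -/
theorem hs_five (Γ : Type) [Group Γ] [Finite Γ] (σ : Γ →* ↥G0) (hσ : Cfsg.IsStemExtension σ)
    (hexp : ∀ k ∈ σ.ker, k ^ 5 = 1) : σ.ker = ⊥ := by
  obtain ⟨hsurj, hcen, hcomm⟩ := hσ
  obtain ⟨al, hal⟩ := hsurj A5
  obtain ⟨bl, hbl⟩ := hsurj B5
  obtain ⟨tl, htl⟩ := hsurj T5
  rw [eq_bot_iff]
  intro z hz
  rw [Subgroup.mem_bot]
  by_contra hz1
  have := fact5
  have hzord : orderOf z = 5 := orderOf_eq_prime (hexp z hz) hz1
  have hfin : Finite ↥G0 := inferInstance
  have hcard : Nat.card (Subgroup.closure ({A5, B5} : Set ↥G0)) = 5 * 5 * 5 :=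
    card_extra 5 (by norm_num) A5_order B5_order C5_A5 C5_B5 C5_order
  have hidx : (Subgroup.closure ({A5, B5} : Set ↥G0)).index = 354816 := by
    have h1 := Subgroup.card_mul_index (Subgroup.closure ({A5, B5} : Set ↥G0))
    rw [hcard, card_G0] at h1
    omega
  have h3 : z ∈ ⁅(Subgroup.closure ({A5, B5} : Set ↥G0)).comap σ,
      (Subgroup.closure ({A5, B5} : Set ↥G0)).comap σ⁆ := by
    have hfi : ((Subgroup.closure ({A5, B5} : Set ↥G0)).comap σ).FiniteIndex := inferInstance
    apply Cfsg.Agent.Lib.Helper35.Stem.mem_commutator_of_coprime _ (hcen hz) (hcomm hz)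
    rw [Subgroup.index_comap_of_surjective _ hsurj, hzord, hidx]
    decide
  exact hz1 (eq_one_of_extraspecial σ hcen 5 (by decide) hexp al bl tl
    (by rw [hal, hbl]; exact C5_A5) (by rw [hal, hbl]; exact C5_B5)
    (by rw [hal]; exact A5_pow) (by rw [hal, hbl]; exact C5_order)
    (by rw [htl, hal]; exact Subtype.ext t5_a5) (by rw [htl, hbl]; exact Subtype.ext t5_b5)
    hz (by rw [hal, hbl]; exact h3))

end Cfsg.Agent.Lib.Helper66.HSOdd
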