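import Mathlib

set_option autoImplicit false

/-!
# Three lemmas for S3360 (pieces PA, PB, PC)

* `card_mulAut_le_pow`: a group of order at most `2 ^ m` has at most `|E| ^ m` automorphisms;
* `card_mulAut_dvd_six`: the automorphism group of a group of order 4 has order dividing 6;
* `arith_big`: an inequality.
-/

namespace Cfsg.Agent.Lib.Helper66.HupPieces

open Subgroup

/-! ### PA -/

theorem exists_gens_aux {E : Type*} [Group E] [Finite E] :
    ∀ (d : ℕ) (S : Finset E), Nat.card E - Nat.card (closure (S : Set E)) = d →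
      2 ^ S.card ≤ Nat.card (closure (S : Set E)) →
      ∃ S' : Finset E, closure (S' : Set E) = ⊤ ∧ 2 ^ S'.card ≤ Nat.card E := by
  classical
  intro d
  induction d using Nat.strong_induction_on with
  | _ d ih =>
    intro S hd hS
    by_cases htop : closure (S : Set E) = ⊤
    · refine ⟨S, htop, ?_⟩
      rw [htop, Nat.card_congr (Subgroup.topEquiv (G := E)).toEquiv] at hS
      exact hS
    · obtain ⟨x, hx⟩ : ∃ x, x ∉ closure (S : Set E) := by
        by_contra hcon
        exact htop (eq_top_iff.mpr (fun x _ => by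
          by_contra hx
          exact hcon ⟨x, hx⟩))
      have hxS : x ∉ S := fun h => hx (subset_closure h)
      have hle : closure (S : Set E) ≤ closure ((insert x S : Finset E) : Set E) := by
        apply Subgroup.closure_mono
        intro y hy
        exact Finset.mem_coe.mpr (Finset.mem_insert_of_mem hy)
      have hxm : x ∈ closure ((insert x S : Finset E) : Set E) :=
        subset_closure (Finset.mem_coe.mpr (Finset.mem_insert_self x S))
      have hdvd := Subgroup.card_dvd_of_le hle
      have hne : Nat.card (closure (S : Set E)) ≠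
          Nat.card (closure ((insert x S : Finset E) : Set E)) := by
        intro heq
        have := Subgroup.eq_of_le_of_card_ge hle (le_of_eq heq.symm)
        rw [this] at hx
        exact hx hxm
      have hpos : 0 < Nat.card (closure (S : Set E)) := Nat.card_pos
      have hpos' : 0 < Nat.card (closure ((insert x S : Finset E) : Set E)) := Nat.card_pos
      obtain ⟨q, hq⟩ := hdvd
      have hq2 : 2 ≤ q := by
        by_contra hlt
        have hq01 : q = 0 ∨ q = 1 := by omega
        rcases hq01 with rfl | rfl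
        · rw [mul_zero] at hq; omega
        · rw [mul_one] at hq; exact hne hq.symm
      have hbig : 2 * Nat.card (closure (S : Set E)) ≤
          Nat.card (closure ((insert x S : Finset E) : Set E)) := by
        rw [hq, mul_comm]
        exact Nat.mul_le_mul_left _ hq2
      have hcardE : Nat.card (closure ((insert x S : Finset E) : Set E)) ≤ Nat.card E :=
        Subgroup.card_le_card_group _
      refine ih (Nat.card E - Nat.card (closure ((insert x S : Finset E) : Set E))) ?_
        (insert x S) rfl ?_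
      · omega
      · rw [Finset.card_insert_of_notMem hxS, pow_succ]
        omega

theorem exists_gens {E : Type*} [Group E] [Finite E] :
    ∃ S : Finset E, closure (S : Set E) = ⊤ ∧ 2 ^ S.card ≤ Nat.card E := by
  refine exists_gens_aux _ ∅ rfl ?_
  rw [Finset.coe_empty, Subgroup.closure_empty, Finset.card_empty, pow_zero]
  exact Nat.card_pos

/-- Piece PA of S3360. -/
theorem card_mulAut_le_pow {E : Type*} [Group E] [Finite E] (m : ℕ) (h : Nat.card E ≤ 2 ^ m) :
    Nat.card (MulAut E) ≤ Nat.card E ^ m := by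
  classical
  obtain ⟨S, hS, hcard⟩ := exists_gens (E := E)
  have hSm : S.card ≤ m :=
    (Nat.pow_le_pow_iff_right (by norm_num : 1 < 2)).mp (hcard.trans h)
  let F : MulAut E → (↥S → E) := fun f s => f s.1
  have hF : Function.Injective F := by
    intro f g hfg
    have h1 : f.toMonoidHom = g.toMonoidHom := by
      apply MonoidHom.eq_of_eqOn_dense hS
      intro s hs
      exact congrFun hfg ⟨s, Finset.mem_coe.mp hs⟩
    apply MulEquiv.ext
    intro x
    exact DFunLike.congr_fun h1 x
  have h2 : Nat.card (MulAut E) ≤ Nat.card (↥S → E) := Nat.card_le_card_of_injective F hF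
  have h3 : Nat.card (↥S → E) = Nat.card E ^ S.card := by
    rw [Nat.card_fun, Nat.card_eq_fintype_card (α := ↥S), Fintype.card_coe]
  rw [h3] at h2
  exact h2.trans (Nat.pow_le_pow_right Nat.card_pos hSm)

/-! ### PB -/

/-- Piece PB of S3360. -/
theorem card_mulAut_dvd_six {E : Type*} [Group E] (h : Nat.card E = 4) :
    Nat.card (MulAut E) ∣ 6 := by
  classical
  have hfin : Finite E := Nat.finite_of_card_ne_zero (by rw [h]; norm_num)
  have : Fintype E := Fintype.ofFinite E
  have hmem : ∀ (f : MulAut E) (a : E), a ≠ 1 ↔ f a ≠ 1 := by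
    intro f a
    constructor
    · intro ha hfa
      apply ha
      have : f a = f 1 := by rw [hfa, map_one]
      exact f.injective this
    · intro hfa ha
      apply hfa
      rw [ha, map_one]
  let φ : MulAut E →* Equiv.Perm {e : E // e ≠ 1} :=
    { toFun := fun f => (f.toEquiv).subtypeEquiv (hmem f)
      map_one' := by
        ext x
        rfl
      map_mul' := by
        intro f g
        ext x
        rfl }
  have hφ : Function.Injective φ := by
    intro f g hfg
    apply MulEquiv.ext
    intro x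
    by_cases hx : x = 1
    · rw [hx, map_one, map_one]
    · have h1 := congrArg (fun π : Equiv.Perm {e : E // e ≠ 1} => ((π ⟨x, hx⟩ : {e : E // e ≠ 1}) : E)) hfg
      exact h1
  have h1 := Subgroup.card_dvd_of_injective φ hφ
  have h2 : Nat.card (Equiv.Perm {e : E // e ≠ 1}) = 6 := by
    rw [Nat.card_eq_fintype_card, Fintype.card_perm]
    have h3 : Fintype.card {e : E // e ≠ 1} = 3 := by
      have h5 : Fintype.card E = 4 := by rw [← Nat.card_eq_fintype_card]; exact h
      rw [Fintype.card_subtype_compl (fun e : E => e = 1), Fintype.card_subtype_eq, h5]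
    rw [h3]
    rfl
  rw [h2] at h1
  exact h1

/-! ### PC -/

theorem arith_aux1 : ∀ k : ℕ, 8 ≤ k → 16 * k + 12 ≤ 2 ^ k := by
  intro k hk
  induction k, hk using Nat.le_induction with
  | base => norm_num
  | succ k hk ih =>
    rw [pow_succ]
    omega

theorem arith_aux2 : ∀ k : ℕ, 8 ≤ k → 8 * k ^ 2 + 4 * k + 4 ≤ 3 * 2 ^ k := by
  intro k hk
  induction k, hk using Nat.le_induction with
  | base => norm_num
  | succ k hk ih =>
    have h1 := arith_aux1 k hk
    have e : 8 * (k + 1) ^ 2 + 4 * (k + 1) + 4 = (8 * k ^ 2 + 4 * k + 4) + (16 * k + 12) := by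
      ring
    rw [e, pow_succ 2 k]
    omega

/-- Piece PC of S3360. -/
theorem arith_big (p k : ℕ) (hp : 3 ≤ p) (hk : 8 ≤ k) :
    (p - 1) * 2 ^ (2 * k) * (2 ^ (2 * k)) ^ (2 * k) < p ^ 2 ^ k - 1 := by
  obtain ⟨j, rfl⟩ : ∃ j, k = j + 1 := ⟨k - 1, by omega⟩
  have h2 := arith_aux2 (j + 1) hk
  obtain ⟨m, hm⟩ : ∃ m, 2 ^ j = m + 1 := ⟨2 ^ j - 1, by
    have : 1 ≤ 2 ^ j := Nat.one_le_two_pow
    omega⟩
  have hN : 2 ^ (j + 1) = 2 * m + 2 := by rw [pow_succ, hm]; ring
  have hE : 2 ^ (2 * (j + 1)) * (2 ^ (2 * (j + 1))) ^ (2 * (j + 1)) =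
      2 ^ (2 * (j + 1) + 2 * (j + 1) * (2 * (j + 1))) := by
    rw [← pow_mul, ← pow_add]
  have hle : 2 * (j + 1) + 2 * (j + 1) * (2 * (j + 1)) ≤ 3 * m + 1 := by
    rw [hN] at h2
    have e : 8 * (j + 1) ^ 2 + 4 * (j + 1) + 4 =
        2 * (2 * (j + 1) + 2 * (j + 1) * (2 * (j + 1))) + 4 := by ring
    rw [e] at h2
    omega
  have h3 : 2 ^ (3 * m + 1) < 3 ^ (2 * m + 1) := by
    have h8 : (8 : ℕ) ^ m ≤ 9 ^ m := Nat.pow_le_pow_left (by norm_num) m
    have e1 : 2 ^ (3 * m + 1) = 2 * 8 ^ m := by
      rw [pow_succ, pow_mul]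
      norm_num
      ring
    have e2 : 3 ^ (2 * m + 1) = 3 * 9 ^ m := by
      rw [pow_succ, pow_mul]
      norm_num
      ring
    rw [e1, e2]
    have : 0 < 9 ^ m := by positivity
    omega
  have h4 : 2 ^ (2 * (j + 1) + 2 * (j + 1) * (2 * (j + 1))) ≤ 2 ^ (3 * m + 1) :=
    Nat.pow_le_pow_right (by norm_num) hle
  have h5 : 3 ^ (2 * m + 1) ≤ p ^ (2 * m + 1) := Nat.pow_le_pow_left hp _
  have h6 : p ^ (2 ^ (j + 1)) = p * p ^ (2 * m + 1) := by
    rw [hN, pow_succ, mul_comm]
  rw [mul_assoc, hE, h6]
  have hX : 2 ^ (2 * (j + 1) + 2 * (j + 1) * (2 * (j + 1))) < p ^ (2 * m + 1) :=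
    lt_of_le_of_lt h4 (lt_of_lt_of_le h3 h5)
  have h7 : (p - 1) * 2 ^ (2 * (j + 1) + 2 * (j + 1) * (2 * (j + 1))) <
      (p - 1) * p ^ (2 * m + 1) :=
    Nat.mul_lt_mul_of_pos_left hX (by omega)
  have h8 : (p - 1) * p ^ (2 * m + 1) = p * p ^ (2 * m + 1) - p ^ (2 * m + 1) := by
    rw [Nat.sub_mul, one_mul]
  have h9 : 1 ≤ p ^ (2 * m + 1) := Nat.one_le_pow _ _ (by omega)
  omega

end Cfsg.Agent.Lib.Helper66.HupPieces
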