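import Mathlib
import Cfsg.Agent.Lib.Helper66.KleinCount

/-!
# Klein's class equation, commuting variant

`klein_comm`: in the situation of `KleinCount.klein_count` with `m ≥ 6`, any two elements of `S`
commute (piece K1p of S3054, for helper15).  Helper66.
-/

set_option autoImplicit false

namespace Cfsg.Agent.Lib.Helper66.KleinComm

open Subgroup Cfsg.Agent.Lib.Helper66.KleinCount

section Main

open Classical

theorem arith22 (M q0 t0 q1 t1 q2 t2 : ℕ) (h0 : M = q0 * t0) (h1 : M = q1 * t1)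
    (h2 : M = q2 * t2) (ht0 : 6 ≤ t0) (hq0 : 2 ≤ q0) (ht1 : 2 ≤ t1) (ht2 : 2 ≤ t2)
    (hsum : q0 + q1 + q2 = M + 1) : False := by
  have a0 : q0 * 6 ≤ M := by rw [h0]; exact Nat.mul_le_mul_left q0 ht0
  have a1 : q1 * 2 ≤ M := by rw [h1]; exact Nat.mul_le_mul_left q1 ht1
  have a2 : q2 * 2 ≤ M := by rw [h2]; exact Nat.mul_le_mul_left q2 ht2
  rcases Nat.lt_or_ge t1 3 with hlt1 | hge1
  · have : t1 = 2 := by omega
    subst this
    rcases Nat.lt_or_ge t2 3 with hlt2 | hge2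
    · have : t2 = 2 := by omega
      subst this
      omega
    · have b2 : q2 * 3 ≤ M := by rw [h2]; exact Nat.mul_le_mul_left q2 hge2
      omega
  · have b1 : q1 * 3 ≤ M := by rw [h1]; exact Nat.mul_le_mul_left q1 hge1
    omega

variable {H : Type*} [Group H] [Fintype H]

theorem klein_comm_aux (m : ℕ) (hm6 : 6 ≤ m)
    (hCA : ∀ h : H, h ∉ center H → ∀ a b : H, a * h = h * a → b * h = h * b → a * b = b * a)
    (hN2 : ∀ h : H, h ∉ center H → ∀ a b : H,
      (a * h * a⁻¹) * h = h * (a * h * a⁻¹) → (b * h * b⁻¹) * h = h * (b * h * b⁻¹) →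
      a * h ≠ h * a → b * h ≠ h * b → (a⁻¹ * b) * h = h * (a⁻¹ * b))
    (S : Set H) (hSord : ∀ s ∈ S, ∀ k : ℕ, s ^ k ∈ center H → m ∣ k)
    (s₁ s₂ : H) (h₁ : s₁ ∈ S) (h₂ : s₂ ∈ S) : s₁ * s₂ = s₂ * s₁ := by
  by_contra h12
  have hm : 4 ≤ m := by omega
  set z := Nat.card (center H) with hz
  have hz0 : 0 < z := Nat.card_pos
  set N := (center H).index with hNdef
  have hUcard : (U : Finset H).card = z * (N - 1) := by
    have h1 := card_U (H := H)
    have h2 : z * N = Nat.card H := card_mul_index (center H)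
    rw [← h2] at h1
    rw [Nat.mul_sub_one]
    omega
  have cd : ∀ g : H, g ∉ center H → ∃ q e t : ℕ, (e = 1 ∨ e = 2) ∧ 2 ≤ t ∧ 2 ≤ q * e ∧
      N = q * e * t ∧ (A g).card = z * (q * (t - 1)) ∧ (TZ g).card = z * (t - 1) ∧
      (g ∈ S → m ∣ t) := fun g hg => class_data hCA hN2 S m hSord hg
  have hSZ : ∀ s ∈ S, s ∉ center H := by
    intro s hs hc
    have h1 := hSord s hs 1 (by simpa using hc)
    have h2 : m ≤ 1 := Nat.le_of_dvd (by norm_num) h1
    omega
  have low : ∀ q e t : ℕ, (e = 1 ∨ e = 2) → 2 ≤ t → N = q * e * t →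
      N ≤ 4 * (q * (t - 1)) := by
    intro q e t he ht hN
    obtain ⟨t', rfl⟩ := Nat.exists_eq_add_of_le ht
    have e2 : q * (2 + t' - 1) = q * t' + q := by
      have : 2 + t' - 1 = t' + 1 := by omega
      rw [this]; ring
    rw [e2, hN]
    rcases he with rfl | rfl
    · have e1 : q * 1 * (2 + t') = q * t' + 2 * q := by ring
      rw [e1]; omega
    · have e1 : q * 2 * (2 + t') = 2 * (q * t') + 4 * q := by ring
      rw [e1]; omega
  have bound : ∀ (B : Finset H) (b c : ℕ) (g : H), B ⊆ U → B.card = z * b →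
      Disjoint B (A g) → (A g).card = z * c → b + c ≤ N - 1 := by
    intro B b c g hB hBc hdis hAc
    have h1 : (B ∪ A g).card ≤ (U : Finset H).card :=
      Finset.card_le_card (Finset.union_subset hB (A_subset_U g))
    rw [Finset.card_union_of_disjoint hdis, hBc, hAc, hUcard, ← Nat.mul_add] at h1
    exact Nat.le_of_mul_le_mul_left h1 hz0
  have pick : ∀ (B : Finset H) (b : ℕ), B.card = z * b → b < N - 1 →
      ∃ g, g ∉ center H ∧ g ∉ B := by
    intro B b hBc hb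
    apply exists_outside
    rw [hBc, hUcard]
    exact (Nat.mul_lt_mul_left hz0).mpr hb
  -- classes of elements of `S` have `e = 2`
  have eS : ∀ s ∈ S, ∀ q e t : ℕ, (e = 1 ∨ e = 2) → 2 ≤ t → 2 ≤ q * e → N = q * e * t →
      (A s).card = z * (q * (t - 1)) → m ∣ t → e = 2 := by
    intro s hs q e t he ht hqe hN hA hmt
    rcases he with rfl | rfl
    · exfalso
      have ht4 : 4 ≤ t := le_trans hm (Nat.le_of_dvd (by omega) hmt)
      obtain ⟨t', rfl⟩ := Nat.exists_eq_add_of_le ht4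
      have e1 : q * 1 * (4 + t') = q * t' + 4 * q := by ring
      have e2 : q * (4 + t' - 1) = q * t' + 3 * q := by
        have : 4 + t' - 1 = t' + 3 := by omega
        rw [this]; ring
      rw [e1] at hN
      rw [e2] at hA
      have hq2 : 2 ≤ q := by omega
      obtain ⟨g, hgZ, hgA⟩ := pick (A s) _ hA (by omega)
      obtain ⟨q1, e1', t1, he1, ht1, -, hN1, hA1, -, -⟩ := cd g hgZ
      have hlow := low q1 e1' t1 he1 ht1 hN1
      have hb := bound (A s) _ _ g (A_subset_U s) hA (disjoint_A hCA hgZ hgA) hA1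
      omega
    · rfl
  have hs1Z := hSZ s₁ h₁
  obtain ⟨q0, e0, t0, he0, ht0, hqe0, hN0, hA0, hTZ0, hm0⟩ := cd s₁ hs1Z
  have hmt0 := hm0 h₁
  have he0' : e0 = 2 := eS s₁ h₁ q0 e0 t0 he0 ht0 hqe0 hN0 hA0 hmt0
  subst he0'
  have ht04 : 4 ≤ t0 := le_trans hm (Nat.le_of_dvd (by omega) hmt0)
  -- all elements of `S` lie in the class of `s₁`
  have allS : ∀ s ∈ S, s ∈ A s₁ := by
    intro s hs
    by_contra hsA
    have hsZ := hSZ s hs
    obtain ⟨qb, eb, tb, heb, htb, hqeb, hNb, hAb, -, hmb⟩ := cd s hsZ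
    have hmtb := hmb hs
    have heb' : eb = 2 := eS s hs qb eb tb heb htb hqeb hNb hAb hmtb
    subst heb'
    have htb4 : 4 ≤ tb := le_trans hm (Nat.le_of_dvd (by omega) hmtb)
    obtain ⟨ta', rfl⟩ := Nat.exists_eq_add_of_le ht04
    obtain ⟨tb', rfl⟩ := Nat.exists_eq_add_of_le htb4
    have ea1 : q0 * 2 * (4 + ta') = 2 * (q0 * ta') + 8 * q0 := by ring
    have ea2 : q0 * (4 + ta' - 1) = q0 * ta' + 3 * q0 := by
      have : 4 + ta' - 1 = ta' + 3 := by omega
      rw [this]; ring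
    have eb1 : qb * 2 * (4 + tb') = 2 * (qb * tb') + 8 * qb := by ring
    have eb2 : qb * (4 + tb' - 1) = qb * tb' + 3 * qb := by
      have : 4 + tb' - 1 = tb' + 3 := by omega
      rw [this]; ring
    rw [ea1] at hN0
    rw [ea2] at hA0
    rw [eb1] at hNb
    rw [eb2] at hAb
    have hdis : Disjoint (A s₁) (A s) := disjoint_A hCA hsZ hsA
    have hcardU : (A s₁ ∪ A s).card =
        z * ((q0 * ta' + 3 * q0) + (qb * tb' + 3 * qb)) := by
      rw [Finset.card_union_of_disjoint hdis, hA0, hAb, ← Nat.mul_add]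
    have hq0 : 1 ≤ q0 := by omega
    have hqb : 1 ≤ qb := by omega
    obtain ⟨g, hgZ, hgU⟩ := pick (A s₁ ∪ A s) _ hcardU (by omega)
    rw [Finset.mem_union, not_or] at hgU
    obtain ⟨q1, e1', t1, he1, ht1, -, hN1, hA1, -, -⟩ := cd g hgZ
    have hlow := low q1 e1' t1 he1 ht1 hN1
    have hb := bound (A s₁ ∪ A s) _ _ g
      (Finset.union_subset (A_subset_U _) (A_subset_U _)) hcardU
      (Finset.disjoint_union_left.mpr
        ⟨disjoint_A hCA hgZ hgU.1, disjoint_A hCA hgZ hgU.2⟩) hA1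
    omega
  have ht06 : 6 ≤ t0 := le_trans hm6 (Nat.le_of_dvd (by omega) hmt0)
  -- the class of `s₁` contains at least two tori
  have hq02 : 2 ≤ q0 := by
    have m2 := allS s₂ h₂
    have c1 : (TZ s₁).card = z * (t0 - 1) := hTZ0
    have c2 : (TZ s₂).card = z * (t0 - 1) := (card_TZ_eq hCA hs1Z m2).trans hTZ0
    have d12 := disjoint_TZ hCA h12
    have hsub : TZ s₁ ∪ TZ s₂ ⊆ A s₁ := by
      refine Finset.union_subset ?_ ?_
      · exact TZ_subset_A hCA (self_mem_A hs1Z)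
      · exact TZ_subset_A hCA m2
    have hcard : (TZ s₁ ∪ TZ s₂).card = 2 * (z * (t0 - 1)) := by
      rw [Finset.card_union_of_disjoint d12, c1, c2]
      ring
    have hle := Finset.card_le_card hsub
    rw [hcard, hA0] at hle
    have hpos : 0 < z * (t0 - 1) := Nat.mul_pos hz0 (by omega)
    have h5 : 2 * (z * (t0 - 1)) ≤ q0 * (z * (t0 - 1)) := by
      have : q0 * (z * (t0 - 1)) = z * (q0 * (t0 - 1)) := by ring
      rw [this]; exact hle
    exact Nat.le_of_mul_le_mul_right h5 hpos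
  -- expand the data of the class of `s₁`
  obtain ⟨t0', rfl⟩ := Nat.exists_eq_add_of_le ht06
  have e01 : q0 * 2 * (6 + t0') = 2 * (q0 * t0') + 12 * q0 := by ring
  have e02 : q0 * (6 + t0' - 1) = q0 * t0' + 5 * q0 := by
    have : 6 + t0' - 1 = t0' + 5 := by omega
    rw [this]; ring
  rw [e01] at hN0
  rw [e02] at hA0
  -- every other class has `e = 2`
  have eOther : ∀ g : H, g ∉ center H → g ∉ A s₁ → ∀ q e t : ℕ, (e = 1 ∨ e = 2) → 2 ≤ t →
      2 ≤ q * e → N = q * e * t → (A g).card = z * (q * (t - 1)) → e = 2 := by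
    intro g hgZ hgA q e t he ht hqe hN hA
    rcases he with rfl | rfl
    · exfalso
      obtain ⟨t', rfl⟩ := Nat.exists_eq_add_of_le ht
      have e1 : q * 1 * (2 + t') = q * t' + 2 * q := by ring
      have e2 : q * (2 + t' - 1) = q * t' + q := by
        have : 2 + t' - 1 = t' + 1 := by omega
        rw [this]; ring
      rw [e1] at hN
      rw [e2] at hA
      have hdis := disjoint_A hCA hgZ hgA
      have hb := bound (A s₁) _ _ g (A_subset_U _) hA0 hdis hA
      rcases Nat.eq_zero_or_pos t' with h0 | hpos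
      · subst h0
        rw [Nat.mul_zero, Nat.zero_add] at hN hA hb
        have hcardU : (A s₁ ∪ A g).card = z * ((q0 * t0' + 5 * q0) + q) := by
          rw [Finset.card_union_of_disjoint hdis, hA0, hA, ← Nat.mul_add]
        obtain ⟨g', hg'Z, hg'U⟩ := pick (A s₁ ∪ A g) _ hcardU (by omega)
        rw [Finset.mem_union, not_or] at hg'U
        obtain ⟨q1, e1', t1, he1, ht1, -, hN1, hA1, -, -⟩ := cd g' hg'Z
        have hlow := low q1 e1' t1 he1 ht1 hN1
        have hb' := bound (A s₁ ∪ A g) _ _ g'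
          (Finset.union_subset (A_subset_U _) (A_subset_U _)) hcardU
          (Finset.disjoint_union_left.mpr
            ⟨disjoint_A hCA hg'Z hg'U.1, disjoint_A hCA hg'Z hg'U.2⟩) hA1
        omega
      · have hP : q ≤ q * t' := Nat.le_mul_of_pos_right q hpos
        omega
    · rfl
  -- a second class
  obtain ⟨g₁, hg1Z, hg1A⟩ := pick (A s₁) _ hA0 (by omega)
  obtain ⟨q1, e1, t1, he1, ht1, hqe1, hN1, hA1, -, -⟩ := cd g₁ hg1Z
  have he1' := eOther g₁ hg1Z hg1A q1 e1 t1 he1 ht1 hqe1 hN1 hA1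
  subst he1'
  obtain ⟨t1', rfl⟩ := Nat.exists_eq_add_of_le ht1
  have e11 : q1 * 2 * (2 + t1') = 2 * (q1 * t1') + 4 * q1 := by ring
  have e12 : q1 * (2 + t1' - 1) = q1 * t1' + q1 := by
    have : 2 + t1' - 1 = t1' + 1 := by omega
    rw [this]; ring
  rw [e11] at hN1
  rw [e12] at hA1
  have hdis01 := disjoint_A hCA hg1Z hg1A
  have hcard01 : (A s₁ ∪ A g₁).card = z * ((q0 * t0' + 5 * q0) + (q1 * t1' + q1)) := by
    rw [Finset.card_union_of_disjoint hdis01, hA0, hA1, ← Nat.mul_add]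
  have hq1 : 1 ≤ q1 := by omega
  -- a third class
  obtain ⟨g₂, hg2Z, hg2U⟩ := pick (A s₁ ∪ A g₁) _ hcard01 (by omega)
  rw [Finset.mem_union, not_or] at hg2U
  obtain ⟨q2, e2, t2, he2, ht2, hqe2, hN2', hA2, -, -⟩ := cd g₂ hg2Z
  have he2' := eOther g₂ hg2Z hg2U.1 q2 e2 t2 he2 ht2 hqe2 hN2' hA2
  subst he2'
  obtain ⟨t2', rfl⟩ := Nat.exists_eq_add_of_le ht2
  have e21 : q2 * 2 * (2 + t2') = 2 * (q2 * t2') + 4 * q2 := by ring
  have e22 : q2 * (2 + t2' - 1) = q2 * t2' + q2 := by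
    have : 2 + t2' - 1 = t2' + 1 := by omega
    rw [this]; ring
  rw [e21] at hN2'
  rw [e22] at hA2
  have hsub01 : A s₁ ∪ A g₁ ⊆ U := Finset.union_subset (A_subset_U _) (A_subset_U _)
  have hdis2 : Disjoint (A s₁ ∪ A g₁) (A g₂) :=
    Finset.disjoint_union_left.mpr
      ⟨disjoint_A hCA hg2Z hg2U.1, disjoint_A hCA hg2Z hg2U.2⟩
  have hb2 := bound (A s₁ ∪ A g₁) _ _ g₂ hsub01 hcard01 hdis2 hA2
  have hcard012 : (A s₁ ∪ A g₁ ∪ A g₂).card =
      z * (((q0 * t0' + 5 * q0) + (q1 * t1' + q1)) + (q2 * t2' + q2)) := by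
    rw [Finset.card_union_of_disjoint hdis2, hcard01, hA2, ← Nat.mul_add]
  have hq2 : 1 ≤ q2 := by omega
  -- there is no fourth class
  have hsum : q0 + q1 + q2 = (q0 * t0' + 6 * q0) + 1 := by
    by_contra hne
    obtain ⟨g₃, hg3Z, hg3U⟩ := pick (A s₁ ∪ A g₁ ∪ A g₂) _ hcard012 (by omega)
    rw [Finset.mem_union, not_or, Finset.mem_union, not_or] at hg3U
    obtain ⟨q3, e3, t3, he3, ht3, hqe3, hN3, hA3, -, -⟩ := cd g₃ hg3Z
    have he3' := eOther g₃ hg3Z hg3U.1.1 q3 e3 t3 he3 ht3 hqe3 hN3 hA3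
    subst he3'
    obtain ⟨t3', rfl⟩ := Nat.exists_eq_add_of_le ht3
    have e31 : q3 * 2 * (2 + t3') = 2 * (q3 * t3') + 4 * q3 := by ring
    have e32 : q3 * (2 + t3' - 1) = q3 * t3' + q3 := by
      have : 2 + t3' - 1 = t3' + 1 := by omega
      rw [this]; ring
    rw [e31] at hN3
    rw [e32] at hA3
    have hb3 := bound (A s₁ ∪ A g₁ ∪ A g₂) _ _ g₃
      (Finset.union_subset hsub01 (A_subset_U _)) hcard012
      (Finset.disjoint_union_left.mpr
        ⟨Finset.disjoint_union_left.mpr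
          ⟨disjoint_A hCA hg3Z hg3U.1.1, disjoint_A hCA hg3Z hg3U.1.2⟩,
          disjoint_A hCA hg3Z hg3U.2⟩) hA3
    omega
  exact arith22 (q0 * t0' + 6 * q0) q0 (6 + t0') q1 (2 + t1') q2 (2 + t2') (by ring)
    (by have : q1 * (2 + t1') = q1 * t1' + 2 * q1 := by ring
        rw [this]; omega)
    (by have : q2 * (2 + t2') = q2 * t2' + 2 * q2 := by ring
        rw [this]; omega)
    (by omega) hq02 (by omega) (by omega) hsum

end Main

/-- **Klein's class equation, commuting variant** (piece K1p of S3054). -/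
theorem klein_comm {H : Type*} [Group H] [Finite H] (m : ℕ) (hm : 6 ≤ m)
    (hCA : ∀ h : H, h ∉ Subgroup.center H → ∀ a b : H, a * h = h * a → b * h = h * b →
      a * b = b * a)
    (hN2 : ∀ h : H, h ∉ Subgroup.center H → ∀ a b : H,
      (a * h * a⁻¹) * h = h * (a * h * a⁻¹) → (b * h * b⁻¹) * h = h * (b * h * b⁻¹) →
      a * h ≠ h * a → b * h ≠ h * b → (a⁻¹ * b) * h = h * (a⁻¹ * b))
    (S : Set H) (hSconj : ∀ s ∈ S, ∀ g : H, g * s * g⁻¹ ∈ S)
    (hSord : ∀ s ∈ S, ∀ k : ℕ, s ^ k ∈ Subgroup.center H → m ∣ k)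
    (s₁ s₂ : H) (h₁ : s₁ ∈ S) (h₂ : s₂ ∈ S) : s₁ * s₂ = s₂ * s₁ := by
  have _ := hSconj
  have : Fintype H := Fintype.ofFinite H
  exact klein_comm_aux m hm hCA hN2 S hSord s₁ s₂ h₁ h₂

end Cfsg.Agent.Lib.Helper66.KleinComm
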