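import Mathlib
import Cfsg.Agent.Lib.Helper44.MCentStmt
import Cfsg.Agent.Lib.Helper45.MinusInndiag

set_option autoImplicit false

/-! Piece [MS] of S2716: base change of similarities of the minus form along a field
homomorphism `j : F₀ →+* F`. -/

namespace Cfsg.Agent.Lib.Helper66.MCentMS

open Matrix Module QuadraticMap
open Cfsg.Agent.Lib.Helper45.OmegaAut Cfsg.Agent.Lib.Helper43.H90Fin
open Cfsg.Agent.Lib.Helper44.MFld0 Cfsg.Agent.Lib.Helper44.MaxTS
  Cfsg.Agent.Lib.Helper44.NegPairs Cfsg.Agent.Lib.Helper44.QSpace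
  Cfsg.Agent.Lib.Helper44.QClass Cfsg.Agent.Lib.Helper44.MFldStmt

universe u v

/-- A quadratic form on `ι → F` vanishing on all `e_i` and all `e_i + e_k` is zero. -/
theorem quad_eq_zero {F : Type u} [Field F] {ι : Type} [Fintype ι] [DecidableEq ι]
    (N : QuadraticForm F (ι → F))
    (h1 : ∀ i, N (Pi.single i 1) = 0)
    (h2 : ∀ i k, N (Pi.single i 1 + Pi.single k 1) = 0) (v : ι → F) : N v = 0 := by
  have hp : ∀ i k, QuadraticMap.polarBilin N (Pi.single i 1) (Pi.single k 1) = 0 := by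
    intro i k
    rw [QuadraticMap.polarBilin_apply_apply, QuadraticMap.polar, h1, h1, h2]
    simp
  have hB : QuadraticMap.polarBilin N = 0 := by
    apply LinearMap.BilinForm.ext_basis (Pi.basisFun F ι)
    intro i k
    rw [Pi.basisFun_apply, Pi.basisFun_apply, hp]
    rfl
  have hadd : ∀ x y : ι → F, N (x + y) = N x + N y := by
    intro x y
    have h := QuadraticMap.polarBilin_apply_apply N x y
    rw [hB] at h
    have h' : QuadraticMap.polar N x y = 0 := h.symm
    rw [QuadraticMap.polar] at h'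
    linear_combination h'
  have hs : ∀ s : Finset ι, N (∑ i ∈ s, v i • (Pi.single i 1 : ι → F)) = 0 := by
    intro s
    induction s using Finset.induction_on with
    | empty => simp
    | insert a s ha ih =>
      rw [Finset.sum_insert ha, hadd, ih, QuadraticMap.map_smul, h1]
      simp
  have hv : v = ∑ i, v i • (Pi.single i 1 : ι → F) := by
    funext k
    simp [Finset.sum_apply, Pi.single_apply]
  rw [hv]
  exact hs _

theorem main : Cfsg.Agent.Lib.Helper44.MCentStmt.MapSim.{u, v} := by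
  intro F₀ _ _ F _ _ j m a₀ b₀ g₀ hg₀
  obtain ⟨c₀, hc₀⟩ := hg₀
  refine ⟨Units.map (j : F₀ →* F) c₀, fun v => ?_⟩
  have hcoe : ((Units.map (j : F₀ →* F) c₀ : Fˣ) : F) = j (c₀ : F₀) := rfl
  rw [hcoe]
  have hM : ((Matrix.GeneralLinearGroup.map j g₀ : GL (MI m) F) : Matrix (MI m) (MI m) F)
      = ((g₀ : GL (MI m) F₀) : Matrix (MI m) (MI m) F₀).map j := rfl
  rw [hM]
  set M₀ : Matrix (MI m) (MI m) F₀ := ((g₀ : GL (MI m) F₀) : Matrix (MI m) (MI m) F₀) with hM₀
  -- rational vectors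
  have hrat : ∀ w₀ : MI m → F₀,
      Cfsg.quadFormMinus m F (j a₀) (j b₀) ((M₀.map j) *ᵥ (j ∘ w₀)) =
        j (c₀ : F₀) * Cfsg.quadFormMinus m F (j a₀) (j b₀) (j ∘ w₀) := by
    intro w₀
    have e1 : (M₀.map j) *ᵥ (j ∘ w₀) = j ∘ (M₀ *ᵥ w₀) := by
      funext i
      exact (RingHom.map_mulVec j M₀ w₀ i).symm
    have e2 := Cfsg.Agent.Lib.Helper45.MinusInndiag.minus_map j m a₀ b₀ (M₀ *ᵥ w₀)
    have e3 := Cfsg.Agent.Lib.Helper45.MinusInndiag.minus_map j m a₀ b₀ w₀
    rw [coe_minusQ, coe_minusQ] at e2 e3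
    rw [e1, e2, e3, hc₀ w₀, map_mul]
  let N : QuadraticForm F (MI m → F) :=
    (minusQ m F (j a₀) (j b₀)).comp (Matrix.toLin' (M₀.map j)) - (j (c₀ : F₀)) • minusQ m F (j a₀) (j b₀)
  have hN : ∀ w : MI m → F, N w = Cfsg.quadFormMinus m F (j a₀) (j b₀) ((M₀.map j) *ᵥ w) -
      j (c₀ : F₀) * Cfsg.quadFormMinus m F (j a₀) (j b₀) w := by
    intro w
    rfl
  have hsingle : ∀ i : MI m, (Pi.single i 1 : MI m → F) = j ∘ (Pi.single i 1 : MI m → F₀) := by
    intro i
    funext k
    by_cases hk : k = i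
    · subst hk; simp
    · simp [Pi.single_apply, hk]
  have hzero : ∀ w, N w = 0 := by
    apply quad_eq_zero N
    · intro i
      rw [hN, hsingle, hrat, sub_self]
    · intro i k
      have e : (Pi.single i 1 + Pi.single k 1 : MI m → F) =
          j ∘ (Pi.single i 1 + Pi.single k 1 : MI m → F₀) := by
        rw [hsingle i, hsingle k]
        funext l
        simp
      rw [hN, e, hrat, sub_self]
  have := hzero v
  rw [hN, sub_eq_zero] at this
  exact this

end Cfsg.Agent.Lib.Helper66.MCentMS
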