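import Mathlib

set_option autoImplicit false

/-!
# Groups in which every non-normal subgroup has a maximal normalizer

`NM G`: every subgroup of `G` that is not normal has a normalizer that is a maximal subgroup.
The property passes to homomorphic images (`NM.of_surjective`) and to direct products with an
abelian group of coprime order (`NM.prod`).
-/

namespace Cfsg.Agent.Lib.Helper66.MaxNorm

/-- every non-normal subgroup has a maximal normalizer -/
def NM (G : Type*) [Group G] : Prop :=
  ∀ H : Subgroup G, ¬ H.Normal → IsCoatom (Subgroup.normalizer (H : Set G))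

theorem NM.of_surjective {G G' : Type*} [Group G] [Group G'] (f : G →* G')
    (hf : Function.Surjective f) (h : NM G) : NM G' := by
  intro H' hH'
  have hn : ¬ (H'.comap f).Normal := by
    intro hc
    apply hH'
    have h1 := Subgroup.Normal.map hc f hf
    rwa [Subgroup.map_comap_eq_self_of_surjective hf] at h1
  have hco := h _ hn
  have hnorm : (Subgroup.normalizer (H' : Set G')).comap f =
      Subgroup.normalizer ((H'.comap f : Subgroup G) : Set G) :=
    Subgroup.comap_normalizer_eq_of_surjective H' hf
  rw [← hnorm] at hco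
  constructor
  · intro htop
    apply hco.1
    rw [htop, Subgroup.comap_top]
  · intro L hL
    have h1 : (Subgroup.normalizer (H' : Set G')).comap f < L.comap f := by
      refine lt_of_le_of_ne (Subgroup.comap_mono hL.le) ?_
      intro heq
      exact hL.ne (Subgroup.comap_injective hf heq)
    have h2 := hco.2 _ h1
    apply Subgroup.comap_injective hf
    rw [h2, Subgroup.comap_top]

section Prod

variable {K S : Type*} [Group K] [CommGroup S] [Finite K] [Finite S]

theorem mem_iff_of_coprime (hco : (Nat.card K).Coprime (Nat.card S)) (H : Subgroup (K × S))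
    (k : K) (s : S) : (k, s) ∈ H ↔ (k, (1 : S)) ∈ H ∧ ((1 : K), s) ∈ H := by
  constructor
  · intro hks
    constructor
    · have h1 : (k, s) ^ Nat.card S ∈ H := H.pow_mem hks _
      have hcop : (Nat.card S).Coprime (orderOf k) :=
        Nat.Coprime.coprime_dvd_right (orderOf_dvd_natCard k) hco.symm
      obtain ⟨m, hm⟩ := exists_pow_eq_self_of_coprime hcop
      have h2 : ((k, s) ^ Nat.card S) ^ m ∈ H := H.pow_mem h1 _
      have e : ((k, s) ^ Nat.card S) ^ m = (k, (1 : S)) := by
        rw [Prod.pow_mk, Prod.pow_mk, hm, pow_card_eq_one', one_pow]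
      rwa [e] at h2
    · have h1 : (k, s) ^ Nat.card K ∈ H := H.pow_mem hks _
      have hcop : (Nat.card K).Coprime (orderOf s) :=
        Nat.Coprime.coprime_dvd_right (orderOf_dvd_natCard s) hco
      obtain ⟨m, hm⟩ := exists_pow_eq_self_of_coprime hcop
      have h2 : ((k, s) ^ Nat.card K) ^ m ∈ H := H.pow_mem h1 _
      have e : ((k, s) ^ Nat.card K) ^ m = ((1 : K), s) := by
        rw [Prod.pow_mk, Prod.pow_mk, hm, pow_card_eq_one', one_pow]
      rwa [e] at h2
  · rintro ⟨h1, h2⟩
    have h3 := H.mul_mem h1 h2
    rwa [Prod.mk_mul_mk, mul_one, one_mul] at h3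

/-- the first component of a subgroup of a product -/
def fstPart (H : Subgroup (K × S)) : Subgroup K := H.comap (MonoidHom.inl K S)

theorem mem_fstPart (H : Subgroup (K × S)) (k : K) : k ∈ fstPart H ↔ (k, (1 : S)) ∈ H := Iff.rfl

theorem mem_normalizer_iff_fst (hco : (Nat.card K).Coprime (Nat.card S)) (H : Subgroup (K × S))
    (k : K) (s : S) :
    (k, s) ∈ Subgroup.normalizer (H : Set (K × S)) ↔
      k ∈ Subgroup.normalizer (fstPart H : Set K) := by
  rw [Subgroup.mem_normalizer_iff, Subgroup.mem_normalizer_iff]
  constructor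
  · intro h a
    rw [mem_fstPart, mem_fstPart]
    have h1 := h (a, 1)
    have e : (k, s) * (a, (1 : S)) * (k, s)⁻¹ = (k * a * k⁻¹, (1 : S)) := by
      rw [Prod.inv_mk, Prod.mk_mul_mk, Prod.mk_mul_mk, mul_one, mul_inv_cancel]
    rwa [e] at h1
  · rintro h ⟨a, b⟩
    have e : (k, s) * (a, b) * (k, s)⁻¹ = (k * a * k⁻¹, b) := by
      rw [Prod.inv_mk, Prod.mk_mul_mk, Prod.mk_mul_mk, mul_comm s b, mul_assoc b, mul_inv_cancel,
        mul_one]
    rw [e, mem_iff_of_coprime hco H a b, mem_iff_of_coprime hco H (k * a * k⁻¹) b]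
    have h1 := h a
    rw [mem_fstPart, mem_fstPart] at h1
    rw [h1]

theorem NM.prod (hco : (Nat.card K).Coprime (Nat.card S)) (h : NM K) : NM (K × S) := by
  intro H hH
  have hn : ¬ (fstPart H).Normal := by
    intro hc
    apply hH
    rw [← Subgroup.normalizer_eq_top_iff, eq_top_iff]
    rintro ⟨k, s⟩ -
    rw [mem_normalizer_iff_fst hco]
    have := Subgroup.normalizer_eq_top_iff.mpr hc
    rw [this]
    trivial
  have hM := h _ hn
  constructor
  · intro htop
    apply hM.1
    rw [eq_top_iff]
    intro k _
    have h1 : (k, (1 : S)) ∈ Subgroup.normalizer (H : Set (K × S)) := by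
      rw [htop]
      trivial
    exact (mem_normalizer_iff_fst hco H k 1).mp h1
  · intro L hL
    have hle : Subgroup.normalizer (fstPart H : Set K) ≤ fstPart L := by
      intro k hk
      rw [mem_fstPart]
      apply hL.le
      exact (mem_normalizer_iff_fst hco H k 1).mpr hk
    have hS : ∀ s : S, ((1 : K), s) ∈ L := by
      intro s
      apply hL.le
      rw [mem_normalizer_iff_fst hco]
      exact Subgroup.one_mem _
    have hne : Subgroup.normalizer (fstPart H : Set K) ≠ fstPart L := by
      intro heq
      apply hL.ne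
      apply le_antisymm hL.le
      rintro ⟨k, s⟩ hks
      rw [mem_normalizer_iff_fst hco, heq, mem_fstPart]
      exact ((mem_iff_of_coprime hco L k s).mp hks).1
    have htop := hM.2 _ (lt_of_le_of_ne hle hne)
    rw [eq_top_iff]
    rintro ⟨k, s⟩ -
    rw [mem_iff_of_coprime hco L k s]
    refine ⟨?_, hS s⟩
    rw [← mem_fstPart, htop]
    trivial

end Prod

end Cfsg.Agent.Lib.Helper66.MaxNorm
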