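import Mathlib
import Cfsg.Agent.Lib.Helper98.DicksonB
import Cfsg.Agent.Lib.Helper53.SL2Normal
import Cfsg.Agent.Lib.Helper5.SL2Card
import Cfsg.Agent.Lib.Helper66.MaxNorm

set_option autoImplicit false

/-!
# Normalizers of non-normal subgroups of `SL(2, 13)` are maximal

Every proper subgroup of `SL(2, 13)` containing `-1` has order dividing `156`, `24` or `28`
(Dickson's list, from helper98's library), and every subgroup of order `24`, `28` or `156`
containing `-1` is maximal.  We show that the normalizer of every non-normal subgroup has order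
`24`, `28` or `156`.
-/

namespace Cfsg.Agent.Lib.Helper66.SL13

open Matrix MatrixGroups
open Cfsg.Agent.Lib.Helper98.SL2Sub Cfsg.Agent.Lib.Helper98.SL2Core
open Cfsg.Agent.Lib.Helper98.SL2Tor Cfsg.Agent.Lib.Helper98.DicksonB
open Cfsg.Agent.Lib.Helper98.PSL2Max
open Cfsg.Agent.Lib.Helper53.SL2Inv Cfsg.Agent.Lib.Helper53.SL2Unip
open Cfsg.Agent.Lib.Helper53.SL2Normal
open Cfsg.Agent.Lib.Helper66.MaxNorm

section general

variable {G : Type*} [Group G]

theorem fact_aux (p k m : ℕ) (hp : p.Prime) (hm : ¬ p ∣ m) :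
    (p ^ k * m).factorization p = k := by
  have hm0 : m ≠ 0 := by rintro rfl; exact hm (dvd_zero p)
  rw [Nat.factorization_mul (pow_ne_zero _ hp.ne_zero) hm0, Finsupp.add_apply,
    Nat.Prime.factorization_pow hp, Finsupp.single_eq_same,
    Nat.factorization_eq_zero_of_not_dvd hm, add_zero]

/-- a subgroup of index two is normalized by its overgroup -/
theorem le_normalizer_of_card_two [Finite G] (A B : Subgroup G) (hAB : A ≤ B)
    (hc : Nat.card B = 2 * Nat.card A) : B ≤ Subgroup.normalizer (A : Set G) := by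
  have h1 := Subgroup.card_mul_index (A.subgroupOf B)
  have h2 : Nat.card (A.subgroupOf B) = Nat.card A :=
    Nat.card_congr (Subgroup.subgroupOfEquivOfLe hAB).toEquiv
  rw [h2, hc] at h1
  have hpos : 0 < Nat.card A := Nat.card_pos
  have h3 : (A.subgroupOf B).index = 2 := by
    have : Nat.card A * (A.subgroupOf B).index = Nat.card A * 2 := by rw [h1, mul_comm]
    exact Nat.eq_of_mul_eq_mul_left hpos this
  have := Subgroup.normal_of_index_eq_two h3
  exact Subgroup.le_normalizer_of_normal_subgroupOf hAB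

theorem centralizer_le_normalizer_zpowers (y : G) :
    Subgroup.centralizer {y} ≤
      Subgroup.normalizer ((Subgroup.zpowers y : Subgroup G) : Set G) := by
  rw [Subgroup.le_normalizer_iff]
  intro h hh k hk
  rw [Subgroup.mem_centralizer_singleton_iff] at hh
  obtain ⟨n, rfl⟩ := Subgroup.mem_zpowers_iff.mp hk
  have hc : Commute h y := hh
  have e : h * y ^ n * h⁻¹ = y ^ n := by
    rw [(hc.zpow_right n).eq, mul_inv_cancel_right]
  rw [e]
  exact hk

/-- conjugation by an element normalizing `zpowers x` normalizes `zpowers (x ^ m)` -/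
theorem normalizer_zpowers_le_pow (x : G) (m : ℕ) :
    Subgroup.normalizer ((Subgroup.zpowers x : Subgroup G) : Set G) ≤
      Subgroup.normalizer ((Subgroup.zpowers (x ^ m) : Subgroup G) : Set G) := by
  rw [Subgroup.le_normalizer_iff]
  intro h hh k hk
  obtain ⟨n, rfl⟩ := Subgroup.mem_zpowers_iff.mp hk
  have h1 : h * x * h⁻¹ ∈ Subgroup.zpowers x :=
    ((Subgroup.mem_normalizer_iff.mp hh) x).mp (Subgroup.mem_zpowers x)
  obtain ⟨j, hj⟩ := Subgroup.mem_zpowers_iff.mp h1
  have e : h * (x ^ m) ^ n * h⁻¹ = ((x ^ m) ^ j) ^ n := by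
    have e1 : h * (x ^ m) ^ n * h⁻¹ = ((h * x * h⁻¹) ^ m) ^ n := by
      rw [conj_pow, conj_zpow]
    have e2 : (x ^ j) ^ m = (x ^ m) ^ j := by
      rw [← zpow_natCast (x ^ j) m, ← zpow_natCast x m, ← _root_.zpow_mul, ← _root_.zpow_mul,
        mul_comm]
    rw [e1, ← hj, e2]
  rw [e]
  exact Subgroup.zpow_mem _ (Subgroup.zpow_mem _ (Subgroup.mem_zpowers _) _) _

end general

/-- the group `SL(2, 13)` -/
abbrev G13 : Type := SL(2, ZMod 13)

instance fact13 : Fact (Nat.Prime 13) := ⟨by norm_num⟩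

theorem two_ne : (2 : ZMod 13) ≠ 0 := by decide

theorem card_F : Fintype.card (ZMod 13) = 13 := ZMod.card 13

instance finG : Finite G13 := finite_SL

theorem card_G : Nat.card G13 = 2184 := by
  have h := Cfsg.Agent.Lib.Helper5.SL2Card.card_SL_two card_F
  exact h.trans (by norm_num)

theorem odd_F : Odd (Fintype.card (ZMod 13)) := by
  rw [card_F]; decide

theorem negOne_mem_normalizer (X : Subgroup G13) :
    negOne ∈ Subgroup.normalizer (X : Set G13) := by
  rw [Subgroup.mem_normalizer_iff]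
  intro h
  have e : (negOne : G13) * h * negOne⁻¹ = h := by
    rw [negOne_comm, mul_inv_cancel_right]
  rw [e]

/-- Dickson's list for `SL(2, 13)` -/
theorem ord_cases (Y : Subgroup G13) (hneg : negOne ∈ Y) (hY : Y ≠ ⊤) :
    (∃ g : G13, ∀ y ∈ Y, (g * y * g⁻¹).1 1 0 = 0) ∨
      (¬ 13 ∣ Nat.card Y ∧ (Nat.card Y ∣ 24 ∨ Nat.card Y ∣ 28)) := by
  rcases proper_cases 13 two_ne Y hneg hY with h | ⟨hp, hsq⟩ | ⟨hp, h⟩ |
    ⟨φ, k, ⟨x, hx⟩, -⟩ | ⟨h3, -⟩
  · exact Or.inl h
  · right
    refine ⟨hp, ?_⟩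
    have := card_dvd_of_sq_comm 13 two_ne Y hneg hp hsq
    rw [card_F] at this
    exact this
  · right
    refine ⟨hp, ?_⟩
    have hd : Nat.card Y ∣ 2184 := card_G ▸ Subgroup.card_subgroup_dvd_card Y
    rcases h with h | h | h
    · left; rw [h]
    · rw [h] at hd; exact absurd hd (by decide)
    · rw [h] at hd; exact absurd hd (by decide)
  · exfalso
    apply hx
    have : ((x.val : ℕ) : ZMod 13) = x := ZMod.natCast_zmod_val x
    rw [← this]
    exact natCast_mem k _
  · exact absurd h3 (by decide)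

theorem ord_cases' (Y : Subgroup G13) (hneg : negOne ∈ Y) (hY : Y ≠ ⊤) :
    Nat.card Y ∣ 156 ∨ Nat.card Y ∣ 24 ∨ Nat.card Y ∣ 28 := by
  rcases ord_cases Y hneg hY with ⟨g, hg⟩ | ⟨-, h⟩
  · left
    have := card_dvd_of_borel Y g hg
    rw [card_F] at this
    exact this
  · exact Or.inr h

theorem ne_top_of_card (Y : Subgroup G13) (h : Nat.card Y ≠ 2184) : Y ≠ ⊤ := by
  intro ht
  apply h
  rw [ht, Subgroup.card_top, card_G]

theorem arith_coatom : ∀ b < 157, ∀ a : ℕ, a = 24 ∨ a = 28 ∨ a = 156 → a ∣ b → a < b →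
    ¬ (b ∣ 156 ∨ b ∣ 24 ∨ b ∣ 28) := by
  intro b hb a ha
  rcases ha with rfl | rfl | rfl <;> revert b <;> decide

/-- subgroups of order `24`, `28` or `156` containing `-1` are maximal -/
theorem coatom_of_card (Y : Subgroup G13) (hneg : negOne ∈ Y)
    (hc : Nat.card Y = 24 ∨ Nat.card Y = 28 ∨ Nat.card Y = 156) : IsCoatom Y := by
  constructor
  · apply ne_top_of_card
    rcases hc with h | h | h <;> rw [h] <;> decide
  · intro L hL
    by_contra hLt
    have hnegL : negOne ∈ L := hL.le hneg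
    have h1 := ord_cases' L hnegL hLt
    have h2 : Nat.card Y ∣ Nat.card L := Subgroup.card_dvd_of_le hL.le
    have h3 : Nat.card Y < Nat.card L := by
      by_contra hge
      push Not at hge
      exact hL.ne (Subgroup.eq_of_le_of_card_ge hL.le hge)
    have h4 : Nat.card L < 157 := by
      rcases h1 with h | h | h
      · exact lt_of_le_of_lt (Nat.le_of_dvd (by norm_num) h) (by norm_num)
      · exact lt_of_le_of_lt (Nat.le_of_dvd (by norm_num) h) (by norm_num)
      · exact lt_of_le_of_lt (Nat.le_of_dvd (by norm_num) h) (by norm_num)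
    exact arith_coatom _ h4 _ hc h2 h3 h1

instance Zc_normal : (Zc : Subgroup G13).Normal := by
  rw [← center_eq]; infer_instance

theorem Zc_le (X : Subgroup G13) (hneg : negOne ∈ X) : Zc ≤ X := by
  rintro x (rfl | rfl)
  · exact X.one_mem
  · exact hneg

theorem card_Zc13 : Nat.card (Zc : Subgroup G13) = 2 := card_Zc two_ne

theorem negOne_mem_Zc : (negOne : G13) ∈ (Zc : Subgroup G13) := Or.inr rfl

theorem orderOf_negOne : orderOf (negOne : G13) = 2 :=
  orderOf_eq_prime (by rw [pow_two, negOne_mul_negOne]) (negOne_ne_one two_ne)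

theorem orderOf_W : orderOf (W : G13) = 4 := by
  have h1 : ¬ (W : G13) ^ 2 ^ 1 = 1 := by
    rw [pow_one, pow_two, W_mul_W]
    exact negOne_ne_one two_ne
  have h2 : (W : G13) ^ 2 ^ (1 + 1) = 1 := by
    have : (2 : ℕ) ^ (1 + 1) = 2 * 2 := by norm_num
    rw [this, pow_mul, pow_two (W : G13), W_mul_W, pow_two, negOne_mul_negOne]
  exact orderOf_eq_prime_pow h1 h2

theorem W_not_mem (B : Subgroup G13) (h4 : ¬ 4 ∣ Nat.card B) : (W : G13) ∉ B := by
  intro hW
  apply h4
  rw [← orderOf_W]
  exact B.orderOf_dvd_natCard hW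

/-- a subgroup of order not divisible by `4` with a non-central element is not normal -/
theorem not_normal_of (B : Subgroup G13) (h4 : ¬ 4 ∣ Nat.card B) (g : G13) (hg : g ∈ B)
    (hg1 : g ≠ 1) (hg2 : g ≠ negOne) : ¬ B.Normal := by
  intro hn
  exact W_not_mem B h4 (W_mem_normal odd_F B g hg hg1 hg2)

theorem ne_of_orderOf (y : G13) (r : ℕ) (hr : r = 3 ∨ r = 7 ∨ r = 4 ∨ r = 13)
    (hy : orderOf y = r) : y ≠ 1 ∧ y ≠ negOne := by
  constructor
  · rintro rfl
    rw [orderOf_one] at hy
    rcases hr with rfl | rfl | rfl | rfl <;> omega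
  · rintro rfl
    rw [orderOf_negOne] at hy
    rcases hr with rfl | rfl | rfl | rfl <;> omega

theorem arith3 : ∀ n < 157, (n ∣ 156 ∨ n ∣ 24 ∨ n ∣ 28) → 12 ∣ n → (2184 / n) % 3 = 1 →
    n = 24 := by decide

theorem arith7 : ∀ n < 157, (n ∣ 156 ∨ n ∣ 24 ∨ n ∣ 28) → 14 ∣ n → (2184 / n) % 7 = 1 →
    n = 28 := by decide

theorem lt157 (n : ℕ) (h : n ∣ 156 ∨ n ∣ 24 ∨ n ∣ 28) : n < 157 := by
  rcases h with h | h | h
  · exact lt_of_le_of_lt (Nat.le_of_dvd (by norm_num) h) (by norm_num)
  · exact lt_of_le_of_lt (Nat.le_of_dvd (by norm_num) h) (by norm_num)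
  · exact lt_of_le_of_lt (Nat.le_of_dvd (by norm_num) h) (by norm_num)

/-- the normalizer of a Sylow `3`- or `7`-subgroup -/
theorem syl_normalizer (y : G13) (r : ℕ) (hr : r = 3 ∨ r = 7) (hy : orderOf y = r) :
    (r = 3 ∧ Nat.card
      (Subgroup.normalizer ((Subgroup.zpowers y : Subgroup G13) : Set G13)) = 24) ∨
    (r = 7 ∧ Nat.card
      (Subgroup.normalizer ((Subgroup.zpowers y : Subgroup G13) : Set G13)) = 28) := by
  have hrp : r.Prime := by rcases hr with rfl | rfl <;> norm_num
  have : Fact r.Prime := ⟨hrp⟩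
  obtain ⟨hy1, hy2⟩ := ne_of_orderOf y r (by tauto) hy
  have hcS0 : Nat.card (Subgroup.zpowers y : Subgroup G13) = r := by
    rw [Nat.card_zpowers, hy]
  have hSn : ¬ (Subgroup.zpowers y : Subgroup G13).Normal := by
    apply not_normal_of _ _ y (Subgroup.mem_zpowers y) hy1 hy2
    rw [hcS0]
    rcases hr with rfl | rfl <;> decide
  have hNt : Subgroup.normalizer ((Subgroup.zpowers y : Subgroup G13) : Set G13) ≠ ⊤ :=
    fun h => hSn (Subgroup.normalizer_eq_top_iff.mp h)
  have hD := ord_cases' _ (negOne_mem_normalizer (Subgroup.zpowers y)) hNt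
  have hco : (orderOf y).Coprime 13 := by
    rw [hy]; rcases hr with rfl | rfl <;> decide
  have hC := card_centralizer_cases two_ne y (tr_sq_ne_four 13 two_ne y hco hy1 hy2)
  rw [card_F] at hC
  have hCN : Nat.card (Subgroup.centralizer {y}) ∣
      Nat.card (Subgroup.normalizer ((Subgroup.zpowers y : Subgroup G13) : Set G13)) :=
    Subgroup.card_dvd_of_le (centralizer_le_normalizer_zpowers y)
  have hrC : r ∣ Nat.card (Subgroup.centralizer {y}) := by
    have hle : Subgroup.zpowers y ≤ Subgroup.centralizer {y} := by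
      rw [Subgroup.zpowers_le]
      exact Subgroup.mem_centralizer_singleton_iff.mpr rfl
    have := Subgroup.card_dvd_of_le hle
    rwa [hcS0] at this
  have hfac : (Nat.card G13).factorization r = 1 := by
    rw [card_G]
    rcases hr with rfl | rfl
    · exact fact_aux 3 1 728 Nat.prime_three (by decide)
    · exact fact_aux 7 1 312 (by norm_num) (by decide)
  have hcS : Nat.card (Subgroup.zpowers y : Subgroup G13) =
      r ^ (Nat.card G13).factorization r := by
    rw [hfac, pow_one, hcS0]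
  have hmod := card_sylow_modEq_one r G13
  rw [Sylow.card_eq_index_normalizer (Sylow.ofCard _ hcS)] at hmod
  have hmod' : (Subgroup.normalizer ((Subgroup.zpowers y : Subgroup G13) : Set G13)).index
      ≡ 1 [MOD r] := hmod
  have hidx := Subgroup.card_mul_index
    (Subgroup.normalizer ((Subgroup.zpowers y : Subgroup G13) : Set G13))
  rw [card_G] at hidx
  have hpos : 0 < Nat.card
      (Subgroup.normalizer ((Subgroup.zpowers y : Subgroup G13) : Set G13)) := Nat.card_pos
  have hdiv : 2184 / Nat.card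
      (Subgroup.normalizer ((Subgroup.zpowers y : Subgroup G13) : Set G13)) =
      (Subgroup.normalizer ((Subgroup.zpowers y : Subgroup G13) : Set G13)).index :=
    Nat.div_eq_of_eq_mul_right hpos hidx.symm
  rcases hr with rfl | rfl
  · left
    refine ⟨rfl, ?_⟩
    have h12 : Nat.card (Subgroup.centralizer {y}) = 12 := by
      rcases hC with h | h
      · exact h
      · rw [h] at hrC; exact absurd hrC (by decide)
    rw [h12] at hCN
    apply arith3 _ (lt157 _ hD) hD hCN
    rw [hdiv]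
    exact hmod'
  · right
    refine ⟨rfl, ?_⟩
    have h14 : Nat.card (Subgroup.centralizer {y}) = 14 := by
      rcases hC with h | h
      · rw [h] at hrC; exact absurd hrC (by decide)
      · exact h
    rw [h14] at hCN
    apply arith7 _ (lt157 _ hD) hD hCN
    rw [hdiv]
    exact hmod'

/-- short name for the normalizer -/
abbrev Nz (X : Subgroup G13) : Subgroup G13 := Subgroup.normalizer (X : Set G13)

theorem arith24 : ∀ n < 157, (n ∣ 156 ∨ n ∣ 24 ∨ n ∣ 28) → 24 ∣ n → n = 24 := by decide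

theorem arith8 : ∀ n < 157, (n ∣ 156 ∨ n ∣ 24 ∨ n ∣ 28) → 8 ∣ n → n = 8 ∨ n = 24 := by decide

theorem arithX0 : ∀ n < 157, (n ∣ 156 ∨ n ∣ 24 ∨ n ∣ 28) → 2 ∣ n → 13 ∣ n ∨
    n ∈ [2, 4, 6, 8, 12, 14, 24, 28] := by decide

theorem arithX (n : ℕ) (hn : n < 157) (hD : n ∣ 156 ∨ n ∣ 24 ∨ n ∣ 28) (h2 : 2 ∣ n)
    (h13 : ¬ 13 ∣ n) :
    n = 2 ∨ n = 4 ∨ n = 6 ∨ n = 8 ∨ n = 12 ∨ n = 14 ∨ n = 24 ∨ n = 28 := by
  have h := (arithX0 n hn hD h2).resolve_left h13
  simpa using h

theorem arithN : ∀ n < 157, (n ∣ 156 ∨ n ∣ 24 ∨ n ∣ 28) → (24 ∣ n ∨ 28 ∣ n ∨ 156 ∣ n) →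
    n = 24 ∨ n = 28 ∨ n = 156 := by decide

theorem sup_facts (X : Subgroup G13) (hneg : negOne ∈ X) (y : G13) (hyX : y ∈ X) (r : ℕ)
    (hr : r = 3 ∨ r = 7) (hy : orderOf y = r) :
    (Subgroup.zpowers y ⊔ Zc : Subgroup G13) ≤ X ∧
      2 * r ∣ Nat.card (Subgroup.zpowers y ⊔ Zc : Subgroup G13) := by
  refine ⟨sup_le (by rw [Subgroup.zpowers_le]; exact hyX) (Zc_le X hneg), ?_⟩
  have hd1 : r ∣ Nat.card (Subgroup.zpowers y ⊔ Zc : Subgroup G13) := by
    have := Subgroup.card_dvd_of_le
      (le_sup_left : Subgroup.zpowers y ≤ Subgroup.zpowers y ⊔ (Zc : Subgroup G13))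
    rwa [Nat.card_zpowers, hy] at this
  have hd2 : 2 ∣ Nat.card (Subgroup.zpowers y ⊔ Zc : Subgroup G13) := by
    have := Subgroup.card_dvd_of_le
      (le_sup_right : (Zc : Subgroup G13) ≤ Subgroup.zpowers y ⊔ (Zc : Subgroup G13))
    rwa [card_Zc13] at this
  have hco : Nat.Coprime 2 r := by rcases hr with rfl | rfl <;> decide
  exact Nat.Coprime.mul_dvd_of_dvd_of_dvd hco hd2 hd1

theorem case_2r (X : Subgroup G13) (hneg : negOne ∈ X) (r : ℕ) (hr : r = 3 ∨ r = 7)
    (hc : Nat.card X = 2 * r) : 24 ∣ Nat.card (Nz X) ∨ 28 ∣ Nat.card (Nz X) := by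
  have hrp : r.Prime := by rcases hr with rfl | rfl <;> norm_num
  have : Fact r.Prime := ⟨hrp⟩
  obtain ⟨y', hy'⟩ := exists_prime_orderOf_dvd_card' (G := X) r
    (by rw [hc]; exact Dvd.intro_left 2 rfl)
  have hy : orderOf (y' : G13) = r := by rw [Subgroup.orderOf_coe]; exact hy'
  obtain ⟨hBle, hd⟩ := sup_facts X hneg y' y'.2 r hr hy
  have hB : (Subgroup.zpowers (y' : G13) ⊔ Zc : Subgroup G13) = X :=
    Subgroup.eq_of_le_of_card_ge hBle (by rw [hc]; exact Nat.le_of_dvd Nat.card_pos hd)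
  have hN : Nz (Subgroup.zpowers (y' : G13)) ≤ Nz X := by
    have := Subgroup.normalizer_le_normalizer_sup_normal (H := Subgroup.zpowers (y' : G13))
      (K := (Zc : Subgroup G13))
    rwa [hB] at this
  have hdvd := Subgroup.card_dvd_of_le hN
  rcases syl_normalizer y' r hr hy with ⟨-, h⟩ | ⟨-, h⟩
  · left; rwa [h] at hdvd
  · right; rwa [h] at hdvd

theorem case_12 (X : Subgroup G13) (hneg : negOne ∈ X) (hc : Nat.card X = 12) :
    24 ∣ Nat.card (Nz X) := by
  have : Fact (Nat.Prime 3) := ⟨Nat.prime_three⟩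
  obtain ⟨y', hy'⟩ := exists_prime_orderOf_dvd_card' (G := X) 3 (by rw [hc]; decide)
  have hy : orderOf (y' : G13) = 3 := by rw [Subgroup.orderOf_coe]; exact hy'
  obtain ⟨hy1, hy2⟩ := ne_of_orderOf _ 3 (Or.inl rfl) hy
  obtain ⟨hBle, hd⟩ := sup_facts X hneg y' y'.2 3 (Or.inl rfl) hy
  have hdX : Nat.card (Subgroup.zpowers (y' : G13) ⊔ Zc : Subgroup G13) ∣ 12 :=
    hc ▸ Subgroup.card_dvd_of_le hBle
  have hN3 : Nat.card (Nz (Subgroup.zpowers (y' : G13))) = 24 := by
    rcases syl_normalizer y' 3 (Or.inl rfl) hy with ⟨-, h⟩ | ⟨h, -⟩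
    · exact h
    · exact absurd h (by decide)
  have hNB : Nz (Subgroup.zpowers (y' : G13)) ≤
      Nz (Subgroup.zpowers (y' : G13) ⊔ Zc : Subgroup G13) :=
    Subgroup.normalizer_le_normalizer_sup_normal
  have h24B : 24 ∣ Nat.card (Nz (Subgroup.zpowers (y' : G13) ⊔ Zc : Subgroup G13)) :=
    hN3 ▸ Subgroup.card_dvd_of_le hNB
  have hcB : Nat.card (Subgroup.zpowers (y' : G13) ⊔ Zc : Subgroup G13) = 6 ∨
      Nat.card (Subgroup.zpowers (y' : G13) ⊔ Zc : Subgroup G13) = 12 := by
    have key : ∀ n ≤ 12, 2 * 3 ∣ n → n ∣ 12 → n = 6 ∨ n = 12 := by decide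
    exact key _ (Nat.le_of_dvd (by norm_num) hdX) hd hdX
  rcases hcB with h6 | h12
  · have hBn : ¬ (Subgroup.zpowers (y' : G13) ⊔ Zc : Subgroup G13).Normal :=
      not_normal_of _ (by rw [h6]; decide) y'
        ((le_sup_left : Subgroup.zpowers (y' : G13) ≤ _) (Subgroup.mem_zpowers _)) hy1 hy2
    have hNt : Nz (Subgroup.zpowers (y' : G13) ⊔ Zc : Subgroup G13) ≠ ⊤ :=
      fun h => hBn (Subgroup.normalizer_eq_top_iff.mp h)
    have hD := ord_cases' _ (negOne_mem_normalizer _) hNt
    have hNB24 := arith24 _ (lt157 _ hD) hD h24B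
    have hXle : X ≤ Nz (Subgroup.zpowers (y' : G13) ⊔ Zc : Subgroup G13) :=
      le_normalizer_of_card_two _ X hBle (by rw [hc, h6])
    have hfin : Nz (Subgroup.zpowers (y' : G13) ⊔ Zc : Subgroup G13) ≤ Nz X :=
      le_normalizer_of_card_two X _ hXle (by rw [hNB24, hc])
    have := Subgroup.card_dvd_of_le hfin
    rwa [hNB24] at this
  · have hBX : (Subgroup.zpowers (y' : G13) ⊔ Zc : Subgroup G13) = X :=
      Subgroup.eq_of_le_of_card_ge hBle (by rw [hc, h12])
    rw [hBX] at h24B
    exact h24B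

theorem case_4 (X : Subgroup G13) (hc : Nat.card X = 4) :
    24 ∣ Nat.card (Nz X) := by
  have hex : ∃ x ∈ X, x * x ≠ 1 := by
    by_contra hcon
    push Not at hcon
    have hle : X ≤ Zc := by
      intro x hx
      exact sq_eq_one two_ne x (hcon x hx)
    have := Subgroup.card_dvd_of_le hle
    rw [hc, card_Zc13] at this
    exact absurd this (by decide)
  obtain ⟨x, hxX, hxx⟩ := hex
  have ho : orderOf x = 4 := by
    have h1 : orderOf x ∣ 4 := hc ▸ X.orderOf_dvd_natCard hxX
    have h2 : ¬ orderOf x ∣ 2 := by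
      intro h
      apply hxx
      rw [← pow_two]
      exact orderOf_dvd_iff_pow_eq_one.mp h
    have key : ∀ n ≤ 4, n ∣ 4 → ¬ n ∣ 2 → n = 4 := by decide
    exact key _ (Nat.le_of_dvd (by norm_num) h1) h1 h2
  obtain ⟨hx1, hx2⟩ := ne_of_orderOf x 4 (by tauto) ho
  have hzX : Subgroup.zpowers x = X :=
    Subgroup.eq_of_le_of_card_ge (by rw [Subgroup.zpowers_le]; exact hxX)
      (by rw [hc, Nat.card_zpowers, ho])
  have hco : (orderOf x).Coprime 13 := by rw [ho]; decide
  have hC := card_centralizer_cases two_ne x (tr_sq_ne_four 13 two_ne x hco hx1 hx2)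
  rw [card_F] at hC
  have h4C : 4 ∣ Nat.card (Subgroup.centralizer {x}) := by
    have hle : Subgroup.zpowers x ≤ Subgroup.centralizer {x} := by
      rw [Subgroup.zpowers_le]
      exact Subgroup.mem_centralizer_singleton_iff.mpr rfl
    have := Subgroup.card_dvd_of_le hle
    rwa [Nat.card_zpowers, ho] at this
  have h12 : Nat.card (Subgroup.centralizer {x}) = 12 := by
    rcases hC with h | h
    · exact h
    · rw [h] at h4C; exact absurd h4C (by decide)
  have hCN : 12 ∣ Nat.card (Nz X) := by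
    have := Subgroup.card_dvd_of_le (centralizer_le_normalizer_zpowers x)
    rwa [h12, hzX] at this
  have hp : IsPGroup 2 X := IsPGroup.of_card (n := 2) (by rw [hc]; norm_num)
  obtain ⟨Q, hQ⟩ := hp.exists_le_sylow
  have hcQ : Nat.card Q = 8 := by
    have hf : (2184).factorization 2 = 3 := fact_aux 2 3 273 Nat.prime_two (by decide)
    rw [Sylow.card_eq_multiplicity, card_G, hf]
    norm_num
  have hQN : (Q : Subgroup G13) ≤ Nz X :=
    le_normalizer_of_card_two X Q hQ (by rw [hcQ, hc])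
  have h8N : 8 ∣ Nat.card (Nz X) := by
    have := Subgroup.card_dvd_of_le hQN
    rwa [hcQ] at this
  have := Nat.lcm_dvd hCN h8N
  have e : Nat.lcm 12 8 = 24 := by decide
  rwa [e] at this

/-- the group `PSL(2, 13)` -/
abbrev P13 : Type := Matrix.ProjectiveSpecialLinearGroup (Fin 2) (ZMod 13)

instance finP : Finite P13 := Finite.of_surjective _ (proj_surj (F := ZMod 13))

theorem card_P : Nat.card P13 = 1092 := by
  have h := card_comap two_ne (⊤ : Subgroup P13)
  rw [Subgroup.comap_top, Subgroup.card_top, Subgroup.card_top, card_G] at h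
  have h' : 2184 = 2 * Nat.card P13 := h
  omega

theorem ker_proj : (proj (F := ZMod 13)).ker = Zc := by
  rw [← center_eq]
  exact QuotientGroup.ker_mk' _

theorem case_8 (X : Subgroup G13) (hneg : negOne ∈ X) (hc : Nat.card X = 8)
    (hn : ¬ X.Normal) : 24 ∣ Nat.card (Nz X) := by
  have hNt : Nz X ≠ ⊤ := fun h => hn (Subgroup.normalizer_eq_top_iff.mp h)
  have hD := ord_cases' _ (negOne_mem_normalizer X) hNt
  have h8 : 8 ∣ Nat.card (Nz X) := hc ▸ Subgroup.card_dvd_of_le Subgroup.le_normalizer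
  rcases arith8 _ (lt157 _ hD) hD h8 with h | h
  · exfalso
    have hNX : Nz X = X :=
      (Subgroup.eq_of_le_of_card_ge Subgroup.le_normalizer (by rw [h, hc])).symm
    obtain ⟨P, hP⟩ : ∃ P : Subgroup P13, P = X.map proj := ⟨_, rfl⟩
    have hcomap : P.comap proj = X := by
      rw [hP, Subgroup.comap_map_eq, sup_eq_left, ker_proj]
      exact Zc_le X hneg
    have hcP : Nat.card P = 4 := by
      have := card_comap two_ne P
      rw [hcomap, hc] at this
      have h' : 8 = 2 * Nat.card P := this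
      omega
    have hNP : Subgroup.normalizer (P : Set P13) = P := by
      have h1 : (Subgroup.normalizer (P : Set P13)).comap proj =
          Subgroup.normalizer ((P.comap proj : Subgroup G13) : Set G13) :=
        Subgroup.comap_normalizer_eq_of_surjective P proj_surj
      rw [hcomap] at h1
      exact Subgroup.comap_injective proj_surj (h1.trans (hNX.trans hcomap.symm))
    have hf : (1092).factorization 2 = 2 := fact_aux 2 2 273 Nat.prime_two (by decide)
    have hcP' : Nat.card P = 2 ^ (Nat.card P13).factorization 2 := by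
      rw [card_P, hf, hcP]
      norm_num
    have hcomm : ∀ a b : P, a * b = b * a := by
      have hi := IsPGroup.isMulCommutative_of_card_eq_prime_sq (p := 2) (G := P) hcP
      intro a b
      exact hi.is_comm.comm a b
    have hle : Subgroup.normalizer ((Sylow.ofCard P hcP' : Sylow 2 P13) : Set P13) ≤
        Subgroup.centralizer ((Sylow.ofCard P hcP' : Sylow 2 P13) : Set P13) := by
      intro a ha
      have haP : a ∈ P := by
        have : a ∈ Subgroup.normalizer (P : Set P13) := ha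
        rwa [hNP] at this
      rw [Subgroup.mem_centralizer_iff]
      intro b hb
      have hbP : b ∈ P := hb
      exact congrArg Subtype.val (hcomm ⟨b, hbP⟩ ⟨a, haP⟩)
    have hcompl := MonoidHom.ker_transferSylow_isComplement' (Sylow.ofCard P hcP') hle
    have hcard := hcompl.card_mul_card
    have hcQ : Nat.card ((Sylow.ofCard P hcP' : Sylow 2 P13) : Subgroup P13) = 4 := hcP
    rw [hcQ, card_P] at hcard
    have hK : Nat.card (MonoidHom.transferSylow (Sylow.ofCard P hcP') hle).ker = 273 := by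
      omega
    have hKc := card_comap two_ne (MonoidHom.transferSylow (Sylow.ofCard P hcP') hle).ker
    rw [hK] at hKc
    have hKt : (MonoidHom.transferSylow (Sylow.ofCard P hcP') hle).ker.comap proj ≠ ⊤ :=
      ne_top_of_card _ (by rw [hKc]; decide)
    have hD2 := ord_cases' _ (negOne_mem_comap _) hKt
    rw [hKc] at hD2
    revert hD2
    decide
  · rw [h]

theorem u_pow (b : ZMod 13) (n : ℕ) : (u b : G13) ^ n = u (n * b) := by
  induction n with
  | zero => rw [pow_zero, Nat.cast_zero, zero_mul, u_zero]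
  | succ k ih => rw [pow_succ, ih, u_mul, Nat.cast_succ, add_mul, one_mul]

theorem u_mem_zpowers (b s : ZMod 13) (hb : b ≠ 0) :
    (u s : G13) ∈ Subgroup.zpowers (u b : G13) := by
  have e : (u s : G13) = (u b) ^ ((s / b).val) := by
    rw [u_pow, ZMod.natCast_zmod_val, div_mul_cancel₀ _ hb]
  rw [e]
  exact Subgroup.pow_mem _ (Subgroup.mem_zpowers _) _

theorem u00 (b : ZMod 13) : (u b : G13).1 0 0 = 1 := rfl
theorem u01 (b : ZMod 13) : (u b : G13).1 0 1 = b := rfl
theorem u10 (b : ZMod 13) : (u b : G13).1 1 0 = 0 := rfl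
theorem u11 (b : ZMod 13) : (u b : G13).1 1 1 = 1 := rfl

/-- commutators of upper triangular matrices are unitriangular -/
theorem comm_Bo (h x : G13) (hh : h.1 1 0 = 0) (hx : x.1 1 0 = 0) :
    h * x * h⁻¹ * x⁻¹ = u ((h * x * h⁻¹ * x⁻¹).1 0 1) := by
  have dh := det_eq h
  have dx := det_eq x
  rw [hh] at dh
  rw [hx] at dx
  apply sl2_ext
  · rw [u00]
    simp only [mul00, mul01, inv00, inv01, inv10, inv11, hh, hx]
    linear_combination (x.1 0 0 * x.1 1 1) * dh + dx
  · rw [u01]
  · rw [u10]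
    simp only [mul10, mul11, inv00, inv01, inv10, inv11, hh, hx]
    ring
  · rw [u11]
    simp only [mul10, mul11, inv00, inv01, inv10, inv11, hh, hx]
    linear_combination (x.1 0 0 * x.1 1 1) * dh + dx

theorem case_13 (X : Subgroup G13) (g : G13) (hg : ∀ y ∈ X, (g * y * g⁻¹).1 1 0 = 0)
    (h13 : 13 ∣ Nat.card X) : 156 ∣ Nat.card (Nz X) := by
  obtain ⟨v', hv'⟩ := exists_prime_orderOf_dvd_card' (G := X) 13 h13
  have hv : orderOf (v' : G13) = 13 := by rw [Subgroup.orderOf_coe]; exact hv'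
  obtain ⟨v, hvd⟩ : ∃ v : G13, v = g * v' * g⁻¹ := ⟨_, rfl⟩
  have hv10 : v.1 1 0 = 0 := by rw [hvd]; exact hg v' v'.2
  have hv13 : (v' : G13) ^ 13 = 1 := by
    have := pow_orderOf_eq_one (v' : G13)
    rwa [hv] at this
  have hvp : v ^ 13 ^ 1 = 1 := by
    rw [pow_one, hvd, conj_pow, hv13, mul_one, mul_inv_cancel]
  have hv1 : v ≠ 1 := by
    intro h
    rw [hvd] at h
    have h2 : (v' : G13) = 1 := by
      have := congrArg (fun t => g⁻¹ * t * g) h
      simpa [mul_assoc] using this
    rw [h2, orderOf_one] at hv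
    omega
  have htr : v.1 0 0 + v.1 1 1 = 2 := tr_eq_two_of_pow 13 v 1 hvp
  have hdet := det_eq v
  rw [hv10] at hdet
  have h00 : v.1 0 0 = 1 := by
    have hsq : (v.1 0 0 - 1) ^ 2 = 0 := by
      linear_combination (v.1 0 0) * htr - hdet
    have := pow_eq_zero_iff (two_ne_zero) |>.mp hsq
    exact sub_eq_zero.mp this
  have h11 : v.1 1 1 = 1 := by
    rw [h00] at htr
    linear_combination htr
  have hvu : v = u (v.1 0 1) := by
    apply sl2_ext
    · rw [u00, h00]
    · rw [u01]
    · rw [u10, hv10]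
    · rw [u11, h11]
  have hb : v.1 0 1 ≠ 0 := by
    intro h0
    rw [h0, u_zero] at hvu
    exact hv1 hvu
  have hvX : v ∈ X.map (MulAut.conj g).toMonoidHom := by
    rw [hvd]
    exact ⟨v', v'.2, rfl⟩
  have hBo : Bo (ZMod 13) ≤ Nz (X.map (MulAut.conj g).toMonoidHom) := by
    rw [Subgroup.le_normalizer_iff]
    intro h hh x hx
    have hxB : x.1 1 0 = 0 := (mem_Bo x).mp (map_conj_le_Bo X g hg hx)
    have hhB : h.1 1 0 = 0 := (mem_Bo h).mp hh
    have e : h * x * h⁻¹ = (h * x * h⁻¹ * x⁻¹) * x := by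
      rw [inv_mul_cancel_right]
    rw [e, comm_Bo h x hhB hxB]
    refine Subgroup.mul_mem _ ?_ hx
    have hz : Subgroup.zpowers v ≤ X.map (MulAut.conj g).toMonoidHom := by
      rw [Subgroup.zpowers_le]
      exact hvX
    apply hz
    rw [hvu]
    exact u_mem_zpowers _ _ hb
  have hcard := Subgroup.card_dvd_of_le hBo
  rw [card_Bo, card_F] at hcard
  have hmap : (Nz X).map (MulAut.conj g).toMonoidHom =
      Nz (X.map (MulAut.conj g).toMonoidHom) :=
    Subgroup.map_equiv_normalizer_eq X (MulAut.conj g)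
  rw [← hmap, card_map_equiv] at hcard
  exact hcard

theorem nsize (X : Subgroup G13) (hneg : negOne ∈ X) (hn : ¬ X.Normal) :
    24 ∣ Nat.card (Nz X) ∨ 28 ∣ Nat.card (Nz X) ∨ 156 ∣ Nat.card (Nz X) := by
  have hXt : X ≠ ⊤ := by
    rintro rfl
    exact hn inferInstance
  by_cases h13 : 13 ∣ Nat.card X
  · rcases ord_cases X hneg hXt with ⟨g, hg⟩ | ⟨h, -⟩
    · exact Or.inr (Or.inr (case_13 X g hg h13))
    · exact absurd h13 h
  · have hD := ord_cases' X hneg hXt
    have h2 : 2 ∣ Nat.card X := by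
      have := Subgroup.card_dvd_of_le (Zc_le X hneg)
      rwa [card_Zc13] at this
    rcases arithX _ (lt157 _ hD) hD h2 h13 with h | h | h | h | h | h | h | h
    · exfalso
      apply hn
      have e : Zc = X := Subgroup.eq_of_le_of_card_ge (Zc_le X hneg) (by rw [h, card_Zc13])
      rw [← e]
      infer_instance
    · exact Or.inl (case_4 X h)
    · rcases case_2r X hneg 3 (Or.inl rfl) h with h' | h'
      · exact Or.inl h'
      · exact Or.inr (Or.inl h')
    · exact Or.inl (case_8 X hneg h hn)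
    · exact Or.inl (case_12 X hneg h)
    · rcases case_2r X hneg 7 (Or.inr rfl) h with h' | h'
      · exact Or.inl h'
      · exact Or.inr (Or.inl h')
    · left
      exact h ▸ Subgroup.card_dvd_of_le Subgroup.le_normalizer
    · right; left
      exact h ▸ Subgroup.card_dvd_of_le Subgroup.le_normalizer

/-- non-normal subgroups containing `-1` have maximal normalizers -/
theorem core13 (X : Subgroup G13) (hneg : negOne ∈ X) (hn : ¬ X.Normal) :
    IsCoatom (Nz X) := by
  have hNt : Nz X ≠ ⊤ := fun h => hn (Subgroup.normalizer_eq_top_iff.mp h)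
  have hD := ord_cases' _ (negOne_mem_normalizer X) hNt
  have hS := nsize X hneg hn
  exact coatom_of_card _ (negOne_mem_normalizer X) (arithN _ (lt157 _ hD) hD hS)

theorem negOne_pow_odd (n : ℕ) (hn : ¬ 2 ∣ n) : (negOne : G13) ^ n = negOne := by
  obtain ⟨m, hm⟩ : Odd n := by
    rw [← Nat.not_even_iff_odd, even_iff_two_dvd]
    exact hn
  rw [hm, pow_succ, pow_mul, pow_two, negOne_mul_negOne, one_pow, one_mul]

/-- **every non-normal subgroup of `SL(2, 13)` has a maximal normalizer** -/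
theorem nm_SL : NM G13 := by
  intro H hH
  by_cases hneg : negOne ∈ H
  · exact core13 H hneg hH
  · have hodd : ¬ 2 ∣ Nat.card H := by
      intro h2
      obtain ⟨t, ht⟩ := exists_prime_orderOf_dvd_card' (G := H) 2 h2
      have ht' : orderOf (t : G13) = 2 := by rw [Subgroup.orderOf_coe]; exact ht
      have h1 : (t : G13) * t = 1 := by
        have := pow_orderOf_eq_one (t : G13)
        rw [ht', pow_two] at this
        exact this
      rcases sq_eq_one two_ne _ h1 with h | h
      · rw [h, orderOf_one] at ht'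
        omega
      · exact hneg (h ▸ t.2)
    have hN1 : Nz H ≤ Nz (H ⊔ Zc : Subgroup G13) :=
      Subgroup.normalizer_le_normalizer_sup_normal
    have hN2 : Nz (H ⊔ Zc : Subgroup G13) ≤ Nz H := by
      rw [Subgroup.le_normalizer_iff]
      intro g hg k hk
      have h1 : g * k * g⁻¹ ∈ (H ⊔ Zc : Subgroup G13) :=
        ((Subgroup.mem_normalizer_iff.mp hg) k).mp ((le_sup_left : H ≤ H ⊔ Zc) hk)
      rw [← SetLike.mem_coe, Subgroup.mul_normal] at h1
      obtain ⟨a, ha, z, hz, haz⟩ := h1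
      rcases hz with rfl | rfl
      · have haz' : a * 1 = g * k * g⁻¹ := haz
        rw [mul_one] at haz'
        rw [← haz']
        exact ha
      · exfalso
        have e1 : (g * k * g⁻¹) ^ Nat.card H = 1 := by
          have hk1 : k ^ Nat.card H = 1 :=
            orderOf_dvd_iff_pow_eq_one.mp (H.orderOf_dvd_natCard hk)
          rw [conj_pow, hk1, mul_one, mul_inv_cancel]
        have e2 : (a * negOne) ^ Nat.card H = negOne := by
          have hc : Commute a (negOne : G13) := (negOne_comm a).symm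
          have ha1 : a ^ Nat.card H = 1 :=
            orderOf_dvd_iff_pow_eq_one.mp (H.orderOf_dvd_natCard ha)
          rw [hc.mul_pow, ha1, one_mul, negOne_pow_odd _ hodd]
        have haz' : a * negOne = g * k * g⁻¹ := haz
        rw [haz', e1] at e2
        exact negOne_ne_one two_ne e2.symm
    have hNeq : Nz H = Nz (H ⊔ Zc : Subgroup G13) := le_antisymm hN1 hN2
    show IsCoatom (Nz H)
    rw [hNeq]
    apply core13
    · exact (le_sup_right : Zc ≤ H ⊔ Zc) negOne_mem_Zc
    · intro hn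
      apply hH
      rw [← Subgroup.normalizer_eq_top_iff]
      show Nz H = ⊤
      rw [hNeq]
      exact Subgroup.normalizer_eq_top_iff.mpr hn

/-- **every non-normal subgroup of `PSL(2, 13)` has a maximal normalizer** -/
theorem nm_PSL : NM P13 := NM.of_surjective proj proj_surj nm_SL

end Cfsg.Agent.Lib.Helper66.SL13
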